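import Cfsg.Agent.Lib.Forms.SympStd
import Cfsg.Prelude.Def_Classical

/-!
In characteristic two the odd-dimensional orthogonal group is the symplectic group.
-/

set_option autoImplicit false

namespace Cfsg.Agent.Lib.Classical

open Matrix Cfsg.Agent.Lib.Forms

variable {F : Type*} [Field F] {m : ℕ}

lemma quadFormOdd_add [CharP F 2] (u v : Unit ⊕ (Fin m ⊕ Fin m) → F) :
    Cfsg.quadFormOdd m F (u + v) = Cfsg.quadFormOdd m F u + Cfsg.quadFormOdd m F v +
      stdB m F (fun i => u (.inr i)) (fun i => v (.inr i)) := by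
  have hB : stdB m F (fun i => u (.inr i)) (fun i => v (.inr i)) =
      ∑ i, (u (.inr (.inl i)) * v (.inr (.inr i)) + u (.inr (.inr i)) * v (.inr (.inl i))) := by
    rw [stdB_apply, Cfsg.sympForm, dotProduct, Fintype.sum_sum_type, Finset.sum_add_distrib]
    simp [Matrix.mulVec, dotProduct, Fintype.sum_sum_type, Matrix.J, Matrix.one_apply, CharTwo.neg_eq]
  rw [hB]
  simp only [Cfsg.quadFormOdd, Pi.add_apply, CharTwo.add_sq, add_mul, mul_add, Finset.sum_add_distrib]
  rw [show ∑ x : Fin m, u (Sum.inr (Sum.inr x)) * v (Sum.inr (Sum.inl x)) =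
    ∑ x, v (Sum.inr (Sum.inl x)) * u (Sum.inr (Sum.inr x)) from
      Finset.sum_congr rfl fun x _ => mul_comm _ _]
  ring

lemma quadFormOdd_smul (c : F) (v : Unit ⊕ (Fin m ⊕ Fin m) → F) :
    Cfsg.quadFormOdd m F (c • v) = c ^ 2 * Cfsg.quadFormOdd m F v := by
  simp only [Cfsg.quadFormOdd, Pi.smul_apply, smul_eq_mul, mul_add, Finset.mul_sum]
  congr 1
  · ring
  · exact Finset.sum_congr rfl fun i _ => by ring

lemma sq_inj_char_two [CharP F 2] {x y : F} (h : x ^ 2 = y ^ 2) : x = y := frobenius_inj F 2 h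

theorem oddCharTwo_equiv [Fintype F] [CharP F 2] (m : ℕ) :
    Nonempty (Cfsg.isometryGroup F (Cfsg.quadFormOdd m F) ≃* Matrix.symplecticGroup (Fin m) F) := by
  classical
  let O := Cfsg.isometryGroup F (Cfsg.quadFormOdd m F)
  let mat : O → Matrix (Unit ⊕ (Fin m ⊕ Fin m)) (Unit ⊕ (Fin m ⊕ Fin m)) F := fun g =>
    ((g : GL (Unit ⊕ (Fin m ⊕ Fin m)) F) : Matrix (Unit ⊕ (Fin m ⊕ Fin m)) (Unit ⊕ (Fin m ⊕ Fin m)) F)
  have hiso : ∀ (g : O) v, Cfsg.quadFormOdd m F (mat g *ᵥ v) = Cfsg.quadFormOdd m F v :=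
    fun g v => g.2 v v
  have hB : ∀ (g : O) u v, stdB m F (fun i => (mat g *ᵥ u) (.inr i)) (fun i => (mat g *ᵥ v) (.inr i)) =
      stdB m F (fun i => u (.inr i)) (fun i => v (.inr i)) := by
    intro g u v
    have h := hiso g (u + v)
    rw [mulVec_add, quadFormOdd_add, quadFormOdd_add, hiso, hiso] at h
    exact add_left_cancel h
  -- the radical
  have hrad : ∀ g : O, mat g *ᵥ Pi.single (Sum.inl ()) 1 = Pi.single (Sum.inl ()) 1 := by
    intro g
    set w := mat g *ᵥ Pi.single (Sum.inl ()) 1 with hw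
    have h0 : (fun i => w (.inr i)) = (0 : Fin m ⊕ Fin m → F) := by
      refine (stdB_nondegenerate m (F := F)).1 _ fun z => ?_
      have := hB g (Pi.single (Sum.inl ()) 1) (mat g⁻¹ *ᵥ Sum.elim 0 z)
      rw [← hw, mulVec_mulVec, show mat g * mat g⁻¹ = 1 by
        rw [← Units.val_mul, ← Subgroup.coe_mul, mul_inv_cancel]; rfl, one_mulVec,
        show (fun i => (Pi.single (Sum.inl ()) (1 : F) : Unit ⊕ (Fin m ⊕ Fin m) → F) (.inr i)) = 0 from
          funext fun i => by simp] at this
      simpa using this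
    have h1 : w (.inl ()) = 1 := by
      have := hiso g (Pi.single (Sum.inl ()) 1)
      rw [← hw] at this
      simp [Cfsg.quadFormOdd, congrFun h0 (Sum.inl _)] at this
      rcases this with h | h
      · exact h
      · rw [h, CharTwo.neg_eq]
    ext (u | i)
    · rw [h1]; simp
    · rw [congrFun h0 i]; simp
  have hblock : ∀ g : O, mat g = fromBlocks 1 (mat g).toBlocks₁₂ 0 (mat g).toBlocks₂₂ := by
    intro g
    conv_lhs => rw [← fromBlocks_toBlocks (mat g)]
    congr 1
    · ext ⟨⟩ ⟨⟩
      have := congrFun (hrad g) (Sum.inl ())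
      simpa [Matrix.col_apply, toBlocks₁₁] using this
    · ext i ⟨⟩
      have := congrFun (hrad g) (Sum.inr i)
      simpa [Matrix.col_apply, toBlocks₂₁] using this
  have hA : ∀ g : O, (mat g).toBlocks₂₂ ∈ Matrix.symplecticGroup (Fin m) F := by
    intro g
    rw [← stdB_iff_matrix]
    intro u v
    have h := hB g (Sum.elim 0 u) (Sum.elim 0 v)
    rw [hblock g, fromBlocks_mulVec, fromBlocks_mulVec] at h
    simpa using h
  let φ : O →* Matrix.symplecticGroup (Fin m) F := MonoidHom.mk' (fun g => ⟨_, hA g⟩) fun g h => by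
    apply Subtype.ext
    change (mat (g * h)).toBlocks₂₂ = (mat g).toBlocks₂₂ * (mat h).toBlocks₂₂
    rw [show mat (g * h) = mat g * mat h from rfl]
    conv_lhs => rw [hblock g, hblock h, fromBlocks_multiply]
    simp
  have hinj : Function.Injective φ := by
    intro g h hgh
    have hA' : (mat g).toBlocks₂₂ = (mat h).toBlocks₂₂ := congrArg Subtype.val hgh
    have hC : (mat g).toBlocks₁₂ = (mat h).toBlocks₁₂ := by
      ext ⟨⟩ j
      have h1 := (hiso g (Pi.single (Sum.inr j) 1)).trans (hiso h (Pi.single (Sum.inr j) 1)).symm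
      refine sq_inj_char_two ?_
      have hi : ∀ i, mat g (.inr i) (.inr j) = mat h (.inr i) (.inr j) := fun i =>
        congrFun (congrFun hA' i) j
      simpa [Cfsg.quadFormOdd, Matrix.col_apply, hi, toBlocks₁₂] using h1
    refine Subtype.ext (Units.ext ?_)
    change mat g = mat h
    rw [hblock g, hblock h, hA', hC]
  have hsurj : Function.Surjective φ := by
    rintro ⟨A, hA⟩
    have hsq : ∀ x : F, ∃ r, x = r * r := fun x =>
      FiniteField.isSquare_of_char_two (ringChar.eq F 2) x
    choose r hr using hsq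
    let C : Matrix Unit (Fin m ⊕ Fin m) F := Matrix.of fun _ j =>
      r (Cfsg.quadFormOdd m F (Pi.single (Sum.inr j) 1) + Cfsg.quadFormOdd m F
        (Sum.elim 0 (A *ᵥ Pi.single j 1)))
    have hdet : (fromBlocks (1 : Matrix Unit Unit F) C 0 A).det ≠ 0 := by
      rw [det_fromBlocks_zero₂₁, det_one, one_mul]
      exact ((Matrix.isUnit_iff_isUnit_det A).1
        ⟨(spToGL m F ⟨A, hA⟩), rfl⟩).ne_zero
    let g : GL (Unit ⊕ (Fin m ⊕ Fin m)) F := GeneralLinearGroup.mkOfDetNeZero _ hdet
    have hg : ∀ v, Cfsg.quadFormOdd m F (fromBlocks (1 : Matrix Unit Unit F) C 0 A *ᵥ v) = Cfsg.quadFormOdd m F v := by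
      intro v
      set M := fromBlocks (1 : Matrix Unit Unit F) C 0 A with hM
      suffices ∀ s : Finset (Unit ⊕ (Fin m ⊕ Fin m)),
          Cfsg.quadFormOdd m F (M *ᵥ ∑ j ∈ s, v j • Pi.single j 1) =
            Cfsg.quadFormOdd m F (∑ j ∈ s, v j • Pi.single j 1) by
        have h := this Finset.univ
        rwa [← pi_eq_sum_univ' v] at h
      intro s
      induction s using Finset.induction with
      | empty => simp
      | insert j s hj ih =>
        rw [Finset.sum_insert hj, mulVec_add, quadFormOdd_add, quadFormOdd_add, ih, mulVec_smul,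
          quadFormOdd_smul, quadFormOdd_smul]
        have hsingle : Cfsg.quadFormOdd m F (M *ᵥ Pi.single j 1) =
            Cfsg.quadFormOdd m F (Pi.single j 1) := by
          rcases j with ⟨⟩ | j
          · congr 1
            ext (⟨⟩ | i) <;> simp [hM, Matrix.col_apply]
          · set a := Cfsg.quadFormOdd m F (Pi.single (Sum.inr j) 1) with ha
            set b := Cfsg.quadFormOdd m F (Sum.elim 0 (A *ᵥ Pi.single j 1)) with hb
            have he : M *ᵥ Pi.single (Sum.inr j) 1 = Sum.elim (fun _ => r (a + b)) (A *ᵥ Pi.single j 1) := by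
              ext (⟨⟩ | i) <;> simp [hM, Matrix.col_apply, C, ha, hb]
            have hsplit : Cfsg.quadFormOdd m F (Sum.elim (fun _ => r (a + b)) (A *ᵥ Pi.single j 1)) =
                r (a + b) ^ 2 + b := by
              simp [Cfsg.quadFormOdd, hb]
            rw [he, hsplit, pow_two, ← hr, add_assoc, CharTwo.add_self_eq_zero, add_zero]
        rw [hsingle]
        congr 1
        have hMB : ∀ u w, stdB m F (fun i => (M *ᵥ u) (.inr i)) (fun i => (M *ᵥ w) (.inr i)) =
            stdB m F (fun i => u (.inr i)) (fun i => w (.inr i)) := by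
          intro u w
          have h := (stdB_iff_matrix m A).2 hA (fun i => u (.inr i)) (fun i => w (.inr i))
          simpa [hM, fromBlocks_mulVec, Function.comp_def] using h
        rw [← mulVec_smul]
        exact hMB _ _
    refine ⟨⟨g, fun u _ => hg u⟩, Subtype.ext ?_⟩
    change (fromBlocks (1 : Matrix Unit Unit F) C 0 A).toBlocks₂₂ = A
    simp
  exact ⟨MulEquiv.ofBijective φ ⟨hinj, hsurj⟩⟩

end Cfsg.Agent.Lib.Classical
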