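import Cfsg.Prelude.Def_KGroupFacts
import Cfsg.Agent.Lib.Thompson.ExtraspecialBasis
import Cfsg.Agent.Lib.Classical.QuadF2
import Cfsg.Agent.Lib.Classical.ExcIso.Common

/-!
The outer automorphism group of an extraspecial 2-group is the orthogonal group of its squaring form.
-/

set_option autoImplicit false

namespace Cfsg.Agent.Lib.Classical.ExtraOut

open QuadraticMap Cfsg.Agent.Lib.Thompson.Extra Cfsg.Agent.Lib.Classical.Quad
open Cfsg.Agent.Lib.Classical.QuadOmega Cfsg.Agent.Lib.Classical.QuadF2
open Cfsg.Agent.Lib.Classical.ExcIso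
open scoped commutatorElement Matrix

attribute [local instance] _root_.Classical.propDecidable

variable {E : Type*} [Group E] {z : E}

/-- The class of an element of `{1, z}`. -/
noncomputable def chi (w : E) : ZMod 2 := if w = 1 then 0 else 1

lemma z_ne_one (d : Data 2 z) : z ≠ 1 := fun h => by
  have := d.ord; rw [h, orderOf_one] at this; omega

lemma z_cases (d : Data 2 z) {w : E} (hw : w ∈ Subgroup.zpowers z) : w = 1 ∨ w = z := by
  obtain ⟨i, rfl⟩ := hw
  have hz2 : z ^ (2 : ℤ) = 1 := by rw [zpow_two, ← pow_two, ← d.ord, pow_orderOf_eq_one]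
  rcases Int.even_or_odd i with ⟨j, rfl⟩ | ⟨j, rfl⟩
  · left; change z ^ (j + j) = 1; rw [← two_mul, zpow_mul, hz2, one_zpow]
  · right; change z ^ (2 * j + 1) = z; rw [zpow_add, zpow_mul, hz2, one_zpow, one_mul, zpow_one]

lemma z_mul_self (d : Data 2 z) : z * z = 1 := by rw [← pow_two, ← d.ord, pow_orderOf_eq_one]

lemma chi_one : chi (1 : E) = 0 := if_pos rfl

lemma chi_z (d : Data 2 z) : chi z = 1 := if_neg (z_ne_one d)

lemma chi_mul (d : Data 2 z) {u v : E} (hu : u ∈ Subgroup.zpowers z) (hv : v ∈ Subgroup.zpowers z) :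
    chi (u * v) = chi u + chi v := by
  rcases z_cases d hu with rfl | rfl <;> rcases z_cases d hv with h | h <;> subst h <;>
    simp [chi_one, chi_z d, z_mul_self d, CharTwo.add_self_eq_zero]

lemma chi_inj (d : Data 2 z) {u v : E} (hu : u ∈ Subgroup.zpowers z) (hv : v ∈ Subgroup.zpowers z)
    (h : chi u = chi v) : u = v := by
  rcases z_cases d hu with rfl | rfl <;> rcases z_cases d hv with h' | h' <;> subst h' <;>
    first | rfl | simp [chi_one, chi_z d] at h

lemma chi_comm (d : Data 2 z) (u v : E) : chi ⁅u, v⁆ = chi ⁅v, u⁆ := by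
  rw [← commutatorElement_inv]
  rcases z_cases d (d.comm v u) with h | h <;> rw [h]
  · rw [inv_one]
  · rw [inv_eq_of_mul_eq_one_left (z_mul_self d)]

lemma mul_sq_eq (d : Data 2 z) (x y : E) : (x * y) ^ 2 = x ^ 2 * y ^ 2 * ⁅y, x⁆ := by
  rw [pow_two, pow_two, pow_two, mul_assoc (x * x),
    show y * y * ⁅y, x⁆ = ⁅y, x⁆ * (y * y) from ((d.commute' y x (y * y)).eq).symm]
  calc x * y * (x * y) = x * (⁅y, x⁆ * x) * (y * y) := by simp [commutatorElement_def, mul_assoc]
    _ = x * (x * ⁅y, x⁆) * (y * y) := by rw [(d.commute' y x x).eq]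
    _ = _ := by simp [mul_assoc]

lemma chi_sq_mul (d : Data 2 z) (x y : E) :
    chi ((x * y) ^ 2) = chi (x ^ 2) + chi (y ^ 2) + chi ⁅y, x⁆ := by
  rw [mul_sq_eq d, chi_mul d (mul_mem (d.pow x) (d.pow y)) (d.comm y x), chi_mul d (d.pow x) (d.pow y)]

lemma two_cases' : ∀ x : ZMod 2, x = 0 ∨ x = 1 := by decide

/-- An automorphism prescribed on generators. -/
theorem exists_aut [Finite E] (d : Data 2 z) {ι : Type*} [Finite ι] {x x' : ι → E}
    (hgen : Subgroup.closure (Set.range x) ⊔ Subgroup.zpowers z = ⊤)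
    (hgen' : Subgroup.closure (Set.range x') ⊔ Subgroup.zpowers z = ⊤)
    (hc : ∀ i j, ⁅x' i, x' j⁆ = ⁅x i, x j⁆) (he : ∀ i, x' i ^ 2 = x i ^ 2)
    (hcard : Nat.card E = 2 ^ (Nat.card ι + 1)) : ∃ σ : MulAut E, ∀ i, σ (x i) = x' i := by
  classical
  have hz : z ^ 2 = 1 := d.ord ▸ pow_orderOf_eq_one z
  let w : E × E := (z, z)
  let g : ι → E × E := fun i => (x i, x' i)
  set D := Subgroup.closure (Set.range g) ⊔ Subgroup.zpowers w with hD
  have hle : Nat.card D ≤ 2 ^ (Nat.card ι + 1) := by
    refine card_closure_le (Prod.ext hz hz) (fun h => Prod.ext (d.commute h.1).eq (d.commute h.2).eq) g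
      (fun i j => ?_) (fun i => ?_)
    · obtain ⟨c, hcij⟩ := d.comm (x i) (x j)
      exact ⟨c, Prod.ext hcij (hcij.trans (hc i j).symm)⟩
    · obtain ⟨c, hci⟩ := d.pow (x i)
      exact ⟨c, Prod.ext hci (hci.trans (he i).symm)⟩
  have s1 := surj_of_gen g w (MonoidHom.fst E E) x z (fun _ => rfl) rfl hgen
  have s2 := surj_of_gen g w (MonoidHom.snd E E) x' z (fun _ => rfl) rfl hgen'
  have e1 : Nat.card D = Nat.card E := le_antisymm (hcard ▸ hle) (Nat.card_le_card_of_surjective _ s1)
  let B1 := MulEquiv.ofBijective _ (Nat.bijective_iff_surjective_and_card _ |>.mpr ⟨s1, e1⟩)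
  let B2 := MulEquiv.ofBijective _ (Nat.bijective_iff_surjective_and_card _ |>.mpr ⟨s2, e1⟩)
  refine ⟨B1.symm.trans B2, fun i => ?_⟩
  have hmem : g i ∈ D := Subgroup.mem_sup_left (Subgroup.subset_closure ⟨i, rfl⟩)
  have h1 : B1.symm (x i) = ⟨g i, hmem⟩ := B1.symm_apply_eq.2 rfl
  change B2 (B1.symm (x i)) = x' i
  rw [h1]
  rfl

variable [Finite E] (d : Data 2 z) {n : ℕ} {a b : Fin n → E} (hP : Pairs z a b)
  (hC : cen a b ≤ Subgroup.zpowers z)

/-- Coordinates modulo the centre. -/
noncomputable def coords (a b : Fin n → E) (g : E) : V2 n :=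
  Sum.elim (fun i => chi ⁅g, b i⁆) (fun i => chi ⁅g, a i⁆)

include d

omit [Finite E] in
lemma coords_mul (g h : E) : coords a b (g * h) = coords a b g + coords a b h := by
  funext t
  rcases t with i | i <;>
    simp only [coords, Sum.elim_inl, Sum.elim_inr, Pi.add_apply, d.mul_left, chi_mul d (d.comm _ _) (d.comm _ _)]

omit [Finite E] in
lemma coords_z : coords a b z = 0 := by
  funext t
  rcases t with i | i <;>
    simp [coords, commutatorElement_eq_one_iff_commute.2 (d.commute _), chi_one]

omit [Finite E] in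
lemma coords_one : coords a b (1 : E) = 0 := by
  funext t
  rcases t with i | i <;> simp [coords, chi_one]

include hP

omit [Finite E] in
lemma coords_gen (t : Fin n ⊕ Fin n) : coords a b (Sum.elim a b t) = Pi.single t 1 := by
  funext s
  rcases t with i | i <;> rcases s with j | j <;>
    simp only [coords, Sum.elim_inl, Sum.elim_inr, Pi.single_apply, Sum.inl.injEq, Sum.inr.injEq,
      reduceCtorEq, if_false]
  · split_ifs with h
    · subst h; rw [hP.pair, chi_z d]
    · rw [commutatorElement_eq_one_iff_commute.2 (hP.ab i j (Ne.symm h)), chi_one]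
  · rw [commutatorElement_eq_one_iff_commute.2 (hP.aa i j), chi_one]
  · rw [commutatorElement_eq_one_iff_commute.2 (hP.bb i j), chi_one]
  · split_ifs with h
    · subst h; rw [chi_comm d, hP.pair, chi_z d]
    · rw [commutatorElement_eq_one_iff_commute.2 (hP.ab j i h).symm, chi_one]

include hC

omit [Finite E] in
lemma mem_of_coords_eq_zero {g : E} (h : coords a b g = 0) : g ∈ Subgroup.zpowers z := by
  refine hC (mem_cen.2 fun i => ⟨?_, ?_⟩) <;> rw [← commutatorElement_eq_one_iff_commute] <;>
    refine chi_inj d (d.comm _ _) (one_mem _) ?_ <;> rw [chi_one]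
  · exact congrFun h (.inr i)
  · exact congrFun h (.inl i)

lemma coords_surjective : Function.Surjective (coords a b) := by
  let π : E →* Multiplicative (V2 n) := MonoidHom.mk' (fun g => Multiplicative.ofAdd (coords a b g))
    fun g h => by rw [coords_mul d]; rfl
  have hker : π.ker = Subgroup.zpowers z := by
    refine le_antisymm (fun g hg => mem_of_coords_eq_zero d hP hC (Multiplicative.ofAdd.injective hg))
      ((Subgroup.zpowers_le).2 ?_)
    exact MonoidHom.mem_ker.2 (congrArg Multiplicative.ofAdd (coords_z d))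
  have hcard : Nat.card π.range = Nat.card (Multiplicative (V2 n)) := by
    have h1 := π.ker.card_mul_index
    rw [Subgroup.index_ker, hker, Nat.card_zpowers, d.ord, card_cons_le d hP hC, pow_succ'] at h1
    rw [Nat.card_congr Multiplicative.toAdd, Nat.card_fun, Nat.card_sum, Nat.card_fin, Nat.card_zmod,
      ← two_mul]
    exact Nat.eq_of_mul_eq_mul_left two_pos h1
  intro v
  obtain ⟨g, hg⟩ : Multiplicative.ofAdd v ∈ π.range := by
    rw [Subgroup.eq_top_of_card_eq _ hcard]; trivial
  exact ⟨g, Multiplicative.ofAdd.injective hg⟩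

omit [Finite E] in
lemma chi_bracket [Finite E] (g h : E) :
    chi ⁅g, h⁆ = polar (plusQ n (ZMod 2)) (coords a b g) (coords a b h) := by
  have hgen := (generate d hP hC).1
  have hg : g ∈ Subgroup.closure (Set.range (Sum.elim a b) ∪ {z}) := by
    rw [Subgroup.closure_union, ← Subgroup.zpowers_eq_closure, hgen]; trivial
  induction hg using Subgroup.closure_induction with
  | mem x hx =>
    rcases hx with ⟨t, rfl⟩ | rfl
    · rw [coords_gen d hP t, polar_plusQ, chi_comm d]
      rcases t with i | i <;> simp [coords, Pi.single_apply]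
    · rw [commutatorElement_eq_one_iff_commute.2 (d.commute h), chi_one, coords_z d, polar_zero_left]
  | one => rw [commutatorElement_one_left, chi_one, coords_one d, polar_zero_left]
  | mul x y _ _ hx hy =>
    rw [d.mul_left, chi_mul d (d.comm _ _) (d.comm _ _), hx, hy, coords_mul d, polar_add_left]
  | inv x _ hx =>
    have h1 := d.mul_left x⁻¹ x h
    rw [inv_mul_cancel, commutatorElement_one_left] at h1
    have h2 : chi ⁅x⁻¹, h⁆ + chi ⁅x, h⁆ = 0 := by rw [← chi_mul d (d.comm _ _) (d.comm _ _), ← h1, chi_one]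
    have h3 : coords a b x⁻¹ + coords a b x = 0 := by rw [← coords_mul d, inv_mul_cancel, coords_one d]
    rw [eq_neg_of_add_eq_zero_left h2, eq_neg_of_add_eq_zero_left h3, polar_neg_left, hx]

/-- A lift of a vector. -/
noncomputable def lift (v : V2 n) : E := Function.surjInv (coords_surjective d hP hC) v

lemma coords_lift (v : V2 n) : coords a b (lift d hP hC v) = v := Function.surjInv_eq _ v

/-- The squaring form. -/
noncomputable def sqForm (v : V2 n) : ZMod 2 := chi (lift d hP hC v ^ 2)

lemma sqForm_coords (g : E) : sqForm d hP hC (coords a b g) = chi (g ^ 2) := by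
  set s := lift d hP hC (coords a b g)
  have hs : coords a b s = coords a b g := coords_lift d hP hC _
  have hm : s⁻¹ * g ∈ Subgroup.zpowers z := mem_of_coords_eq_zero d hP hC (by
    have h3 : coords a b s⁻¹ + coords a b s = 0 := by rw [← coords_mul d, inv_mul_cancel, coords_one d]
    rw [coords_mul d, eq_neg_of_add_eq_zero_left h3, hs, neg_add_cancel])
  have e : g = s * (s⁻¹ * g) := by group
  change chi (s ^ 2) = _
  rw [e, chi_sq_mul d]
  rcases z_cases d hm with h | h <;> rw [h]
  · simp [chi_one]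
  · rw [pow_two z, z_mul_self d, chi_one, commutatorElement_eq_one_iff_commute.2 (d.commute s), chi_one]
    simp

lemma sqForm_pol : Pol n (sqForm d hP hC) := fun u v => by
  obtain ⟨g, rfl⟩ := coords_surjective d hP hC u
  obtain ⟨h, rfl⟩ := coords_surjective d hP hC v
  rw [← coords_mul d, sqForm_coords, sqForm_coords, sqForm_coords, chi_sq_mul d, chi_bracket d hP hC h g,
    polar_comm]

omit hP hC in
lemma aut_z (σ : MulAut E) : σ z = z := by
  have hm : σ z ∈ Subgroup.zpowers z := by
    rw [← d.cen, Subgroup.mem_center_iff]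
    intro g
    obtain ⟨g, rfl⟩ := σ.surjective g
    rw [← map_mul, ← map_mul, (d.commute g).eq]
  exact (z_cases d hm).resolve_left fun h => z_ne_one d (σ.injective (h.trans (map_one σ).symm))

lemma coords_aut (σ : MulAut E) {g h : E} (e : coords a b g = coords a b h) :
    coords a b (σ g) = coords a b (σ h) := by
  have h3 : ∀ x, coords a b x⁻¹ = -coords a b x := fun x => eq_neg_of_add_eq_zero_left (by
    rw [← coords_mul d, inv_mul_cancel, coords_one d])
  have hm : g⁻¹ * h ∈ Subgroup.zpowers z := mem_of_coords_eq_zero d hP hC (by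
    rw [coords_mul d, h3, e, neg_add_cancel])
  have hh : h = g * (g⁻¹ * h) := by group
  rw [hh, map_mul, coords_mul d]
  rcases z_cases d hm with h' | h' <;> rw [h']
  · rw [map_one, coords_one d, add_zero]
  · rw [aut_z d, coords_z d, add_zero]

/-- The linear map induced by an automorphism. -/
noncomputable def actLin (σ : MulAut E) : V2 n →ₗ[ZMod 2] V2 n :=
  AddMonoidHom.toZModLinearMap 2 (AddMonoidHom.mk' (fun v => coords a b (σ (lift d hP hC v))) fun u v => by
    rw [← coords_mul d, ← map_mul]
    exact coords_aut d hP hC σ (by rw [coords_mul d, coords_lift, coords_lift, coords_lift]))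

lemma actLin_coords (σ : MulAut E) (g : E) : actLin d hP hC σ (coords a b g) = coords a b (σ g) :=
  coords_aut d hP hC σ (coords_lift d hP hC _)

/-- The action on the squaring form. -/
noncomputable def actHom : MulAut E →* Cfsg.isometryGroup (ZMod 2) (sqForm d hP hC) :=
  repHom (sqForm d hP hC) (fun σ => actLin d hP hC σ)
    (fun σ τ v => by
      obtain ⟨g, rfl⟩ := coords_surjective d hP hC v
      rw [actLin_coords, actLin_coords, actLin_coords]; rfl)
    (fun v => by
      obtain ⟨g, rfl⟩ := coords_surjective d hP hC v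
      rw [actLin_coords]; rfl)
    (fun σ v => by
      obtain ⟨g, rfl⟩ := coords_surjective d hP hC v
      rw [actLin_coords, sqForm_coords, sqForm_coords, ← map_pow]
      rcases z_cases d (d.pow g) with h | h <;> rw [h]
      · rw [map_one]
      · rw [aut_z d])

lemma ker_actHom : (actHom d hP hC).ker = Cfsg.Inn E := by
  have hle : Cfsg.Inn E ≤ (actHom d hP hC).ker := by
    rintro _ ⟨g, rfl⟩
    refine mem_ker_repHom.2 fun v => ?_
    obtain ⟨h, rfl⟩ := coords_surjective d hP hC v
    rw [actLin_coords, MulAut.conj_apply, coords_mul d, coords_mul d,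
      eq_neg_of_add_eq_zero_left (show coords a b g⁻¹ + coords a b g = 0 by
        rw [← coords_mul d, inv_mul_cancel, coords_one d])]
    abel
  refine (Subgroup.eq_of_le_of_card_ge hle ?_).symm
  have hgen := (generate d hP hC).1
  have hmem : ∀ σ ∈ (actHom d hP hC).ker, ∀ g, g⁻¹ * σ g ∈ Subgroup.zpowers z := fun σ hσ g => by
    refine mem_of_coords_eq_zero d hP hC ?_
    rw [coords_mul d, eq_neg_of_add_eq_zero_left (show coords a b g⁻¹ + coords a b g = 0 by
      rw [← coords_mul d, inv_mul_cancel, coords_one d]), ← actLin_coords d hP hC σ g,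
      mem_ker_repHom.1 hσ, neg_add_cancel]
  let f : (actHom d hP hC).ker → V2 n :=
    fun σ t => chi ((Sum.elim a b t)⁻¹ * σ.1 (Sum.elim a b t))
  have hf : Function.Injective f := fun σ τ h => by
    refine Subtype.ext (MulEquiv.toMonoidHom_injective ?_)
    refine MonoidHom.eq_of_eqOn_dense (s := Set.range (Sum.elim a b) ∪ {z})
      (by rw [Subgroup.closure_union, ← Subgroup.zpowers_eq_closure, hgen]) ?_
    rintro x (⟨t, rfl⟩ | hx)
    · exact mul_left_cancel (chi_inj d (hmem _ σ.2 _) (hmem _ τ.2 _) (congrFun h t))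
    · rw [Set.mem_singleton_iff.1 hx]
      change σ.1 z = τ.1 z
      rw [aut_z d, aut_z d]
  have h1 := Nat.card_le_card_of_injective f hf
  have h2 : Nat.card (Cfsg.Inn E) = 2 ^ (2 * n) := by
    have hk : (MulAut.conj : E →* MulAut E).ker = Subgroup.center E := by
      ext g
      rw [MonoidHom.mem_ker, Subgroup.mem_center_iff]
      refine ⟨fun h x => ?_, fun h => MulEquiv.ext fun x => ?_⟩
      · have := congrArg (fun φ : MulAut E => φ x) h
        simp only [MulAut.conj_apply, MulAut.one_apply] at this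
        exact (mul_inv_eq_iff_eq_mul.1 this).symm
      · rw [MulAut.conj_apply, MulAut.one_apply, ← h x, mul_inv_cancel_right]
    have h3 := (MulAut.conj : E →* MulAut E).ker.card_mul_index
    rw [Subgroup.index_ker, hk, d.cen, Nat.card_zpowers, d.ord, card_cons_le d hP hC, pow_succ'] at h3
    exact Nat.eq_of_mul_eq_mul_left two_pos h3
  rw [h2]
  refine h1.trans (le_of_eq ?_)
  rw [Nat.card_fun, Nat.card_sum, Nat.card_fin, Nat.card_zmod, two_mul]

lemma actHom_surjective : Function.Surjective (actHom d hP hC) := by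
  intro M
  let L : V2 n →ₗ[ZMod 2] V2 n := Matrix.mulVecLin (M.1 : Matrix (Fin n ⊕ Fin n) (Fin n ⊕ Fin n) (ZMod 2))
  have hq : ∀ v, sqForm d hP hC (L v) = sqForm d hP hC v := fun v => M.2 v 0
  have hpol : ∀ u v, polar (plusQ n (ZMod 2)) (L u) (L v) = polar (plusQ n (ZMod 2)) u v := fun u v => by
    have h1 := sqForm_pol d hP hC (L u) (L v)
    rw [← map_add, hq, hq, hq, sqForm_pol d hP hC u v] at h1
    exact (add_left_cancel h1).symm
  have hLi : Function.Injective L := fun u v h => by
    have := congrArg (fun w => ((M.1⁻¹ : Matrix.GeneralLinearGroup (Fin n ⊕ Fin n) (ZMod 2)) :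
      Matrix (Fin n ⊕ Fin n) (Fin n ⊕ Fin n) (ZMod 2)) *ᵥ w) h
    simpa [L, Matrix.mulVec_mulVec] using this
  let x : Fin n ⊕ Fin n → E := Sum.elim a b
  let x' : Fin n ⊕ Fin n → E := fun t => lift d hP hC (L (Pi.single t 1))
  have hc : ∀ s t, ⁅x' s, x' t⁆ = ⁅x s, x t⁆ := fun s t => chi_inj d (d.comm _ _) (d.comm _ _) (by
    rw [chi_bracket d hP hC, chi_bracket d hP hC, coords_lift, coords_lift, hpol, coords_gen d hP,
      coords_gen d hP])
  have he : ∀ t, x' t ^ 2 = x t ^ 2 := fun t => chi_inj d (d.pow _) (d.pow _) (by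
    rw [← sqForm_coords d hP hC, ← sqForm_coords d hP hC, coords_lift, hq, coords_gen d hP])
  have hgen := (generate d hP hC).1
  have hgen' : Subgroup.closure (Set.range x') ⊔ Subgroup.zpowers z = ⊤ := by
    set H := Subgroup.closure (Set.range x') ⊔ Subgroup.zpowers z with hH
    refine top_le_iff.1 fun g _ => ?_
    have key : ∀ v, ∃ h ∈ H, coords a b h = v := by
      intro v
      obtain ⟨w, rfl⟩ := ((LinearMap.injective_iff_surjective).1 hLi) v
      have hw : w = ∑ t, w t • Pi.single t (1 : ZMod 2) := by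
        funext i; simp [Pi.single_apply]
      rw [hw, map_sum]
      refine Finset.sum_induction _ (fun v => ∃ h ∈ H, coords a b h = v) ?_ ⟨1, one_mem _, coords_one d⟩
        fun t _ => ?_
      · rintro _ _ ⟨h₁, m₁, rfl⟩ ⟨h₂, m₂, rfl⟩
        exact ⟨h₁ * h₂, mul_mem m₁ m₂, coords_mul d _ _⟩
      · rcases two_cases' (w t) with e | e <;> rw [e]
        · exact ⟨1, one_mem _, by rw [zero_smul, map_zero, coords_one d]⟩
        · exact ⟨x' t, Subgroup.mem_sup_left (Subgroup.subset_closure ⟨t, rfl⟩), by
            rw [one_smul, coords_lift]⟩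
    obtain ⟨h, hh, e⟩ := key (coords a b g)
    have hm : h⁻¹ * g ∈ Subgroup.zpowers z := mem_of_coords_eq_zero d hP hC (by
      rw [coords_mul d, eq_neg_of_add_eq_zero_left (show coords a b h⁻¹ + coords a b h = 0 by
        rw [← coords_mul d, inv_mul_cancel, coords_one d]), e, neg_add_cancel])
    have := mul_mem hh (Subgroup.mem_sup_right (S := Subgroup.closure (Set.range x')) hm)
    rwa [mul_inv_cancel_left] at this
  obtain ⟨σ, hσ⟩ := exists_aut d hgen hgen' hc he (generate d hP hC).2
  refine ⟨σ, Subtype.ext (Units.ext ?_)⟩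
  refine Matrix.ext_of_mulVec_single fun t => ?_
  change LinearMap.toMatrix' (actLin d hP hC σ) *ᵥ _ = _
  rw [LinearMap.toMatrix'_mulVec, ← coords_gen d hP t, actLin_coords, hσ, coords_gen d hP t]
  exact coords_lift d hP hC _

/-- Outer automorphisms are the isometries of the squaring form. -/
theorem out_equiv : Nonempty (Cfsg.Out E ≃* Cfsg.isometryGroup (ZMod 2) (sqForm d hP hC)) :=
  ⟨(QuotientGroup.quotientMulEquivOfEq (ker_actHom d hP hC).symm).trans
    (QuotientGroup.quotientKerEquivOfSurjective _ (actHom_surjective d hP hC))⟩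

end Cfsg.Agent.Lib.Classical.ExtraOut
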