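import Cfsg.Agent.Lib.Classical.ExtraOut
import Cfsg.Prelude.Def_CaseTheorems

/-!
Extraspecial 2-groups: the two isomorphism types, elementary abelian subgroups, counts of square
roots of the identity.
-/

set_option autoImplicit false

namespace Cfsg.Agent.Lib.Classical.ExtraTwo

open QuadraticMap Cfsg.Agent.Lib.Thompson.Extra Cfsg.Agent.Lib.Classical.Quad
open Cfsg.Agent.Lib.Classical.QuadOmega Cfsg.Agent.Lib.Classical.QuadF2
open Cfsg.Agent.Lib.Classical.ExtraOut
open scoped commutatorElement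

attribute [local instance] _root_.Classical.propDecidable

lemma two_pow_split (k : ℕ) : 2 ^ (2 * (k + 1)) = 2 * (2 ^ k * 2 ^ (k + 1)) := by
  rw [← pow_add, ← pow_succ']; ring_nf

variable {E : Type*} [Group E] [Finite E] {z : E}

/-- Pairs with trivial residual centralizer. -/
theorem exists_setup (hE : Cfsg.IsExtraspecial 2 E) :
    ∃ (z : E) (d : Data 2 z) (n : ℕ) (a b : Fin n → E) (hP : Pairs z a b)
      (_ : cen a b ≤ Subgroup.zpowers z), 1 ≤ n ∧ Nat.card E = 2 ^ (2 * n + 1) := by
  haveI : Fact (Nat.Prime 2) := ⟨Nat.prime_two⟩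
  obtain ⟨z, d⟩ := exists_data hE
  have key : ∀ {n : ℕ} {a b : Fin n → E}, Pairs z a b → cen a b ≤ Subgroup.zpowers z → 1 ≤ n := by
    intro n a b hP hC
    by_contra hn
    obtain rfl : n = 0 := by omega
    have htop : Subgroup.center E = ⊤ := by
      rw [d.cen, eq_top_iff]
      exact fun g _ => hC (mem_cen.2 fun i => i.elim0)
    have hb : commutator E = ⊥ := (commutator_eq_bot_iff_center_eq_top E).2 htop
    have := congrArg (fun H : Subgroup E => Nat.card H) (hb.symm.trans hE.1.2.2)
    rw [hE.2, Subgroup.card_bot] at this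
    omega
  rcases two_types d with ⟨k, a, b, hP, hC, -⟩ | ⟨k, a, b, hP, hC, -⟩
  · exact ⟨z, d, k, a, b, hP, hC, key hP hC, card_cons_le d hP hC⟩
  · exact ⟨z, d, k + 1, a, b, hP, hC, key hP hC, card_cons_le d hP hC⟩

omit [Finite E] in
lemma eq_zpow_chi (d : Data 2 z) {f : E} (hf : f ∈ Subgroup.zpowers z) :
    f = z ^ ((chi f).val : ℤ) := by
  rcases z_cases d hf with h | h <;> rw [h]
  · rw [chi_one]; simp
  · rw [chi_z d, show ((1 : ZMod 2)).val = 1 from rfl, Nat.cast_one, zpow_one]

variable (d : Data 2 z) {n : ℕ} {a b : Fin n → E} (hP : Pairs z a b)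
  (hC : cen a b ≤ Subgroup.zpowers z)

include d hP hC

/-- Elements squaring to the identity lie over the singular vectors. -/
theorem card_sq_one :
    Nat.card {x : E // x ^ 2 = 1} = 2 * Nat.card {v // sqForm d hP hC v = 0} := by
  have hsq : ∀ x : E, x ^ 2 = 1 ↔ sqForm d hP hC (coords a b x) = 0 := fun x => by
    rw [sqForm_coords, ← chi_one (E := E)]
    exact ⟨fun h => by rw [h], fun h => chi_inj d (d.pow x) (one_mem _) h⟩
  have hadd : ∀ v : V2 n, v + v = 0 := fun v => funext fun i => CharTwo.add_self_eq_zero _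
  have hinv : ∀ x : E, coords a b x⁻¹ = coords a b x := fun x => by
    have : coords a b x⁻¹ + coords a b x = 0 := by
      rw [← coords_mul d, inv_mul_cancel, coords_one d]
    rw [← add_zero (coords a b x⁻¹), ← hadd (coords a b x), ← add_assoc, this, zero_add]
  have hdiff : ∀ x : E, (lift d hP hC (coords a b x))⁻¹ * x ∈ Subgroup.zpowers z := fun x =>
    mem_of_coords_eq_zero d hP hC (by rw [coords_mul d, hinv, coords_lift, hadd])
  let e : {x : E // x ^ 2 = 1} ≃ {v // sqForm d hP hC v = 0} × Subgroup.zpowers z :=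
    { toFun := fun x => (⟨coords a b x.1, (hsq _).1 x.2⟩, ⟨_, hdiff x.1⟩)
      invFun := fun p => ⟨lift d hP hC p.1.1 * p.2.1, (hsq _).2 (by
        rw [coords_mul d, coords_lift]
        rcases z_cases d p.2.2 with h | h <;> rw [h]
        · rw [coords_one d, add_zero, p.1.2]
        · rw [coords_z d, add_zero, p.1.2])⟩
      left_inv := fun x => Subtype.ext (by simp)
      right_inv := fun p => by
        have hc : coords a b (lift d hP hC p.1.1 * p.2.1) = p.1.1 := by
          rw [coords_mul d, coords_lift]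
          rcases z_cases d p.2.2 with h | h <;> rw [h]
          · rw [coords_one d, add_zero]
          · rw [coords_z d, add_zero]
        refine Prod.ext (Subtype.ext hc) (Subtype.ext ?_)
        change (lift d hP hC (coords a b (lift d hP hC p.1.1 * p.2.1)))⁻¹ * _ = p.2.1
        rw [hc, inv_mul_cancel_left] }
  rw [Nat.card_congr e, Nat.card_prod, Nat.card_zpowers, d.ord, mul_comm]

/-- The count for the plus type. -/
theorem card_sq_one_plus (h : IsPlus n (sqForm d hP hC)) (hn : 1 ≤ n) :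
    Nat.card {x : E // x ^ 2 = 1} = 2 ^ (2 * n) + 2 ^ n := by
  obtain ⟨k, rfl⟩ : ∃ k, n = k + 1 := ⟨n - 1, by omega⟩
  obtain ⟨g, hg⟩ := h
  rw [card_sq_one d hP hC]
  have h1 := card_zero_add_card_one (sqForm d hP hC)
  rw [show Nat.card {v // sqForm d hP hC v = 1} = 2 ^ k * (2 ^ (k + 1) - 1) from
    (Nat.card_congr (g.toEquiv.subtypeEquiv fun v => by rw [hg]; rfl)).trans (card_one_plus k),
    Nat.mul_sub, mul_one] at h1
  have h2 := two_pow_split (k := k)
  have : 2 ^ k ≤ 2 ^ k * 2 ^ (k + 1) := Nat.le_mul_of_pos_right _ (Nat.two_pow_pos _)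
  rw [pow_succ' 2 k] at *
  omega

/-- The count for the minus type. -/
theorem card_sq_one_minus (h : IsMinus n (sqForm d hP hC)) (hn : 1 ≤ n) :
    Nat.card {x : E // x ^ 2 = 1} = 2 ^ (2 * n) - 2 ^ n := by
  obtain ⟨k, rfl⟩ : ∃ k, n = k + 1 := ⟨n - 1, by omega⟩
  obtain ⟨g, hg⟩ := h
  rw [card_sq_one d hP hC]
  have h1 := card_zero_add_card_one (sqForm d hP hC)
  rw [show Nat.card {v // sqForm d hP hC v = 1} = 2 ^ k * (2 ^ (k + 1) + 1) from
    (Nat.card_congr (g.toEquiv.subtypeEquiv fun v => by rw [hg]; rfl)).trans (card_one_minus k),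
    mul_add, mul_one] at h1
  have h2 := two_pow_split (k := k)
  rw [pow_succ' 2 k] at *
  omega

/-- The quotient map to coordinates. -/
noncomputable def coordHom : E →* Multiplicative (V2 n) :=
  MonoidHom.mk' (fun g => Multiplicative.ofAdd (coords a b g)) fun g h => by rw [coords_mul d]; rfl

/-- A totally singular subspace for an elementary abelian subgroup. -/
theorem exists_singular_of_elab {A : Subgroup E} (hA : ∀ x ∈ A, x ^ 2 = 1) :
    ∃ U : Submodule (ZMod 2) (V2 n), (∀ u ∈ U, sqForm d hP hC u = 0) ∧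
      Nat.card A ≤ 2 * 2 ^ Module.finrank (ZMod 2) U := by
  let π := coordHom d (a := a) (b := b)
  let U : Submodule (ZMod 2) (V2 n) := AddSubgroup.toZModSubmodule 2 (A.map π).toAddSubgroup'
  refine ⟨U, ?_, ?_⟩
  · rintro u ⟨x, hx, hxu⟩
    rw [show u = coords a b x from (congrArg Multiplicative.toAdd hxu).symm, sqForm_coords,
      hA x hx, chi_one]
  · let f := π.comp A.subtype
    have h1 := f.ker.card_mul_index
    rw [Subgroup.index_ker] at h1
    have h2 : Nat.card f.ker ≤ 2 := by
      refine le_trans (Nat.card_le_card_of_injective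
        (fun x : f.ker => (⟨(x.1 : E), mem_of_coords_eq_zero d hP hC
          (Multiplicative.ofAdd.injective x.2)⟩ : Subgroup.zpowers z)) fun x y h =>
          Subtype.ext (Subtype.ext (congrArg Subtype.val h :))) (le_of_eq ?_)
      rw [Nat.card_zpowers, d.ord]
    have h3 : Nat.card f.range ≤ Nat.card U :=
      Nat.card_le_card_of_injective (fun x => ⟨Multiplicative.toAdd x.1, by
        obtain ⟨⟨y, hy⟩, hyx⟩ := x.2
        exact ⟨y, hy, hyx⟩⟩) fun x y h => Subtype.ext (congrArg Subtype.val h :)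
    rw [Module.natCard_eq_pow_finrank (K := ZMod 2) (V := U), Nat.card_zmod] at h3
    rw [← h1]
    exact Nat.mul_le_mul h2 h3

/-- An elementary abelian subgroup over a totally singular subspace. -/
theorem exists_elab_of_singular (U : Submodule (ZMod 2) (V2 n))
    (hU : ∀ u ∈ U, sqForm d hP hC u = 0) :
    ∃ A : Subgroup E, Cfsg.IsElementaryAbelian 2 A ∧
      Nat.card A = 2 * 2 ^ Module.finrank (ZMod 2) U := by
  have hq := sqForm_pol d hP hC
  let π := coordHom d (a := a) (b := b)
  refine ⟨(AddSubgroup.toSubgroup U.toAddSubgroup).comap π,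
    ⟨⟨⟨fun x y => Subtype.ext ?_⟩⟩, fun x hx => ?_⟩, ?_⟩
  · refine commutatorElement_eq_one_iff_commute.1 (chi_inj d (d.comm _ _) (one_mem _) ?_)
    have hx : coords a b x.1 ∈ U := x.2
    have hy : coords a b y.1 ∈ U := y.2
    have := hq (coords a b x.1) (coords a b y.1)
    rw [hU _ hx, hU _ hy, hU _ (add_mem hx hy)] at this
    rw [chi_bracket d hP hC, chi_one]
    simpa using this.symm
  · have hx : coords a b x ∈ U := hx
    refine chi_inj d (d.pow x) (one_mem _) ?_
    rw [← sqForm_coords d hP hC, hU _ hx, chi_one]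
  · set B := AddSubgroup.toSubgroup U.toAddSubgroup
    have hs : Function.Surjective π := fun v => by
      obtain ⟨g, hg⟩ := coords_surjective d hP hC (Multiplicative.toAdd v)
      exact ⟨g, congrArg Multiplicative.ofAdd hg⟩
    have h1 := (B.comap π).card_mul_index
    rw [Subgroup.index_comap_of_surjective _ hs, card_cons_le d hP hC, pow_succ'] at h1
    have h2 := B.card_mul_index
    rw [Nat.card_congr Multiplicative.toAdd, Nat.card_fun, Nat.card_sum, Nat.card_fin, Nat.card_zmod,
      ← two_mul] at h2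
    have hB : Nat.card B = 2 ^ Module.finrank (ZMod 2) U := by
      rw [show Nat.card B = Nat.card U from rfl, Module.natCard_eq_pow_finrank (K := ZMod 2),
        Nat.card_zmod]
    rw [← h2, hB, ← mul_assoc] at h1
    refine Nat.eq_of_mul_eq_mul_right ?_ h1
    exact Nat.pos_of_ne_zero fun h => by
      rw [h, mul_zero] at h2
      exact absurd h2.symm (Nat.two_pow_pos _).ne'

/-- Rank of the plus type. -/
theorem rank_plus (h : IsPlus n (sqForm d hP hC)) (k : ℕ) :
    Cfsg.PRankLE 2 k E ↔ n + 1 ≤ k := by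
  obtain ⟨g, hg⟩ := h
  constructor
  · intro hk
    obtain ⟨U, hU, hd⟩ := exists_singular_plus (F := ZMod 2) n
    obtain ⟨A, hA, hcard⟩ := exists_elab_of_singular d hP hC (U.map g.symm.toLinearMap) (by
      rintro _ ⟨u, hu, rfl⟩
      rw [LinearEquiv.coe_coe, hg, g.apply_symm_apply, hU u hu])
    have := hk A hA.1 hA.2
    rw [hcard, LinearEquiv.finrank_map_eq, hd, ← pow_succ'] at this
    exact (Nat.pow_le_pow_iff_right (by norm_num : 1 < 2)).1 this
  · intro hk A _ hA2
    obtain ⟨U, hU, hcard⟩ := exists_singular_of_elab d hP hC hA2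
    have h4 := finrank_le_of_plus n (U.map g.toLinearMap) (by
      rintro _ ⟨u, hu, rfl⟩
      rw [LinearEquiv.coe_coe, ← hg, hU u hu])
    rw [LinearEquiv.finrank_map_eq] at h4
    rw [← pow_succ'] at hcard
    exact hcard.trans (Nat.pow_le_pow_right two_pos (by omega))

/-- Rank of the minus type. -/
theorem rank_minus (h : IsMinus n (sqForm d hP hC)) (hn : 1 ≤ n) (k : ℕ) :
    Cfsg.PRankLE 2 k E ↔ n ≤ k := by
  obtain ⟨g, hg⟩ := h
  constructor
  · intro hk
    obtain ⟨U, hU, hd⟩ := exists_singular_minus (F := ZMod 2) (n - 1) 1 1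
    obtain ⟨A, hA, hcard⟩ := exists_elab_of_singular d hP hC (U.map g.symm.toLinearMap) (by
      rintro _ ⟨u, hu, rfl⟩
      rw [LinearEquiv.coe_coe, hg, g.apply_symm_apply, hU u hu])
    have := hk A hA.1 hA.2
    rw [hcard, LinearEquiv.finrank_map_eq, hd, ← pow_succ', Nat.sub_add_cancel hn] at this
    exact (Nat.pow_le_pow_iff_right (by norm_num : 1 < 2)).1 this
  · intro hk A _ hA2
    obtain ⟨U, hU, hcard⟩ := exists_singular_of_elab d hP hC hA2
    have h4 := finrank_le_of_minus aniso_one_one (n - 1) (U.map g.toLinearMap) (by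
      rintro _ ⟨u, hu, rfl⟩
      rw [LinearEquiv.coe_coe, ← hg, hU u hu])
    rw [LinearEquiv.finrank_map_eq] at h4
    rw [← pow_succ'] at hcard
    exact hcard.trans (Nat.pow_le_pow_right two_pos (by omega))

/-- Equivalent squaring forms give isomorphic groups. -/
theorem iso_of_form {E' : Type*} [Group E'] [Finite E'] {z' : E'} (d' : Data 2 z') {a' b' : Fin n → E'}
    (hP' : Pairs z' a' b') (hC' : cen a' b' ≤ Subgroup.zpowers z') (L : V2 n ≃ₗ[ZMod 2] V2 n)
    (hL : ∀ v, sqForm d' hP' hC' (L v) = sqForm d hP hC v) : Nonempty (E ≃* E') := by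
  haveI : Fact (Nat.Prime 2) := ⟨Nat.prime_two⟩
  have hpol : ∀ u v, polar (plusQ n (ZMod 2)) (L u) (L v) = polar (plusQ n (ZMod 2)) u v := fun u v => by
    have h1 := sqForm_pol d' hP' hC' (L u) (L v)
    rw [← map_add, hL, hL, hL, sqForm_pol d hP hC u v] at h1
    exact (add_left_cancel h1).symm
  let x : Fin n ⊕ Fin n → E := Sum.elim a b
  let w : Fin n ⊕ Fin n → V2 n := fun t => Pi.single t 1
  let y : Fin n ⊕ Fin n → E' := fun t => lift d' hP' hC' (L (w t))
  have hc : ∀ s t, chi ⁅y s, y t⁆ = chi ⁅x s, x t⁆ := fun s t => by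
    rw [chi_bracket d' hP' hC', chi_bracket d hP hC, coords_lift, coords_lift, hpol,
      coords_gen d hP, coords_gen d hP]
  have he : ∀ t, chi (y t ^ 2) = chi (x t ^ 2) := fun t => by
    rw [← sqForm_coords d hP hC, ← sqForm_coords d' hP' hC', coords_lift, hL, coords_gen d hP]
  have h1 : ∀ (s t : Fin n ⊕ Fin n), Commute (x s) (x t) → Commute (y s) (y t) := fun s t h => by
    refine commutatorElement_eq_one_iff_commute.1 (chi_inj d' (d'.comm _ _) (one_mem _) ?_)
    rw [hc, commutatorElement_eq_one_iff_commute.2 h, chi_one, chi_one]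
  have hP'' : Pairs z' (fun i => y (.inl i)) (fun i => y (.inr i)) :=
    ⟨fun i j => h1 (.inl i) (.inl j) (hP.aa i j), fun i j => h1 (.inr i) (.inr j) (hP.bb i j),
      fun i j hij => h1 (.inl i) (.inr j) (hP.ab i j hij),
      fun i => chi_inj d' (d'.comm _ _) (Subgroup.mem_zpowers _) (by
        rw [hc, chi_z d', show ⁅x (.inl i), x (.inr i)⁆ = z from hP.pair i, chi_z d])⟩
  have hC'' : cen (fun i => y (.inl i)) (fun i => y (.inr i)) ≤ Subgroup.zpowers z' := by
    refine (Subgroup.eq_of_le_of_card_ge (Subgroup.zpowers_le.2 (mem_cen.2 fun i =>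
      ⟨d'.commute _, d'.commute _⟩)) ?_).ge
    have h := card_cen d' hP''
    rw [card_cons_le d' hP' hC', pow_succ'] at h
    rw [Nat.card_zpowers, d'.ord]
    exact (Nat.eq_of_mul_eq_mul_right (Nat.two_pow_pos _) h).ge
  have hx : ∀ t, x t ^ 2 = z ^ ((chi (x t ^ 2)).val : ℤ) := fun t => eq_zpow_chi d (d.pow _)
  have hy : ∀ t, y t ^ 2 = z' ^ ((chi (x t ^ 2)).val : ℤ) := fun t => by
    rw [← he]
    exact eq_zpow_chi d' (d'.pow _)
  obtain ⟨g1, n1⟩ := generate d hP hC
  obtain ⟨g2, n2⟩ := generate d' hP'' hC''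
  exact iso_of_generators d.commute d'.commute (d.ord ▸ pow_orderOf_eq_one z)
    (d'.ord ▸ pow_orderOf_eq_one z') x (Sum.elim (fun i => y (.inl i)) fun i => y (.inr i))
    (std n) (fun t => ((chi (x t ^ 2)).val : ℤ)) (pairs_comm hP) (pairs_comm hP'') hx
    (fun | .inl i => hy (.inl i) | .inr i => hy (.inr i)) g1 g2 n1 n2

/-- Two plus types of the same width are isomorphic. -/
theorem iso_plus {E' : Type*} [Group E'] [Finite E'] {z' : E'} (d' : Data 2 z') {a' b' : Fin n → E'}
    (hP' : Pairs z' a' b') (hC' : cen a' b' ≤ Subgroup.zpowers z')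
    (h : IsPlus n (sqForm d hP hC)) (h' : IsPlus n (sqForm d' hP' hC')) : Nonempty (E ≃* E') := by
  obtain ⟨g, hg⟩ := h
  obtain ⟨g', hg'⟩ := h'
  exact iso_of_form d hP hC d' hP' hC' (g.trans g'.symm) fun v => by
    rw [hg', hg, LinearEquiv.trans_apply, g'.apply_symm_apply]

/-- Two minus types of the same width are isomorphic. -/
theorem iso_minus {E' : Type*} [Group E'] [Finite E'] {z' : E'} (d' : Data 2 z') {a' b' : Fin n → E'}
    (hP' : Pairs z' a' b') (hC' : cen a' b' ≤ Subgroup.zpowers z')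
    (h : IsMinus n (sqForm d hP hC)) (h' : IsMinus n (sqForm d' hP' hC')) : Nonempty (E ≃* E') := by
  obtain ⟨g, hg⟩ := h
  obtain ⟨g', hg'⟩ := h'
  exact iso_of_form d hP hC d' hP' hC' (g.trans g'.symm) fun v => by
    rw [hg', hg, LinearEquiv.trans_apply, g'.apply_symm_apply]

end Cfsg.Agent.Lib.Classical.ExtraTwo
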