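import Cfsg.Agent.Lib.Classical.SUThreeInv
import Mathlib.FieldTheory.Finite.Extension
import Mathlib.FieldTheory.Finite.Trace

/-!
Elements of three-dimensional special unitary groups of large order modulo scalars.
-/

set_option autoImplicit false

namespace Cfsg.Agent.Lib.Classical.SUThree

open Matrix Cfsg.Agent.Lib.Classical.Herm Cfsg.Agent.Lib.UnitaryConj

variable {F : Type*} [Field F] [Fintype F] {q : ℕ}

local notation "H" => Cfsg.hermForm 3 F q

omit [Fintype F] in
theorem mat_pow (g : ↥(Cfsg.SU 3 F q)) (j : ℕ) : mat (g ^ j) = mat g ^ j := by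
  induction j with
  | zero => rfl
  | succ j ih => rw [pow_succ, pow_succ, ← ih]; rfl

theorem dvd_of_dvd_mul_gcd {n m k : ℕ} (hn : 0 < n) (h : n ∣ m * k) : n / Nat.gcd m n ∣ k := by
  exact (Nat.Coprime.dvd_of_dvd_mul_left (Nat.coprime_div_gcd_div_gcd (Nat.gcd_pos_of_pos_right m hn)).symm
    (by
      obtain ⟨c, hc⟩ := h
      refine ⟨c, Nat.eq_of_mul_eq_mul_left (Nat.gcd_pos_of_pos_right m hn) ?_⟩
      rw [← mul_assoc, ← mul_assoc, Nat.mul_div_cancel' (Nat.gcd_dvd_left m n), Nat.mul_div_cancel' (Nat.gcd_dvd_right m n)]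
      exact hc))

theorem exists_orderOf_units {K : Type*} [Field K] [Fintype K] {n : ℕ} (hn : n ∣ Fintype.card K - 1) :
    ∃ z : K, z ≠ 0 ∧ orderOf z = n := by
  classical
  obtain ⟨g, hg⟩ := IsCyclic.exists_generator (α := Kˣ)
  have ho : orderOf g = Fintype.card K - 1 := by
    rw [orderOf_eq_card_of_forall_mem_zpowers hg, Nat.card_eq_fintype_card, Fintype.card_units]
  have hpos : orderOf g ≠ 0 := (orderOf_pos g).ne'
  refine ⟨((g ^ (orderOf g / n) : Kˣ) : K), Units.ne_zero _, ?_⟩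
  rw [orderOf_units, orderOf_pow_orderOf_div hpos (ho ▸ hn)]

theorem qHom_eq (hK : Fintype.card F = q ^ 2) (a : F) : qHom hK a = a ^ q := rfl

variable (hF : Fintype.card F = q ^ 2)
include hF

/-- An isometry given in a basis with known Gram matrix. -/
theorem exists_of_gram (c D : Matrix (Fin 3) (Fin 3) F) (hc : c.det ≠ 0)
    (hG : tstar hF D * (tstar hF c * c) * D = tstar hF c * c) (hD : D.det = 1) :
    ∃ g : ↥(Cfsg.SU 3 F q), ∀ k : ℕ, (∃ e : F, mat g ^ k = e • 1) → ∃ e : F, D ^ k = e • 1 := by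
  have hu : IsUnit c.det := isUnit_iff_ne_zero.2 hc
  set A := c * D * c⁻¹ with hA
  have hAdet : A.det = 1 := by
    rw [hA, det_mul_right_comm, det_mul, mul_nonsing_inv _ hu, det_one, hD, one_mul]
  have hAh : tstar hF A * A = 1 := by
    calc tstar hF A * A = tstar hF c⁻¹ * (tstar hF D * (tstar hF c * c) * D) * c⁻¹ := by
          rw [hA, tstar_mul, tstar_mul]; simp only [Matrix.mul_assoc]
      _ = tstar hF (c * c⁻¹) * (c * c⁻¹) := by rw [hG, tstar_mul]; simp only [Matrix.mul_assoc]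
      _ = 1 := by rw [mul_nonsing_inv _ hu, tstar_one, one_mul]
  have hmem := (mem_GU_iff hF (GeneralLinearGroup.mkOfDetNeZero A (by rw [hAdet]; exact one_ne_zero))).2 hAh
  refine ⟨⟨⟨A, hAdet⟩, fun u v => hmem u v⟩, fun k ⟨e, he⟩ => ⟨e, ?_⟩⟩
  change A ^ k = e • 1 at he
  have hconj : ∀ k : ℕ, A ^ k = c * D ^ k * c⁻¹ := by
    intro k
    induction k with
    | zero => rw [pow_zero, pow_zero, mul_one, mul_nonsing_inv _ hu]
    | succ k ih =>
      rw [pow_succ, ih, hA, pow_succ]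
      calc c * D ^ k * c⁻¹ * (c * D * c⁻¹) = c * D ^ k * (c⁻¹ * c) * D * c⁻¹ := by simp only [Matrix.mul_assoc]
        _ = _ := by rw [nonsing_inv_mul _ hu, mul_one]; simp only [Matrix.mul_assoc]
  rw [hconj] at he
  calc D ^ k = c⁻¹ * (c * D ^ k * c⁻¹) * c := by
        simp only [Matrix.mul_assoc, nonsing_inv_mul _ hu, mul_one]
        rw [← Matrix.mul_assoc, nonsing_inv_mul _ hu, one_mul]
    _ = e • 1 := by rw [he, mul_smul_comm, smul_mul_assoc, mul_one, nonsing_inv_mul _ hu]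

theorem lower_cyclic : ∃ g : ↥(Cfsg.SU 3 F q), ∀ k : ℕ, (∃ e : F, mat g ^ k = e • 1) → q + 1 ∣ k := by
  obtain ⟨z, hz0, hz⟩ := exists_orderOf_units (K := F) (n := q + 1) (by
    rw [hF, ← one_pow 2, Nat.sq_sub_sq]; exact dvd_mul_right _ _)
  have hz1 : z ^ (q + 1) = 1 := by rw [← hz, pow_orderOf_eq_one]
  obtain ⟨A, hA, hAd⟩ := exists_diag hF ![z, z⁻¹, 1] fun i => by fin_cases i <;> simp [hz1]
  refine ⟨⟨⟨diagonal ![z, z⁻¹, 1], by rw [det_diagonal, Fin.prod_univ_three]; simp [hz0]⟩,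
    fun u v => by
      have := hA u v
      change H ((A : Matrix (Fin 3) (Fin 3) F) *ᵥ u) ((A : Matrix (Fin 3) (Fin 3) F) *ᵥ v) = _ at this
      rw [hAd] at this; exact this⟩,
    fun k ⟨e, he⟩ => ?_⟩
  change diagonal ![z, z⁻¹, 1] ^ k = e • 1 at he
  rw [diagonal_pow] at he
  have h0 := congrFun (congrFun he 0) 0
  have h2 := congrFun (congrFun he 2) 2
  simp at h0 h2
  rw [← hz]
  exact orderOf_dvd_of_pow_eq_one (h0.trans h2.symm)

theorem lower_mixed (p : ℕ) [Fact p.Prime] [CharP F p] (hp : p ≠ 2) :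
    ∃ g : ↥(Cfsg.SU 3 F q), ∀ k : ℕ, (∃ e : F, mat g ^ k = e • 1) →
      p * (q + 1) / Nat.gcd 3 (q + 1) ∣ k := by
  obtain ⟨a, ha0, ha⟩ := exists_orderOf_units (K := F) (n := q + 1) (by
    rw [hF, ← one_pow 2, Nat.sq_sub_sq]; exact dvd_mul_right _ _)
  have ha1 : a ^ (q + 1) = 1 := by rw [← ha, pow_orderOf_eq_one]
  obtain ⟨η, hη0, hη⟩ := exists_norm hF (c := (-1 : F)) (by simp) (by rw [conj_neg hF, one_pow])
  obtain ⟨θ, hθ⟩ := exists_moved hF
  change θ ^ q ≠ θ at hθ
  set c := θ - θ ^ q with hc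
  have hc0 : c ≠ 0 := sub_ne_zero.2 (Ne.symm hθ)
  have hcq : c ^ q = -c := by rw [hc, conj_sub hF, conj_conj hF]; ring
  set w : Fin 3 → F := ![1, η, 0] with hw
  have hww : H w w = 0 := by
    simp [Cfsg.hermForm, hw, Fin.sum_univ_three, conj_zero hF]
    rw [← pow_succ', hη]; ring
  obtain ⟨g, hg, hgx⟩ := exists_refl hF c w (by rw [hww, hcq]; ring)
  have hgm : (g : Matrix (Fin 3) (Fin 3) F) = reflMat 3 q c w :=
    Matrix.ext_iff_mulVec.2 fun x => by rw [hgx, reflMat_mulVec]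
  obtain ⟨D, hD, hDd⟩ := exists_diag hF ![a, a, (a * a)⁻¹] fun i => by
    fin_cases i <;> simp [ha1, mul_pow]
  set A := diagonal ![a, a, (a * a)⁻¹] * reflMat 3 q c w with hA
  have hAdet : A.det = 1 := by
    rw [hA, det_mul, det_diagonal, det_refl, hww, Fin.prod_univ_three]; simp [ha0]; field_simp
  refine ⟨⟨⟨A, hAdet⟩, fun u v => ?_⟩, fun k hk => ?_⟩
  · have h := Subgroup.mul_mem _ hD hg u v
    change H (((D * g : GL (Fin 3) F) : Matrix (Fin 3) (Fin 3) F) *ᵥ u) (((D * g : GL (Fin 3) F) : Matrix (Fin 3) (Fin 3) F) *ᵥ v) = _ at h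
    rw [Units.val_mul, hDd, hgm] at h
    exact h
  obtain ⟨e, he⟩ := hk
  change A ^ k = e • 1 at he
  have hadd : ∀ j : ℕ, reflMat 3 q c w ^ j = reflMat 3 q ((j : F) * c) w := by
    intro j
    induction j with
    | zero => rw [pow_zero]; simp [reflMat]
    | succ j ih =>
      rw [pow_succ, ih]
      refine Matrix.ext_iff_mulVec.2 fun x => ?_
      rw [← mulVec_mulVec, reflMat_mulVec, reflMat_mulVec, reflMat_mulVec, herm_add_left, herm_smul_left, hww,
        mul_zero, add_zero, add_assoc, ← add_smul, Nat.cast_succ]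
      congr 2
      ring
  have hcomm : Commute (diagonal ![a, a, (a * a)⁻¹]) (reflMat 3 q c w) := by
    refine Matrix.ext_iff_mulVec.2 fun x => funext fun i => ?_
    rw [← mulVec_mulVec, ← mulVec_mulVec, reflMat_mulVec, reflMat_mulVec]
    fin_cases i <;>
      simp [mulVec_diagonal, Cfsg.hermForm, hw, Fin.sum_univ_three, conj_zero hF, Matrix.vecHead, Matrix.vecTail] <;> ring
  rw [hA, hcomm.mul_pow, diagonal_pow, hadd] at he
  have h01 := congrFun (congrFun he 0) 1
  have h00 := congrFun (congrFun he 0) 0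
  have h22 := congrFun (congrFun he 2) 2
  rw [diagonal_mul] at h01 h00 h22
  have hent : ∀ (b : F) (i j : Fin 3), reflMat 3 q b w i j = (if i = j then 1 else 0) + b * w i * w j ^ q := by
    intro b i j
    simp [reflMat, Matrix.one_apply, vecMulVec_apply, mul_assoc]
  rw [hent] at h01 h00 h22
  simp [hw, conj_zero hF, ha0, hc0, hη0] at h01 h00 h22
  rw [CharP.cast_eq_zero_iff F p] at h01
  have hk0 : (k : F) = 0 := (CharP.cast_eq_zero_iff F p k).2 h01
  rw [hk0] at h00
  simp at h00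
  have h3 : (a ^ 3) ^ k = 1 := by
    have h : a ^ k = ((a * a) ^ k)⁻¹ := by rw [h00, ← h22, ← mul_inv, inv_pow]
    have h' : a ^ k * (a * a) ^ k = 1 := by rw [h, inv_mul_cancel₀ (pow_ne_zero _ (mul_ne_zero ha0 ha0))]
    rw [← h', ← mul_pow]; ring_nf
  have h4 : (q + 1) / Nat.gcd 3 (q + 1) ∣ k :=
    dvd_of_dvd_mul_gcd (Nat.succ_pos q) (ha ▸ orderOf_dvd_of_pow_eq_one (by rw [pow_mul]; exact h3))
  rw [Nat.mul_div_assoc _ (Nat.gcd_dvd_right _ _)]
  refine Nat.Coprime.mul_dvd_of_dvd_of_dvd ?_ h01 h4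
  refine Nat.Coprime.coprime_div_right ?_ (Nat.gcd_dvd_right _ _)
  obtain ⟨p', j, hpp, hcp, hj, hqp⟩ := q_eq_pow hF
  have hpp' : p' = p := CharP.eq F hcp (by assumption)
  rw [(Fact.out : p.Prime).coprime_iff_not_dvd, hqp, hpp']
  intro h
  exact (Fact.out : p.Prime).ne_one (Nat.dvd_one.1 ((Nat.dvd_add_right (dvd_pow_self p (by omega))).1 h))

theorem lower_split (hq : Odd q) :
    ∃ g : ↥(Cfsg.SU 3 F q), ∀ k : ℕ, (∃ e : F, mat g ^ k = e • 1) →
      (q ^ 2 - 1) / Nat.gcd 3 (q + 1) ∣ k := by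
  have h2 := two_ne_zero' hF hq
  have hq2 := two_le_q hF
  have hq3 : 3 ≤ q := by rcases hq with ⟨r, rfl⟩; omega
  obtain ⟨l, hl0, hl⟩ := exists_orderOf_units (K := F) (n := q ^ 2 - 1) (by rw [hF])
  have hl1 : l ^ (q * q) = l := by
    have := FiniteField.pow_card l
    rwa [hF, pow_two] at this
  obtain ⟨η, hη0, hη⟩ := exists_norm hF (c := (-1 : F)) (by simp) (by rw [conj_neg hF, one_pow])
  have hηn : η * η ^ q = -1 := by rw [← pow_succ', hη]
  have h2q : (2⁻¹ : F) ^ q = 2⁻¹ := by rw [inv_pow, conj_two hF]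
  set c : Matrix (Fin 3) (Fin 3) F := !![1, 2⁻¹, 0; η, -η * 2⁻¹, 0; 0, 0, 1] with hc
  set D : Matrix (Fin 3) (Fin 3) F := diagonal ![l, (l ^ q)⁻¹, l ^ (q - 1)] with hD
  have hlq : l ^ (q - 1) * l = l ^ q := by rw [← pow_succ, Nat.sub_add_cancel (by omega)]
  have hcdet : c.det ≠ 0 := by
    rw [hc, det_fin_three]
    simp
    field_simp
    ring_nf
    simp [h2, hη0]
  have hGm : tstar hF c * c = !![0, 1, 0; 1, 0, 0; 0, 0, 1] := by
    ext i j
    simp only [mul_apply, Fin.sum_univ_three, tstar, Matrix.transpose_apply, Matrix.map_apply, qHom_eq]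
    fin_cases i <;> fin_cases j <;> simp [hc, conj_zero hF, h2q, mul_pow, conj_neg hF] <;>
      field_simp <;> first | linear_combination hηn | linear_combination (-2) * hηn | linear_combination 2 * hηn | linear_combination -hηn
  obtain ⟨g, hg⟩ := exists_of_gram hF c D hcdet (by
    rw [hGm]
    ext i j
    simp only [mul_apply, Fin.sum_univ_three, tstar, Matrix.transpose_apply, Matrix.map_apply, qHom_eq]
    fin_cases i <;> fin_cases j <;> simp [hD, conj_zero hF, inv_pow, ← pow_mul, hl1, pow_ne_zero, hl0] <;>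
      (try field_simp)
    rw [← pow_add]
    have e : (q - 1) * q + (q - 1) = q * q - 1 := by
      obtain ⟨r, rfl⟩ : ∃ r, q = r + 1 := ⟨q - 1, by omega⟩
      simp [Nat.add_mul, Nat.mul_add]
    rw [e, ← pow_two, ← hl, pow_orderOf_eq_one]) (by
    rw [hD, det_diagonal, Fin.prod_univ_three]
    simp
    field_simp
    rw [← hlq]; ring)
  refine ⟨g, fun k hk => ?_⟩
  obtain ⟨e, he⟩ := hg k hk
  rw [hD, diagonal_pow] at he
  have e0 := congrFun (congrFun he 0) 0
  have e1 := congrFun (congrFun he 1) 1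
  have e2 := congrFun (congrFun he 2) 2
  simp at e0 e1 e2
  have hA : q ^ 2 - 1 ∣ (q + 1) * k := by
    rw [← hl]
    refine orderOf_dvd_of_pow_eq_one ?_
    rw [pow_mul, pow_succ, mul_pow, e0, ← e1, mul_inv_cancel₀ (pow_ne_zero _ (pow_ne_zero _ hl0))]
  have hB : q ^ 2 - 1 ∣ (q - 2) * k := by
    rw [← hl]
    refine orderOf_dvd_of_pow_eq_one ?_
    have hne : l ^ k ≠ 0 := pow_ne_zero _ hl0
    refine mul_right_cancel₀ hne ?_
    rw [one_mul, pow_mul, ← mul_pow, ← pow_succ, show q - 2 + 1 = q - 1 by omega, e2, e0]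
  have hg := Nat.dvd_gcd hA hB
  rw [Nat.gcd_mul_right] at hg
  have hgd : Nat.gcd (q + 1) (q - 2) = Nat.gcd 3 (q + 1) := by
    rw [show q + 1 = 3 + (q - 2) by omega]
    simp [Nat.gcd_comm]
  rw [hgd] at hg
  exact (Nat.div_dvd_iff_dvd_mul (by have h := Nat.sq_sub_sq q 1; rw [one_pow] at h; rw [h]; exact dvd_mul_of_dvd_left (Nat.gcd_dvd_right _ _) _) (Nat.gcd_pos_of_pos_left _ three_pos)).2 hg

theorem lower_singer (p : ℕ) [Fact p.Prime] [CharP F p] :
    ∃ g : ↥(Cfsg.SU 3 F q), ∀ k : ℕ, (∃ e : F, mat g ^ k = e • 1) →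
      (q ^ 2 - q + 1) / Nat.gcd 3 (q + 1) ∣ k := by
  classical
  have hq2 := two_le_q hF
  let L := FiniteField.Extension F p 3
  haveI : Fintype L := Fintype.ofFinite L
  have hrank : Module.finrank F L = 3 := FiniteField.finrank_extension F p 3
  have hL : Fintype.card L = q ^ 6 := by
    rw [Fintype.card_eq_nat_card, FiniteField.natCard_extension, Nat.card_eq_fintype_card, hF, ← pow_mul]
  set n := q ^ 2 - q + 1 with hn
  have hle : q ≤ q ^ 2 := Nat.le_self_pow two_ne_zero q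
  have hn3 : n * (q + 1) = q ^ 3 + 1 := by rw [hn]; zify [hle]; ring
  have hndvd : n ∣ Fintype.card L - 1 := by
    rw [hL, show q ^ 6 - 1 = (q ^ 3 + 1) * (q ^ 3 - 1) by rw [← Nat.sq_sub_sq, one_pow, ← pow_mul], ← hn3,
      mul_assoc]
    exact dvd_mul_right _ _
  obtain ⟨l, hl0, hl⟩ := exists_orderOf_units hndvd
  obtain ⟨p', k', hpp, hcp, hk1, hqp⟩ := q_eq_pow hF
  have hpp' : p' = p := CharP.eq F hcp (by assumption)
  subst hpp'
  haveI : CharP L p' := charP_of_injective_algebraMap (algebraMap F L).injective p'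
  let σ : L →+* L := iterateFrobenius L p' k'
  have hσ : ∀ x, σ x = x ^ q := fun x => by rw [hqp]; exact iterateFrobenius_def ..
  set J : L → L := fun x => σ (σ (σ x)) with hJdef
  have hJ : ∀ x, J x = x ^ q ^ 3 := fun x => by
    simp only [hJdef, hσ, ← pow_mul]; ring_nf
  have h6 : ∀ x : L, x ^ q ^ 6 = x := fun x => hL ▸ FiniteField.pow_card x
  have hTr : ∀ y : L, algebraMap F L (Algebra.trace F L y) = y + y ^ q ^ 2 + y ^ q ^ 4 := fun y => by
    rw [FiniteField.algebraMap_trace_eq_sum_pow, hrank, Fintype.card_eq_nat_card.symm, hF]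
    simp [Finset.sum_range_succ, ← pow_mul]
  let B : Module.Basis (Fin 3) F L := Module.finBasisOfFinrankEq F L hrank
  set G : Matrix (Fin 3) (Fin 3) F := Matrix.of fun i j => Algebra.trace F L (J (B i) * B j) with hG
  have hJsum : ∀ (a : Fin 3 → F), J (∑ i, a i • B i) = ∑ i, a i ^ q • J (B i) := fun a => by
    simp only [hJdef, map_sum, Algebra.smul_def, map_mul]
    refine Finset.sum_congr rfl fun i _ => ?_
    congr 1
    rw [hσ, hσ, hσ, ← map_pow, ← map_pow, ← map_pow, conj_conj hF]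
  have hGh : tstar hF G = G := by
    ext i j
    simp only [tstar, Matrix.transpose_apply, Matrix.map_apply, hG, Matrix.of_apply, qHom_eq]
    refine (algebraMap F L).injective ?_
    rw [map_pow, hTr, hTr, ← hσ, map_add, map_add, map_pow, map_pow]
    set y := J (B j) * B i
    have hy : J (B i) * B j = J y := by
      have e : J y = J (J (B j)) * J (B i) := by simp [hJdef, y]
      rw [e, hJ (J (B j)), hJ (B j), ← pow_mul, ← pow_add, show 3 + 3 = 6 from rfl, h6, mul_comm]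
    rw [hy, hJ, hσ, ← pow_mul, ← pow_mul, ← pow_mul, ← pow_mul]
    have e7 : y ^ (q ^ 3 * q ^ 4) = y ^ q := by
      rw [← pow_add, show 3 + 4 = 6 + 1 from rfl, pow_add, pow_mul, h6, pow_one]
    rw [e7]
    ring_nf
    abel
  have hGu : IsUnit G := by
    rw [Matrix.isUnit_iff_isUnit_det, isUnit_iff_ne_zero]
    refine fun hdet => ?_
    obtain ⟨v, hv0, hv⟩ := Matrix.exists_mulVec_eq_zero_iff.2 hdet
    set y := ∑ j, v j • B j with hy
    have hz : ∀ i, Algebra.trace F L (J (B i) * y) = 0 := fun i => by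
      have := congrFun hv i
      simp only [Matrix.mulVec, dotProduct, hG, Matrix.of_apply, Pi.zero_apply] at this
      rw [hy, Finset.mul_sum, map_sum, ← this]
      refine Finset.sum_congr rfl fun j _ => ?_
      rw [mul_smul_comm, map_smul, smul_eq_mul, mul_comm]
    have hall : ∀ z, Algebra.trace F L (J z * y) = 0 := fun z => by
      rw [← B.sum_repr z, hJsum, Finset.sum_mul, map_sum]
      exact Finset.sum_eq_zero fun i _ => by rw [smul_mul_assoc, map_smul, hz, smul_zero]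
    have hy0 : y ≠ 0 := fun h => hv0 (funext fun j => by
      have := Fintype.linearIndependent_iff.1 B.linearIndependent v (by rw [← hy, h]) j
      simpa using this)
    obtain ⟨z, hz'⟩ := Algebra.trace_surjective F L 1
    obtain ⟨x, hx⟩ := Finite.surjective_of_injective (f := J)
      (fun a b h => σ.injective (σ.injective (σ.injective h))) (z * y⁻¹)
    have := hall x
    rw [hx, inv_mul_cancel_right₀ hy0, hz'] at this
    exact one_ne_zero this
  obtain ⟨c, hc, -⟩ := exists_sqrt hF hGu.unit hGh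
  rw [show (hGu.unit : Matrix (Fin 3) (Fin 3) F) = G from rfl] at hc
  set M := Algebra.leftMulMatrix B l with hM
  have hl1 : l ^ n = 1 := by rw [← hl, pow_orderOf_eq_one]
  have hlJ : J l * l = 1 := by rw [hJ, ← pow_succ, ← hn3, pow_mul, hl1, one_pow]
  have hMdet : M.det = 1 := by
    rw [hM, ← Algebra.norm_eq_matrix_det]
    refine (algebraMap F L).injective ?_
    rw [FiniteField.algebraMap_norm_eq_pow_sum, hrank, Nat.card_eq_fintype_card, hF, map_one]
    simp [Finset.sum_range_succ, ← pow_mul]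
    have : 1 + q ^ 2 + q ^ 4 = n * (q ^ 2 + q + 1) := by rw [hn]; zify [hle]; ring
    rw [this, pow_mul, hl1, one_pow]
  have hcol : ∀ j, l * B j = ∑ i, M i j • B i := fun j => by
    conv_lhs => rw [← B.sum_repr (l * B j)]
    simp [hM, Algebra.leftMulMatrix_eq_repr_mul]
  have hMG : tstar hF M * G * M = G := by
    ext i j
    have : G i j = Algebra.trace F L (J (l * B i) * (l * B j)) := by
      rw [hG, Matrix.of_apply]
      congr 1
      have e : J (l * B i) = J l * J (B i) := by simp [hJdef]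
      rw [e]
      linear_combination (-(J (B i) * B j)) * hlJ
    rw [this, hcol, hcol, hJsum, Finset.sum_mul, map_sum]
    simp only [Matrix.mul_apply, tstar, Matrix.transpose_apply, Matrix.map_apply, qHom_eq, hG,
      Matrix.of_apply, Finset.mul_sum, Finset.sum_mul, map_sum, smul_mul_assoc, mul_smul_comm, map_smul,
      smul_eq_mul]
    rw [Finset.sum_comm]
    refine Finset.sum_congr rfl fun a _ => Finset.sum_congr rfl fun b _ => ?_
    ring
  obtain ⟨g, hg⟩ := exists_of_gram hF c M ((Matrix.isUnit_iff_isUnit_det _).1 c.isUnit).ne_zero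
    (by rw [hc]; exact hMG) hMdet
  refine ⟨g, fun k hk => ?_⟩
  obtain ⟨e, he⟩ := hg k hk
  rw [hM, ← map_pow, ← Algebra.algebraMap_eq_smul_one, ← (Algebra.leftMulMatrix B).commutes e] at he
  have hlk := Algebra.leftMulMatrix_injective B he
  have hdvd : n ∣ (q ^ 2 - 1) * k := by
    rw [← hl]
    refine orderOf_dvd_of_pow_eq_one (mul_right_cancel₀ (pow_ne_zero k hl0) ?_)
    rw [one_mul, mul_comm (q ^ 2 - 1), pow_mul, ← pow_succ, Nat.sub_add_cancel (Nat.one_le_pow _ _ (by omega)),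
      hlk, ← map_pow, ← hF, FiniteField.pow_card]
  have e : n = (q - 2) * (q + 1) + 3 := by
    obtain ⟨r, hr⟩ : ∃ r, q = r + 2 := ⟨q - 2, by omega⟩
    rw [hn]; subst hr
    zify [hle, show 2 ≤ r + 2 by omega]; ring
  have hdn : Nat.gcd 3 (q + 1) ∣ n := by
    rw [e]; exact dvd_add (dvd_mul_of_dvd_right (Nat.gcd_dvd_right _ _) _) (Nat.gcd_dvd_left _ _)
  refine dvd_trans (Nat.div_dvd_div_left hdn ?_) (dvd_of_dvd_mul_gcd (by omega) hdvd)
  have hA := Nat.gcd_dvd_left (q ^ 2 - 1) n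
  have hB := Nat.gcd_dvd_right (q ^ 2 - 1) n
  have hC : Nat.gcd (q ^ 2 - 1) n ∣ q - 2 := by
    have := Nat.dvd_sub hA hB
    rwa [show q ^ 2 - 1 - n = q - 2 by omega] at this
  have h3 : Nat.gcd (q ^ 2 - 1) n ∣ 3 := by
    exact (Nat.dvd_add_right (dvd_mul_of_dvd_left hC (q + 1))).1 (e ▸ hB)
  refine Nat.dvd_gcd h3 ?_
  have := dvd_add hC h3
  rwa [show q - 2 + 3 = q + 1 by omega] at this

end Cfsg.Agent.Lib.Classical.SUThree
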