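import Cfsg.Agent.Lib.Classical.SUThreeSpectrumUpper
import Cfsg.Agent.Lib.Classical.SUThreeSpectrumLower

/-!
Powers of elements of three-dimensional special linear groups that are scalar, and large orders.
-/

set_option autoImplicit false

namespace Cfsg.Agent.Lib.Classical.SLThree

open Matrix Cfsg.Agent.Lib.Classical.SUThree

variable {F : Type*} [Field F] [Fintype F]

omit [Fintype F] in
theorem cube_zero (p : ℕ) [Fact p.Prime] [CharP F p] {U : Matrix (Fin 3) (Fin 3) F} {a : ℕ} (hU : U ^ p ^ a = 1) :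
    (U - 1) ^ 3 = 0 := by
  haveI : CharP (Matrix (Fin 3) (Fin 3) F) p := inferInstance
  have h : (U - 1) ^ p ^ a = 0 := by
    rw [sub_pow_char_pow_of_commute _ a (Commute.one_right U), hU, one_pow, sub_self]
  have h2 := Matrix.isNilpotent_charpoly_sub_pow_of_isNilpotent ⟨p ^ a, h⟩
  have h3 : (U - 1).charpoly = Polynomial.X ^ 3 := by simpa [sub_eq_zero] using h2.eq_zero
  have h4 := Matrix.aeval_self_charpoly (U - 1)
  rwa [h3, map_pow, Polynomial.aeval_X] at h4

omit [Fintype F] in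
theorem regular (p : ℕ) [Fact p.Prime] [CharP F p] {M N : Matrix (Fin 3) (Fin 3) F}
    (hN : N ^ 3 = 0) (hN2 : N ^ 2 ≠ 0) (hc : Commute M N) :
    ∃ e : F, M ^ (if p = 2 then 4 else p) = e • 1 := by
  by_cases hp : p = 2
  · subst hp
    rw [if_pos rfl]
    obtain ⟨a, b, c, rfl⟩ := eq_poly_of_regular hN hN2 hc
    haveI : CharP (Matrix (Fin 3) (Fin 3) F) 2 := inferInstance
    refine ⟨a ^ 4, ?_⟩
    set X := b • N + c • N ^ 2 with hX
    have hX3 : X ^ 3 = 0 := by
      have e : b • N + c • N ^ 2 = N * (b • 1 + c • N) := by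
        rw [mul_add, mul_smul_comm, mul_smul_comm, mul_one, pow_two]
      rw [hX, e, Commute.mul_pow, hN, zero_mul]
      exact (((Commute.one_left N).smul_left _).add_left ((Commute.refl N).smul_left _)).symm
    rw [show (4 : ℕ) = 2 ^ 2 from rfl, add_pow_char_pow_of_commute _ 2 ((Commute.one_left X).smul_left a),
      _root_.smul_pow, one_pow, show (2 : ℕ) ^ 2 = 3 + 1 from rfl, pow_succ X, hX3, zero_mul, add_zero]
  · rw [if_neg hp]
    exact regular_case p (by have := (Fact.out : p.Prime).two_le; omega) hN hN2 hc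

theorem transvection (p : ℕ) [Fact p.Prime] [CharP F p] {M N : Matrix (Fin 3) (Fin 3) F}
    (hdet : M.det = 1) (hN0 : N ≠ 0) (hN2 : N ^ 2 = 0) (hc : Commute M N) :
    ∃ e : F, M ^ (p * ((Fintype.card F - 1) / Nat.gcd 3 (Fintype.card F - 1))) = e • 1 ∨
      M ^ (if p = 2 then 4 else p) = e • 1 := by
  classical
  obtain ⟨v, hv⟩ : ∃ v, N *ᵥ v ≠ 0 := by
    by_contra h
    push Not at h
    exact hN0 (Matrix.ext_iff_mulVec.2 fun v => by rw [h v, zero_mulVec])
  set w := N *ᵥ v with hw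
  have hNN : ∀ x, N *ᵥ (N *ᵥ x) = 0 := fun x => by rw [mulVec_mulVec, ← pow_two, hN2, zero_mulVec]
  set K := LinearMap.ker N.mulVecLin
  set R := LinearMap.range N.mulVecLin
  have hdim : Module.finrank F R + Module.finrank F K = 3 := by
    rw [LinearMap.finrank_range_add_finrank_ker]; simp
  have hle : R ≤ K := by
    rintro _ ⟨x, rfl⟩
    exact hNN x
  have hR1 : Module.finrank F R = 1 := by
    have := Submodule.finrank_mono hle
    have h0 : R ≠ ⊥ := fun h => hv (by
      have : w ∈ R := ⟨v, rfl⟩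
      rwa [h, Submodule.mem_bot] at this)
    have : Module.finrank F R ≠ 0 := by rwa [ne_eq, Submodule.finrank_eq_zero]
    omega
  have hrank : ∀ x, ∃ t : F, N *ᵥ x = t • w := fun x => by
    obtain ⟨t, ht⟩ := exists_smul_eq_of_finrank_eq_one hR1 (x := (⟨w, v, rfl⟩ : R))
      (fun h => hv (congrArg Subtype.val h)) ⟨N *ᵥ x, x, rfl⟩
    exact ⟨t, (congrArg Subtype.val ht).symm⟩
  obtain ⟨a, ha⟩ := hrank (M *ᵥ v)
  have hMw : M *ᵥ w = a • w := by rw [← ha, hw, mulVec_mulVec, hc.eq, ← mulVec_mulVec]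
  have hMN : ∀ y, N *ᵥ (M *ᵥ y) = a • (N *ᵥ y) := fun y => by
    obtain ⟨t, ht⟩ := hrank y
    rw [mulVec_mulVec, ← hc.eq, ← mulVec_mulVec, ht, mulVec_smul, hMw, smul_comm]
  have hK2 : Module.finrank F K = 2 := by omega
  obtain ⟨y, hyK, hyw⟩ : ∃ y ∈ K, y ∉ Submodule.span F {w} := by
    refine SetLike.not_le_iff_exists.1 fun h => ?_
    have := Submodule.finrank_mono h
    rw [hK2, finrank_span_singleton hv] at this
    omega
  have hy0 : N *ᵥ y = 0 := hyK
  have hind : LinearIndependent F ![v, y, w] := by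
    rw [Fintype.linearIndependent_iff]
    intro g hg
    simp [Fin.sum_univ_three] at hg
    have g0 : g 0 = 0 := by
      have := congrArg (fun z => N *ᵥ z) hg
      simp [mulVec_add, mulVec_smul, hy0, hw, hNN] at this
      exact this.resolve_right hv
    rw [g0, zero_smul, zero_add] at hg
    have g1 : g 1 = 0 := by
      by_contra h
      refine hyw (Submodule.mem_span_singleton.2 ⟨-((g 1)⁻¹ * g 2), ?_⟩)
      have h2 := congrArg (fun z => (g 1)⁻¹ • z) hg
      simp only [smul_add, smul_smul, inv_mul_cancel₀ h, one_smul, smul_zero] at h2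
      rw [neg_smul]
      exact (eq_neg_of_add_eq_zero_left h2).symm
    rw [g1, zero_smul, zero_add, smul_eq_zero] at hg
    intro i
    fin_cases i
    exacts [g0, g1, hg.resolve_right hv]
  have hsp := hind.span_eq_top_of_card_eq_finrank (by simp)
  have hdec : ∀ z : Fin 3 → F, ∃ r s t : F, z = r • v + s • y + t • w := fun z => by
    obtain ⟨g, hg⟩ := (Submodule.mem_span_range_iff_exists_fun F).1
      (show z ∈ Submodule.span F (Set.range ![v, y, w]) from hsp ▸ Submodule.mem_top)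
    exact ⟨g 0, g 1, g 2, by rw [← hg]; simp [Fin.sum_univ_three]⟩
  have hker : ∀ z, N *ᵥ z = 0 → ∃ s t : F, z = s • y + t • w := fun z hz => by
    obtain ⟨r, s, t, rfl⟩ := hdec z
    simp [mulVec_add, mulVec_smul, hy0, hw, hNN] at hz
    exact ⟨s, t, by rw [hz.resolve_right hv, zero_smul, zero_add]⟩
  obtain ⟨c, e1, hMy⟩ := hker (M *ᵥ y) (by rw [hMN, hy0, smul_zero])
  obtain ⟨s0, t0, hMx'⟩ := hker (M *ᵥ v - a • v) (by rw [mulVec_sub, mulVec_smul, hMN, sub_self])
  have hMx : M *ᵥ v = a • v + (s0 • y + t0 • w) := by rw [← hMx']; abel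
  set P : Matrix (Fin 3) (Fin 3) F := (Matrix.of ![v, y, w])ᵀ
  have hPd : P.det ≠ 0 := by
    rw [det_transpose]
    exact (Matrix.isUnit_iff_isUnit_det _).1 (Matrix.linearIndependent_rows_iff_isUnit.1 hind) |>.ne_zero
  set T : Matrix (Fin 3) (Fin 3) F := !![a, 0, 0; s0, c, 0; t0, e1, a]
  have hMP : M * P = P * T := by
    ext i j
    have e : (M * P) i j = (M *ᵥ (![v, y, w] j)) i := rfl
    rw [e, mul_apply, Fin.sum_univ_three]
    fin_cases j <;> simp [hMx, hMy, hMw, T, P] <;> ring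
  have hc' : a * c * a = 1 := by
    have h := congrArg Matrix.det hMP
    rw [det_mul, det_mul, hdet, one_mul, mul_comm] at h
    have hT : T.det = 1 := mul_right_cancel₀ hPd (h.symm.trans (one_mul _).symm)
    simpa [T, det_fin_three] using hT
  have ha0 : a ≠ 0 := fun h => by simp [h] at hc'
  have ha1 : a ^ (Fintype.card F - 1) = 1 := FiniteField.pow_card_sub_one_eq_one a ha0
  have hann : ∀ z, (M - a • 1) *ᵥ ((M - c • 1) *ᵥ ((M - a • 1) *ᵥ z)) = 0 := by
    intro z
    obtain ⟨r, s, t, rfl⟩ := hdec z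
    simp only [sub_mulVec, smul_mulVec, one_mulVec, mulVec_add, mulVec_sub, mulVec_smul, hMx, hMy, hMw,
      smul_add, smul_sub, smul_smul]
    module
  set d := Nat.gcd 3 (Fintype.card F - 1)
  set k := (Fintype.card F - 1) / d with hk
  have hak : a ^ k = c ^ k := by
    have h3 : a ^ (3 * k) = 1 := by
      obtain ⟨m, hm⟩ := Nat.gcd_dvd_left 3 (Fintype.card F - 1)
      rw [hk, hm, mul_comm d m, mul_assoc, Nat.mul_div_cancel' (Nat.gcd_dvd_right _ _), mul_comm, pow_mul,
        ha1, one_pow]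
    have h4 : (a * c * a) ^ k = 1 := by rw [hc', one_pow]
    rw [mul_pow, mul_pow] at h4
    rw [pow_mul, ← pow_right_comm] at h3
    refine mul_left_cancel₀ (mul_ne_zero (pow_ne_zero k ha0) (pow_ne_zero k ha0)) ?_
    linear_combination h3 - h4
  set e := a ^ k
  have hfac : ∀ b : F, b ^ k = e → ∃ A : Polynomial F, (Polynomial.X ^ k - Polynomial.C e) = A * (Polynomial.X - Polynomial.C b) := by
    intro b hb
    have h : (Polynomial.X - Polynomial.C b) ∣ (Polynomial.X ^ k - Polynomial.C e) := by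
      rw [Polynomial.dvd_iff_isRoot]; simp [hb]
    obtain ⟨A, hA⟩ := h
    exact ⟨A, hA.trans (mul_comm _ _)⟩
  obtain ⟨A, hA⟩ := hfac a rfl
  obtain ⟨B, hB⟩ := hfac c hak.symm
  have hY : (M ^ k - e • 1) ^ 3 = 0 := by
    have h0 : (M - a • 1) * ((M - c • 1) * (M - a • 1)) = 0 :=
      Matrix.ext_iff_mulVec.2 fun z => by rw [← mulVec_mulVec, ← mulVec_mulVec, hann, zero_mulVec]
    have hev : ∀ b : F, Polynomial.aeval M (Polynomial.X - Polynomial.C b) = M - b • 1 := fun b => by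
      simp [Algebra.smul_def]
    have h1 : Polynomial.aeval M ((Polynomial.X - Polynomial.C a) *
        ((Polynomial.X - Polynomial.C c) * (Polynomial.X - Polynomial.C a))) = 0 := by
      rw [map_mul, map_mul, hev, hev, h0]
    have h2 : Polynomial.aeval M (Polynomial.X ^ k - Polynomial.C e) = M ^ k - e • 1 := by
      simp [Algebra.smul_def]
    have h3 : (Polynomial.X ^ k - Polynomial.C e) ^ 3 = A * B * A * ((Polynomial.X - Polynomial.C a) *
        ((Polynomial.X - Polynomial.C c) * (Polynomial.X - Polynomial.C a))) := by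
      calc (Polynomial.X ^ k - Polynomial.C e) ^ 3
          = (Polynomial.X ^ k - Polynomial.C e) * (Polynomial.X ^ k - Polynomial.C e) *
            (Polynomial.X ^ k - Polynomial.C e) := by ring
        _ = (A * (Polynomial.X - Polynomial.C a)) * (B * (Polynomial.X - Polynomial.C c)) *
            (A * (Polynomial.X - Polynomial.C a)) := by rw [← hA, ← hB]
        _ = _ := by ring
    rw [← h2, ← map_pow, h3, map_mul, h1, mul_zero]
  by_cases hY2 : (M ^ k - e • 1) ^ 2 = 0
  · refine ⟨e ^ p, Or.inl ?_⟩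
    haveI : CharP (Matrix (Fin 3) (Fin 3) F) p := inferInstance
    rw [mul_comm p, pow_mul, show M ^ k = e • 1 + (M ^ k - e • 1) by abel,
      add_pow_char_of_commute _ ((Commute.one_left _).smul_left e), _root_.smul_pow, one_pow,
      show p = 2 + (p - 2) by have := (Fact.out : p.Prime).two_le; omega, pow_add (M ^ k - e • 1), hY2,
      zero_mul, add_zero]
  · obtain ⟨e', he'⟩ := regular p hY hY2
      (Commute.sub_right ((Commute.refl M).pow_right k) ((Commute.one_right M).smul_right e))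
    exact ⟨e', Or.inr he'⟩

theorem semisimple {M : Matrix (Fin 3) (Fin 3) F} (hdet : M.det = 1)
    {m : ℕ} (hm : (m : F) ≠ 0) (hMm : M ^ m = 1) :
    ∃ B : ℕ, (B = Fintype.card F - 1 ∨ B = (Fintype.card F ^ 2 - 1) / Nat.gcd 3 (Fintype.card F - 1) ∨
        B = (Fintype.card F ^ 2 + Fintype.card F + 1) / Nat.gcd 3 (Fintype.card F - 1)) ∧
      ∃ e : F, M ^ B = e • 1 := by
  classical
  let L := AlgebraicClosure F
  set i := algebraMap F L
  set ML := M.map i with hML
  set R := ML.charpoly.roots with hR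
  have hsplit := IsAlgClosed.splits ML.charpoly
  have hcard : Multiset.card R = 3 := by
    rw [hR, ← hsplit.natDegree_eq_card_roots, Matrix.charpoly_natDegree_eq_dim]; rfl
  have hdetL : ML.det = 1 := by rw [hML, ← RingHom.mapMatrix_apply, ← RingHom.map_det, hdet, map_one]
  have hprod : R.prod = 1 := by
    rw [hR, ← Matrix.det_eq_prod_roots_charpoly_of_splits hsplit, hdetL]
  set q := Fintype.card F with hq
  have hq2 : 2 ≤ q := Fintype.one_lt_card
  obtain ⟨p, hcp⟩ := CharP.exists F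
  obtain ⟨k, hpp, hqp⟩ := FiniteField.card F p
  haveI := Fact.mk hpp
  haveI : CharP L p := charP_of_injective_algebraMap i.injective p
  let Φ : L →+* L := iterateFrobenius L p k
  have hΦ : ∀ x, Φ x = x ^ q := fun x => by rw [hq, hqp]; exact iterateFrobenius_def ..
  have hroot : ∀ {x : L}, x ∈ R ↔ (Matrix.scalar (Fin 3) x - ML).det = 0 := fun {x} => by
    rw [hR, Polynomial.mem_roots (Matrix.charpoly_monic _).ne_zero, Polynomial.IsRoot.def, Matrix.eval_charpoly]
  have hmap : ∀ x : L, x ∈ R → x ≠ 0 ∧ x ^ q ∈ R := by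
    intro x hx
    rw [hroot] at hx
    refine ⟨fun h => by rw [h, map_zero, zero_sub, det_neg, hdetL] at hx; simp at hx, hroot.2 ?_⟩
    rw [← hΦ, show Matrix.scalar (Fin 3) (Φ x) - ML = (Matrix.scalar (Fin 3) x - ML).map Φ by
      rw [Matrix.map_sub _ (map_sub Φ)]
      congr 1
      · simp [Matrix.scalar_apply, diagonal_map (map_zero Φ)]
      · rw [hML, Matrix.map_map]
        ext a b
        simp [hΦ, ← map_pow, hq, FiniteField.pow_card],
      ← RingHom.mapMatrix_apply, ← RingHom.map_det, hx, map_zero]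
  have hm1 : (m : L) ≠ 0 := by rw [← map_natCast i]; exact (map_ne_zero i).2 hm
  have hscal : ∀ (B : ℕ) (e : L), (∀ x ∈ R, x ^ B = e) → ∃ e' : F, M ^ B = e' • 1 := by
    intro B e hB
    set g := EuclideanDomain.gcd ML.charpoly (Polynomial.X ^ m - 1) with hg
    have hg0 : Polynomial.aeval ML g = 0 := by
      rw [hg, EuclideanDomain.gcd_eq_gcd_ab, map_add, map_mul, map_mul, Matrix.aeval_self_charpoly]
      have : Polynomial.aeval ML (Polynomial.X ^ m - 1 : Polynomial L) = 0 := by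
        rw [map_sub, map_pow, Polynomial.aeval_X, map_one, hML, ← RingHom.mapMatrix_apply, ← map_pow, hMm,
          map_one, sub_self]
      rw [this]; simp
    have hdv : g ∣ Polynomial.X ^ B - Polynomial.C e := by
      have hgd : g ∣ ML.charpoly := EuclideanDomain.gcd_dvd_left _ _
      have hne : g ≠ 0 := ne_zero_of_dvd_ne_zero (Matrix.charpoly_monic _).ne_zero hgd
      have hgs : g.Separable := (Polynomial.separable_X_pow_sub_C (1 : L) hm1 one_ne_zero).of_dvd
        (by rw [map_one]; exact EuclideanDomain.gcd_dvd_right _ _)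
      rcases Nat.eq_zero_or_pos B with rfl | hB0
      · obtain ⟨x, hx⟩ := Multiset.card_pos_iff_exists_mem.1 (hcard ▸ (by norm_num : 0 < 3))
        rw [← hB x hx, pow_zero, pow_zero, map_one, sub_self]
        exact dvd_zero _
      rw [(IsAlgClosed.splits g).dvd_iff_roots_le_roots hne (Polynomial.X_pow_sub_C_ne_zero hB0 e),
        Multiset.le_iff_subset (Polynomial.nodup_roots hgs)]
      intro x hx
      rw [Polynomial.mem_roots (Polynomial.X_pow_sub_C_ne_zero hB0 e)]
      simp [hB x (Multiset.mem_of_le (Polynomial.roots.le_of_dvd (Matrix.charpoly_monic _).ne_zero hgd) hx)]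
    obtain ⟨r, hr⟩ := hdv
    have hpow : ML ^ B = e • 1 := by
      have := congrArg (Polynomial.aeval ML) hr
      rw [map_mul, hg0, zero_mul, map_sub, map_pow, Polynomial.aeval_X, Polynomial.aeval_C, sub_eq_zero] at this
      rw [this, Algebra.smul_def, mul_one]
    rw [hML, ← RingHom.mapMatrix_apply, ← map_pow, RingHom.mapMatrix_apply] at hpow
    refine ⟨(M ^ B) 0 0, Matrix.ext fun a b => ?_⟩
    have h00 := congrFun (congrFun hpow 0) 0
    have hab := congrFun (congrFun hpow a) b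
    simp only [Matrix.map_apply, Matrix.smul_apply, Matrix.one_apply] at h00 hab ⊢
    by_cases h : a = b
    · subst h
      simp at h00 hab ⊢
      exact i.injective (hab.trans h00.symm)
    · simp [h] at hab ⊢
      exact hab
  set d := Nat.gcd 3 (q - 1)
  have hdq : d ∣ q - 1 := Nat.gcd_dvd_right _ _
  have hd3 : d ∣ 3 := Nat.gcd_dvd_left _ _
  by_cases hall : ∀ x ∈ R, x ^ q = x
  · refine ⟨_, Or.inl rfl, hscal _ 1 fun x hx => ?_⟩
    refine mul_right_cancel₀ (hmap x hx).1 ?_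
    rw [← pow_succ, Nat.sub_add_cancel (by omega), hall x hx, one_mul]
  push Not at hall
  obtain ⟨a, haR, ha⟩ := hall
  obtain ⟨ha0, hbR⟩ := hmap a haR
  obtain ⟨R', hR'⟩ : ∃ R', R = a ::ₘ R' := ⟨_, (Multiset.cons_erase haR).symm⟩
  have hbR' : a ^ q ∈ R' := (Multiset.mem_cons.1 (hR' ▸ hbR)).resolve_left ha
  obtain ⟨R'', hR''⟩ : ∃ R'', R' = a ^ q ::ₘ R'' := ⟨_, (Multiset.cons_erase hbR').symm⟩
  obtain ⟨c, hc⟩ : ∃ c, R'' = {c} := Multiset.card_eq_one.1 (by
    rw [hR', hR'', Multiset.card_cons, Multiset.card_cons] at hcard; omega)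
  have hmem : ∀ x, x ∈ R ↔ x = a ∨ x = a ^ q ∨ x = c := fun x => by simp [hR', hR'', hc]
  have hp' : a * (a ^ q * c) = 1 := by rw [← hprod, hR', hR'', hc]; simp
  have hcv : c * a ^ (q + 1) = 1 := by rw [pow_succ]; linear_combination hp'
  have hdq2 : d ∣ q + 2 := by
    have := dvd_add hdq hd3
    rwa [show q - 1 + 3 = q + 2 by omega] at this
  have fin : ∀ n : ℕ, a ^ n = 1 → d ∣ n → ∃ e : F, M ^ (n / d) = e • 1 := by
    intro n hn hdn
    refine hscal _ (a ^ (n / d)) ?_
    have key : ∀ j : ℕ, d ∣ j → (a ^ j) ^ (n / d) = 1 := fun j ⟨j', hj⟩ => by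
      rw [← pow_mul, hj, mul_comm d, mul_assoc, Nat.mul_div_cancel' hdn, mul_comm, pow_mul, hn, one_pow]
    intro x hx
    rcases (hmem x).1 hx with h | h | h <;> rw [h]
    · have : a ^ q = a ^ (q - 1) * a := by rw [← pow_succ, Nat.sub_add_cancel (by omega)]
      rw [this, mul_pow, key _ hdq, one_mul]
    · have e : c * a ^ (q + 2) = a := by rw [pow_succ, ← mul_assoc, hcv, one_mul]
      calc c ^ (n / d) = c ^ (n / d) * (a ^ (q + 2)) ^ (n / d) := by rw [key _ hdq2, mul_one]
        _ = _ := by rw [← mul_pow, e]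
  obtain ⟨-, hc'R⟩ := hmap _ hbR
  by_cases h2 : (a ^ q) ^ q = a
  · refine ⟨_, Or.inr (Or.inl rfl), fin _ ?_ ?_⟩
    · refine mul_right_cancel₀ ha0 ?_
      rw [← pow_succ, Nat.sub_add_cancel (Nat.one_le_pow _ _ (by omega)), pow_two, pow_mul, h2, one_mul]
    · have h := Nat.sq_sub_sq q 1
      rw [one_pow] at h
      rw [h]; exact dvd_mul_of_dvd_right hdq _
  · refine ⟨_, Or.inr (Or.inr rfl), fin _ ?_ ?_⟩
    · have hne : (a ^ q) ^ q ≠ a ^ q := fun h => ha (Φ.injective (by rw [hΦ, hΦ, h]))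
      have hbc : (a ^ q) ^ q = c := (((hmem _).1 hc'R).resolve_left h2).resolve_left hne
      rw [show q ^ 2 + q + 1 = q * q + (q + 1) by ring, pow_add, pow_mul, hbc, hcv]
    · obtain ⟨t, ht⟩ : ∃ t, q = t + 1 := ⟨q - 1, by omega⟩
      have hdt : d ∣ t := by simpa [ht] using hdq
      rw [show q ^ 2 + q + 1 = t * (t + 3) + 3 by rw [ht]; ring]
      exact dvd_add (dvd_mul_of_dvd_left hdt _) hd3

omit [Fintype F] in
theorem coe_pow' (g : SpecialLinearGroup (Fin 3) F) (j : ℕ) :
    ((g ^ j : SpecialLinearGroup (Fin 3) F) : Matrix (Fin 3) (Fin 3) F) = (g : Matrix (Fin 3) (Fin 3) F) ^ j := by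
  induction j with
  | zero => rfl
  | succ j ih => rw [pow_succ, pow_succ, ← ih]; rfl

/-- Every element has a scalar power among the bounds. -/
theorem scalar_power (p : ℕ) [Fact p.Prime] [CharP F p] (g : SpecialLinearGroup (Fin 3) F) :
    ∃ B : ℕ, (B = (Fintype.card F ^ 2 + Fintype.card F + 1) / Nat.gcd 3 (Fintype.card F - 1) ∨
        B = (Fintype.card F ^ 2 - 1) / Nat.gcd 3 (Fintype.card F - 1) ∨ B = Fintype.card F - 1 ∨
        B = p * (Fintype.card F - 1) / Nat.gcd 3 (Fintype.card F - 1) ∨ (p = 2 ∧ B = 4)) ∧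
      ∃ e : F, (g : Matrix (Fin 3) (Fin 3) F) ^ B = e • 1 := by
  classical
  set d := Nat.gcd 3 (Fintype.card F - 1)
  have hdiv : p * (Fintype.card F - 1) / d = p * ((Fintype.card F - 1) / d) :=
    Nat.mul_div_assoc _ (Nat.gcd_dvd_right _ _)
  have hreg : ∀ {e : F}, (g : Matrix (Fin 3) (Fin 3) F) ^ (if p = 2 then 4 else p) = e • 1 →
      ∃ B : ℕ, (B = (Fintype.card F ^ 2 + Fintype.card F + 1) / d ∨
        B = (Fintype.card F ^ 2 - 1) / d ∨ B = Fintype.card F - 1 ∨
        B = p * (Fintype.card F - 1) / d ∨ (p = 2 ∧ B = 4)) ∧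
      ∃ e : F, (g : Matrix (Fin 3) (Fin 3) F) ^ B = e • 1 := by
    intro e he
    by_cases hp : p = 2
    · rw [if_pos hp] at he
      exact ⟨4, Or.inr (Or.inr (Or.inr (Or.inr ⟨hp, rfl⟩))), e, he⟩
    · rw [if_neg hp] at he
      refine ⟨_, Or.inr (Or.inr (Or.inr (Or.inl rfl))), e ^ ((Fintype.card F - 1) / d), ?_⟩
      rw [hdiv, pow_mul, he, _root_.smul_pow, one_pow]
  have hn : 0 < orderOf g := orderOf_pos g
  set n := orderOf g
  obtain ⟨a, m, hm, hnm⟩ := Nat.exists_eq_pow_mul_and_not_dvd hn.ne' p (Fact.out : p.Prime).ne_one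
  set U := ((g ^ m : SpecialLinearGroup (Fin 3) F) : Matrix (Fin 3) (Fin 3) F) with hU
  by_cases hU1 : U = 1
  · have hgm : (g : Matrix (Fin 3) (Fin 3) F) ^ m = 1 := by rw [← coe_pow']; exact hU1
    have hm' : (m : F) ≠ 0 := by rwa [ne_eq, CharP.cast_eq_zero_iff F p]
    obtain ⟨B, hB, he⟩ := semisimple g.2 hm' hgm
    refine ⟨B, ?_, he⟩
    rcases hB with h | h | h
    exacts [Or.inr (Or.inr (Or.inl h)), Or.inr (Or.inl h), Or.inl h]
  · have hUp : U ^ p ^ a = 1 := by
      rw [hU, ← coe_pow', ← pow_mul, mul_comm, ← hnm, pow_orderOf_eq_one]; rfl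
    have hN3 := cube_zero p hUp
    have hc : Commute (g : Matrix (Fin 3) (Fin 3) F) (U - 1) :=
      Commute.sub_right (by rw [hU, coe_pow']; exact (Commute.refl _).pow_right _) (Commute.one_right _)
    by_cases hN2 : (U - 1) ^ 2 = 0
    · obtain ⟨e, he | he⟩ := transvection p g.2 (sub_ne_zero.2 hU1) hN2 hc
      · exact ⟨_, Or.inr (Or.inr (Or.inr (Or.inl rfl))), e, hdiv ▸ he⟩
      · exact hreg he
    · obtain ⟨e, he⟩ := regular p hN3 hN2 hc
      exact hreg he

theorem lower_cyclic : ∃ g : SpecialLinearGroup (Fin 3) F, ∀ k : ℕ,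
    (∃ e : F, (g : Matrix (Fin 3) (Fin 3) F) ^ k = e • 1) → Fintype.card F - 1 ∣ k := by
  obtain ⟨z, hz0, hz⟩ := exists_orderOf_units (K := F) dvd_rfl
  refine ⟨⟨diagonal ![z, z⁻¹, 1], by rw [det_diagonal, Fin.prod_univ_three]; simp [hz0]⟩, fun k hk => ?_⟩
  obtain ⟨e, he⟩ := hk
  change diagonal ![z, z⁻¹, 1] ^ k = e • 1 at he
  rw [diagonal_pow] at he
  have h0 := congrFun (congrFun he 0) 0
  have h2 := congrFun (congrFun he 2) 2
  simp at h0 h2
  rw [← hz]
  exact orderOf_dvd_of_pow_eq_one (h0.trans h2.symm)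

theorem lower_mixed (p : ℕ) [Fact p.Prime] [CharP F p] :
    ∃ g : SpecialLinearGroup (Fin 3) F, ∀ k : ℕ,
      (∃ e : F, (g : Matrix (Fin 3) (Fin 3) F) ^ k = e • 1) →
      p * (Fintype.card F - 1) / Nat.gcd 3 (Fintype.card F - 1) ∣ k := by
  obtain ⟨a, ha0, ha⟩ := exists_orderOf_units (K := F) dvd_rfl
  set A : Matrix (Fin 3) (Fin 3) F := !![a, a, 0; 0, a, 0; 0, 0, (a * a)⁻¹]
  have hpow : ∀ j : ℕ, A ^ j = !![a ^ j, (j : F) * a ^ j, 0; 0, a ^ j, 0; 0, 0, (a * a)⁻¹ ^ j] := by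
    intro j
    induction j with
    | zero => simp [Matrix.one_fin_three]
    | succ j ih =>
      rw [pow_succ, ih]
      ext r s
      fin_cases r <;> fin_cases s <;> simp [A, Matrix.mul_apply, Fin.sum_univ_three] <;> ring
  refine ⟨⟨A, by simp [A, det_fin_three]; field_simp⟩, fun k hk => ?_⟩
  obtain ⟨e, he⟩ := hk
  change A ^ k = e • 1 at he
  rw [hpow] at he
  have h01 := congrFun (congrFun he 0) 1
  have h00 := congrFun (congrFun he 0) 0
  have h22 := congrFun (congrFun he 2) 2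
  simp [ha0] at h01 h00 h22
  rw [CharP.cast_eq_zero_iff F p] at h01
  have h3 : (a ^ 3) ^ k = 1 := by
    have h : a ^ k = ((a * a) ^ k)⁻¹ := by rw [h00, ← h22, ← mul_inv, inv_pow]
    have h' : a ^ k * (a * a) ^ k = 1 := by rw [h, inv_mul_cancel₀ (pow_ne_zero _ (mul_ne_zero ha0 ha0))]
    rw [← h', ← mul_pow]; ring_nf
  have hq : 0 < Fintype.card F - 1 := by have := Fintype.one_lt_card (α := F); omega
  have h4 : (Fintype.card F - 1) / Nat.gcd 3 (Fintype.card F - 1) ∣ k :=
    dvd_of_dvd_mul_gcd hq (ha ▸ orderOf_dvd_of_pow_eq_one (by rw [pow_mul]; exact h3))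
  rw [Nat.mul_div_assoc _ (Nat.gcd_dvd_right _ _)]
  refine Nat.Coprime.mul_dvd_of_dvd_of_dvd ?_ h01 h4
  refine Nat.Coprime.coprime_div_right ?_ (Nat.gcd_dvd_right _ _)
  obtain ⟨j, -, hj⟩ := FiniteField.card F p
  rw [(Fact.out : p.Prime).coprime_iff_not_dvd, hj]
  intro h
  have h1 : p ∣ p ^ (j : ℕ) := dvd_pow_self p j.ne_zero
  have h5 := Nat.dvd_sub h1 h
  rw [Nat.sub_sub_self (Nat.one_le_pow _ _ (Fact.out : p.Prime).pos)] at h5
  exact (Fact.out : p.Prime).ne_one (Nat.dvd_one.1 h5)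

theorem lower_four (p : ℕ) [Fact p.Prime] [CharP F p] (hp : p = 2) :
    ∃ g : SpecialLinearGroup (Fin 3) F, ∀ k : ℕ,
      (∃ e : F, (g : Matrix (Fin 3) (Fin 3) F) ^ k = e • 1) → 4 ∣ k := by
  subst hp
  set A : Matrix (Fin 3) (Fin 3) F := !![1, 1, 0; 0, 1, 1; 0, 0, 1] with hA
  have h2 : (2 : F) = 0 := CharP.cast_eq_zero F 2
  have h4 : A ^ 4 = 1 := by
    ext r s
    fin_cases r <;> fin_cases s <;>
      simp [hA, pow_succ, Matrix.mul_apply, Fin.sum_univ_three] <;> grind
  refine ⟨⟨A, by simp [hA, det_fin_three]⟩, fun k hk => ?_⟩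
  obtain ⟨e, he⟩ := hk
  change A ^ k = e • 1 at he
  rw [← Nat.div_add_mod k 4, pow_add, pow_mul, h4, one_pow, one_mul] at he
  have h01 := congrFun (congrFun he 0) 1
  have h02 := congrFun (congrFun he 0) 2
  have hlt := Nat.mod_lt k (by norm_num : 4 > 0)
  refine Nat.dvd_of_mod_eq_zero ?_
  interval_cases h : k % 4
  · rfl
  all_goals
    exfalso
    simp [hA, pow_succ, Matrix.mul_apply, Fin.sum_univ_three] at h01 h02
    all_goals grind

theorem lower_split (p : ℕ) [Fact p.Prime] [CharP F p] :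
    ∃ g : SpecialLinearGroup (Fin 3) F, ∀ k : ℕ,
      (∃ e : F, (g : Matrix (Fin 3) (Fin 3) F) ^ k = e • 1) →
      (Fintype.card F ^ 2 - 1) / Nat.gcd 3 (Fintype.card F - 1) ∣ k := by
  classical
  set q := Fintype.card F with hq
  have hq2 : 2 ≤ q := Fintype.one_lt_card
  let L := FiniteField.Extension F p 2
  haveI : Fintype L := Fintype.ofFinite L
  have hrank : Module.finrank F L = 2 := FiniteField.finrank_extension F p 2
  have hL : Fintype.card L = q ^ 2 := by
    rw [Fintype.card_eq_nat_card, FiniteField.natCard_extension, Nat.card_eq_fintype_card]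
  obtain ⟨l, hl0, hl⟩ := exists_orderOf_units (K := L) dvd_rfl
  rw [hL] at hl
  let B : Module.Basis (Fin 2) F L := Module.finBasisOfFinrankEq F L hrank
  set M := Algebra.leftMulMatrix B l with hM
  have hn : M.det = Algebra.norm F l := (Algebra.norm_eq_matrix_det B l).symm
  have hn0 : M.det ≠ 0 := by rw [hn]; exact Algebra.norm_ne_zero_iff.2 hl0
  let ext3 : Matrix (Fin 2) (Fin 2) F → F → Matrix (Fin 3) (Fin 3) F := fun A t =>
    !![A 0 0, A 0 1, 0; A 1 0, A 1 1, 0; 0, 0, t]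
  have hpow : ∀ j : ℕ, ext3 M (M.det)⁻¹ ^ j = ext3 (M ^ j) ((M.det)⁻¹ ^ j) := by
    intro j
    induction j with
    | zero => simp [ext3, Matrix.one_fin_three]
    | succ j ih =>
      rw [pow_succ, ih]
      ext r s
      fin_cases r <;> fin_cases s <;>
        simp [ext3, Matrix.mul_apply, Fin.sum_univ_three, Fin.sum_univ_two, pow_succ]
  refine ⟨⟨ext3 M (M.det)⁻¹, by
    simp [ext3, det_fin_three]; rw [det_fin_two] at hn0 ⊢; field_simp⟩, fun k hk => ?_⟩
  obtain ⟨e, he⟩ := hk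
  change ext3 M (M.det)⁻¹ ^ k = e • 1 at he
  rw [hpow] at he
  have hMk : M ^ k = e • 1 := by
    ext r s
    have := congrFun (congrFun he r.castSucc) s.castSucc
    fin_cases r <;> fin_cases s <;> simpa [ext3] using this
  have htk : ((M.det)⁻¹) ^ k = e := by
    have := congrFun (congrFun he 2) 2
    simpa [ext3] using this
  rw [hM, ← map_pow, ← Algebra.algebraMap_eq_smul_one, ← (Algebra.leftMulMatrix B).commutes e] at hMk
  have hlk : l ^ k = algebraMap F L e := Algebra.leftMulMatrix_injective B hMk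
  have hA : q ^ 2 - 1 ∣ (q - 1) * k := by
    rw [← hl]
    refine orderOf_dvd_of_pow_eq_one (mul_right_cancel₀ (pow_ne_zero k hl0) ?_)
    rw [one_mul, mul_comm (q - 1), pow_mul, ← pow_succ, Nat.sub_add_cancel (by omega), hlk, ← map_pow, hq,
      FiniteField.pow_card]
  have hN : algebraMap F L M.det = l ^ (q + 1) := by
    rw [hn, FiniteField.algebraMap_norm_eq_pow_sum, hrank, Nat.card_eq_fintype_card]
    simp [Finset.sum_range_succ, add_comm, ← hq]
  have hB : q ^ 2 - 1 ∣ (q + 2) * k := by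
    rw [← hl]
    refine orderOf_dvd_of_pow_eq_one ?_
    rw [show q + 2 = q + 1 + 1 from rfl, pow_mul, pow_succ, mul_pow, ← hN, hlk, ← htk, ← map_pow, ← map_mul,
      inv_pow, mul_inv_cancel₀ (pow_ne_zero _ hn0), map_one]
  have hg := Nat.dvd_gcd hA hB
  rw [Nat.gcd_mul_right] at hg
  have hgd : Nat.gcd (q - 1) (q + 2) = Nat.gcd 3 (q - 1) := by
    rw [show q + 2 = 3 + (q - 1) by omega]
    simp [Nat.gcd_comm]
  rw [hgd] at hg
  refine (Nat.div_dvd_iff_dvd_mul ?_ (Nat.gcd_pos_of_pos_left _ three_pos)).2 hg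
  have h := Nat.sq_sub_sq q 1
  rw [one_pow] at h
  rw [h]; exact dvd_mul_of_dvd_right (Nat.gcd_dvd_right _ _) _

theorem lower_singer (p : ℕ) [Fact p.Prime] [CharP F p] :
    ∃ g : SpecialLinearGroup (Fin 3) F, ∀ k : ℕ,
      (∃ e : F, (g : Matrix (Fin 3) (Fin 3) F) ^ k = e • 1) →
      (Fintype.card F ^ 2 + Fintype.card F + 1) / Nat.gcd 3 (Fintype.card F - 1) ∣ k := by
  classical
  set q := Fintype.card F with hq
  have hq2 : 2 ≤ q := Fintype.one_lt_card
  let L := FiniteField.Extension F p 3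
  haveI : Fintype L := Fintype.ofFinite L
  have hrank : Module.finrank F L = 3 := FiniteField.finrank_extension F p 3
  have hL : Fintype.card L = q ^ 3 := by
    rw [Fintype.card_eq_nat_card, FiniteField.natCard_extension, Nat.card_eq_fintype_card]
  set n := q ^ 2 + q + 1 with hn
  obtain ⟨t, ht⟩ : ∃ t, q = t + 1 := ⟨q - 1, by omega⟩
  have hndvd : n ∣ Fintype.card L - 1 := by
    refine ⟨q - 1, ?_⟩
    rw [hL]
    simp only [hn, ht, Nat.add_sub_cancel]
    rw [Nat.sub_eq_iff_eq_add (Nat.one_le_pow _ _ (by omega))]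
    ring
  obtain ⟨l, hl0, hl⟩ := exists_orderOf_units hndvd
  have hl1 : l ^ n = 1 := by rw [← hl, pow_orderOf_eq_one]
  let B : Module.Basis (Fin 3) F L := Module.finBasisOfFinrankEq F L hrank
  set M := Algebra.leftMulMatrix B l with hM
  have hMdet : M.det = 1 := by
    rw [hM, ← Algebra.norm_eq_matrix_det]
    refine (algebraMap F L).injective ?_
    rw [FiniteField.algebraMap_norm_eq_pow_sum, hrank, Nat.card_eq_fintype_card, map_one]
    simp [Finset.sum_range_succ, ← hq]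
    rw [show 1 + q + q ^ 2 = n by rw [hn]; ring, hl1]
  refine ⟨⟨M, hMdet⟩, fun k hk => ?_⟩
  obtain ⟨e, he⟩ := hk
  change M ^ k = e • 1 at he
  rw [hM, ← map_pow, ← Algebra.algebraMap_eq_smul_one, ← (Algebra.leftMulMatrix B).commutes e] at he
  have hlk := Algebra.leftMulMatrix_injective B he
  have hdvd : n ∣ (q - 1) * k := by
    rw [← hl]
    refine orderOf_dvd_of_pow_eq_one (mul_right_cancel₀ (pow_ne_zero k hl0) ?_)
    rw [one_mul, mul_comm (q - 1), pow_mul, ← pow_succ, Nat.sub_add_cancel (by omega), hlk, ← map_pow, hq,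
      FiniteField.pow_card]
  have e3 : n = (q - 1) * (q + 2) + 3 := by rw [hn, ht, Nat.add_sub_cancel]; ring
  refine dvd_trans (Nat.div_dvd_div_left ?_ ?_) (dvd_of_dvd_mul_gcd (by omega) hdvd)
  · rw [e3]; exact dvd_add (dvd_mul_of_dvd_left (Nat.gcd_dvd_right _ _) _) (Nat.gcd_dvd_left _ _)
  · refine Nat.dvd_gcd ?_ (Nat.gcd_dvd_left _ _)
    exact (Nat.dvd_add_right (dvd_mul_of_dvd_left (Nat.gcd_dvd_left _ _) (q + 2))).1
      (e3 ▸ Nat.gcd_dvd_right (q - 1) n)

end Cfsg.Agent.Lib.Classical.SLThree
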