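import Cfsg.Agent.Lib.Classical.SUThreeInv

/-!
The graph of commuting involutions of three-dimensional special unitary groups in odd characteristic.
-/

set_option autoImplicit false

namespace Cfsg.Agent.Lib.Classical.SUThree

open Matrix Cfsg.Agent.Lib.Classical.Herm

variable {F : Type*} [Field F] [Fintype F] {q : ℕ} (hF : Fintype.card F = q ^ 2) (hq : Odd q)
include hF hq

local notation "H" => Cfsg.hermForm 3 F q

theorem sq_sub_add_one (q : ℕ) : (q + 1) * (q ^ 2 - q + 1) = q ^ 3 + 1 := by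
  have : q ≤ q ^ 2 := Nat.le_self_pow two_ne_zero q
  zify [this]
  ring

theorem card_all : Nat.card {x : ↥(Cfsg.SU 3 F q) // x ≠ 1 ∧ x * x = 1} = q ^ 2 * (q ^ 2 - q + 1) := by
  refine Nat.eq_of_mul_eq_mul_right (Nat.succ_pos q) ((card_involutions hF hq).trans ?_)
  rw [← sq_sub_add_one hF hq q, Nat.succ_eq_add_one]
  ring

theorem conj_all {t x : ↥(Cfsg.SU 3 F q)} (ht : t ≠ 1) (ht2 : t * t = 1) (hx : x ≠ 1) (hx2 : x * x = 1) :
    ∃ g : ↥(Cfsg.SU 3 F q), g * t * g⁻¹ = x := by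
  obtain ⟨u, rfl⟩ := exists_inv hF hq ht ht2
  obtain ⟨v, rfl⟩ := exists_inv hF hq hx hx2
  obtain ⟨g, hg⟩ := exists_act hF u
  obtain ⟨k, hk⟩ := exists_act hF v
  refine ⟨k⁻¹ * g, ?_⟩
  have e1 := conj_inv hF g u
  have e2 := conj_inv hF k v
  rw [show act g u = act k v from Subtype.ext (hg.trans hk.symm), ← e2] at e1
  calc k⁻¹ * g * involu hF u * (k⁻¹ * g)⁻¹ = k⁻¹ * (g * involu hF u * g⁻¹) * k := by group
    _ = _ := by rw [e1]; group

theorem card_centralizer {t : ↥(Cfsg.SU 3 F q)} (ht : t ≠ 1) (ht2 : t * t = 1) :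
    Nat.card ↥(Subgroup.centralizer ({t} : Set ↥(Cfsg.SU 3 F q))) = q * (q + 1) * (q ^ 2 - 1) := by
  choose c hc using fun x : {x : ↥(Cfsg.SU 3 F q) // x ≠ 1 ∧ x * x = 1} => conj_all hF hq ht ht2 x.2.1 x.2.2
  have hb : Function.Bijective (fun p : {x : ↥(Cfsg.SU 3 F q) // x ≠ 1 ∧ x * x = 1} ×
      ↥(Subgroup.centralizer ({t} : Set ↥(Cfsg.SU 3 F q))) => c p.1 * (p.2 : ↥(Cfsg.SU 3 F q))) := by
    refine ⟨?_, fun g => ?_⟩
    · rintro ⟨x, a⟩ ⟨y, b⟩ h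
      simp only at h
      have ha := Subgroup.mem_centralizer_singleton_iff.1 a.2
      have hb := Subgroup.mem_centralizer_singleton_iff.1 b.2
      have e : ∀ (z : {x : ↥(Cfsg.SU 3 F q) // x ≠ 1 ∧ x * x = 1}) (k : ↥(Cfsg.SU 3 F q)), k * t = t * k →
          c z * k * t * (c z * k)⁻¹ = z := fun z k hk => by
        calc c z * k * t * (c z * k)⁻¹ = c z * (k * t) * k⁻¹ * (c z)⁻¹ := by group
          _ = _ := by rw [hk]; simpa [mul_assoc] using hc z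
      have hxy : x = y := Subtype.ext (by rw [← e x a ha, h, e y b hb])
      subst hxy
      exact Prod.ext rfl (Subtype.ext (mul_left_cancel h))
    · let x : {x : ↥(Cfsg.SU 3 F q) // x ≠ 1 ∧ x * x = 1} :=
        ⟨g * t * g⁻¹, fun h => ht (conj_eq_one_iff.1 h), by
          rw [show g * t * g⁻¹ * (g * t * g⁻¹) = g * (t * t) * g⁻¹ by group, ht2, mul_one, mul_inv_cancel]⟩
      refine ⟨⟨x, ⟨(c x)⁻¹ * g, Subgroup.mem_centralizer_singleton_iff.2 ?_⟩⟩, mul_inv_cancel_left _ _⟩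
      have := hc x
      rw [mul_inv_eq_iff_eq_mul] at this
      calc (c x)⁻¹ * g * t = (c x)⁻¹ * ((x : ↥(Cfsg.SU 3 F q)) * g) := by
            rw [show (x : ↥(Cfsg.SU 3 F q)) = g * t * g⁻¹ from rfl]; group
        _ = t * ((c x)⁻¹ * g) := by
            rw [show t = (c x)⁻¹ * ((x : ↥(Cfsg.SU 3 F q)) * c x) by rw [← this, inv_mul_cancel_left]]
            group
  have h := Nat.card_eq_of_bijective _ hb
  rw [Nat.card_prod, card_all hF hq] at h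
  have hg := card_SU hF (n := 3) (by norm_num)
  rw [card_GU hF, ← h] at hg
  have hprod : ∏ i ∈ Finset.range 3, (if Even i then q ^ (i + 1) + 1 else q ^ (i + 1) - 1) =
      (q + 1) * (q ^ 2 - 1) * (q ^ 3 + 1) := by
    simp [Finset.prod_range_succ]
  rw [hprod, show 3 * (3 - 1) / 2 = 3 from rfl] at hg
  have hpos : 0 < (q + 1) * (q ^ 2 * (q ^ 2 - q + 1)) := by
    have := two_le_q hF
    positivity
  refine Nat.eq_of_mul_eq_mul_left hpos ?_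
  rw [mul_assoc, hg, ← sq_sub_add_one hF hq q]
  ring

theorem commute_set (u : U F q) (x : ↥(Cfsg.SU 3 F q)) :
    (x ≠ 1 ∧ x * x = 1 ∧ x ≠ involu hF u ∧ Commute (involu hF u) x) ↔
      ∃ v, involu hF v = x ∧ H v u = 0 := by
  constructor
  · rintro ⟨h1, h2, h3, h4⟩
    obtain ⟨v, rfl⟩ := exists_inv hF hq h1 h2
    exact ⟨v, rfl, ((commute_iff hF hq u v).1 h4).resolve_right (Ne.symm h3)⟩
  · rintro ⟨v, rfl, h⟩
    refine ⟨inv_ne_one hF hq v, inv_sq hF v, fun e => ?_, (commute_iff hF hq u v).2 (Or.inl h)⟩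
    obtain ⟨z, hz, hv⟩ := (inv_eq_iff hF hq u v).1 e.symm
    rw [hv, herm_smul_left, u.2, mul_one] at h
    simp [h] at hz

theorem far_set (u : U F q) (x : ↥(Cfsg.SU 3 F q)) :
    (x ≠ 1 ∧ x * x = 1 ∧ ¬ Commute (involu hF u) x ∧ ∀ y : ↥(Cfsg.SU 3 F q), y ≠ 1 → y * y = 1 →
      ¬ (Commute (involu hF u) y ∧ Commute y x)) ↔
      ∃ v, involu hF v = x ∧ (H v u ^ (q + 1) = 1 ∧ involu hF u ≠ involu hF v) := by
  constructor
  · rintro ⟨h1, h2, h3, h4⟩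
    obtain ⟨v, rfl⟩ := exists_inv hF hq h1 h2
    refine ⟨v, rfl, by_contra fun hN => ?_, fun e => h3 (e ▸ Commute.refl _)⟩
    obtain ⟨w, hwu, hwv⟩ := exists_third hF u v hN
    exact h4 _ (inv_ne_one hF hq w) (inv_sq hF w) ⟨(commute_iff hF hq u w).2 (Or.inl hwu),
      (commute_iff hF hq w v).2 (Or.inl (by rw [← hermForm_conj hF, hwv, conj_zero hF]))⟩
  · rintro ⟨v, rfl, hN, hne⟩
    have hnc : ¬ Commute (involu hF u) (involu hF v) := fun h => by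
      rcases (commute_iff hF hq u v).1 h with h | h
      · rw [h] at hN; simp at hN
      · exact hne h
    refine ⟨inv_ne_one hF hq v, inv_sq hF v, hnc, fun y hy hy2 ⟨hy3, hy4⟩ => ?_⟩
    obtain ⟨w, rfl⟩ := exists_inv hF hq hy hy2
    rcases (commute_iff hF hq u w).1 hy3 with hwu | e
    · rcases (commute_iff hF hq w v).1 hy4 with hvw | e
      · exact hne (no_third hF hq u v w hN hwu (by rw [← hermForm_conj hF, hvw, conj_zero hF]))
      · exact hnc (e ▸ hy3)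
    · exact hnc (e.symm ▸ hy4)

theorem card_commute {t : ↥(Cfsg.SU 3 F q)} (ht : t ≠ 1) (ht2 : t * t = 1) :
    Nat.card {x : ↥(Cfsg.SU 3 F q) // x ≠ 1 ∧ x * x = 1 ∧ x ≠ t ∧ Commute t x} = q * (q - 1) := by
  obtain ⟨u, rfl⟩ := exists_inv hF hq ht ht2
  rw [Nat.card_congr (Equiv.subtypeEquivRight (commute_set hF hq u))]
  refine Nat.eq_of_mul_eq_mul_right (Nat.succ_pos q) ((card_commuting hF hq u).trans ?_)
  rw [mul_assoc, show q.succ = q + 1 from rfl, mul_comm (q - 1) (q + 1), ← Nat.sq_sub_sq, one_pow]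

theorem card_no_third {t : ↥(Cfsg.SU 3 F q)} (ht : t ≠ 1) (ht2 : t * t = 1) :
    Nat.card {x : ↥(Cfsg.SU 3 F q) // x ≠ 1 ∧ x * x = 1 ∧ ¬ Commute t x ∧
      ∀ y : ↥(Cfsg.SU 3 F q), y ≠ 1 → y * y = 1 → ¬ (Commute t y ∧ Commute y x)} =
      (q + 1) * (q ^ 2 - 1) := by
  obtain ⟨u, rfl⟩ := exists_inv hF hq ht ht2
  rw [Nat.card_congr (Equiv.subtypeEquivRight (far_set hF hq u))]
  exact card_far hF hq u

theorem card_middle {t : ↥(Cfsg.SU 3 F q)} (ht : t ≠ 1) (ht2 : t * t = 1) :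
    Nat.card {x : ↥(Cfsg.SU 3 F q) // x ≠ 1 ∧ x * x = 1 ∧ ¬ Commute t x ∧
        ∃ y : ↥(Cfsg.SU 3 F q), y ≠ 1 ∧ y * y = 1 ∧ Commute t y ∧ Commute y x} = q * (q - 2) * (q ^ 2 - 1) := by
  classical
  let G := ↥(Cfsg.SU 3 F q)
  haveI : Fintype G := Fintype.ofFinite _
  have hsplit : ∀ (p r : G → Prop), Nat.card {x // p x} = Nat.card {x // p x ∧ r x} + Nat.card {x // p x ∧ ¬ r x} := by
    intro p r
    simp only [Nat.card_eq_fintype_card, Fintype.card_subtype]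
    rw [← Finset.filter_filter, ← Finset.filter_filter,
      Finset.card_filter_add_card_filter_not]
  have h0 := card_all hF hq
  have h1 := card_commute hF hq ht ht2
  have h2 := card_no_third hF hq ht ht2
  rw [hsplit _ (fun x => x = t)] at h0
  rw [hsplit (fun x => (x ≠ 1 ∧ x * x = 1) ∧ ¬ x = t) (fun x => Commute t x)] at h0
  rw [hsplit (fun x => ((x ≠ 1 ∧ x * x = 1) ∧ ¬ x = t) ∧ ¬ Commute t x)
    (fun x => ∃ y : G, y ≠ 1 ∧ y * y = 1 ∧ Commute t y ∧ Commute y x)] at h0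
  have eT : Nat.card {x : G // (x ≠ 1 ∧ x * x = 1) ∧ x = t} = 1 :=
    Nat.card_eq_one_iff_exists.2 ⟨⟨t, ⟨ht, ht2⟩, rfl⟩, fun x => Subtype.ext x.2.2⟩
  have eA : Nat.card {x : G // ((x ≠ 1 ∧ x * x = 1) ∧ ¬ x = t) ∧ Commute t x} = q * (q - 1) := by
    rw [← h1]
    exact Nat.card_congr (Equiv.subtypeEquivRight fun x => by simp only [and_assoc, ne_eq])
  have hne : ∀ x : G, ¬ Commute t x → x ≠ t := fun x hx e => hx (e ▸ Commute.refl _)
  have eB : Nat.card {x : G // (((x ≠ 1 ∧ x * x = 1) ∧ ¬ x = t) ∧ ¬ Commute t x) ∧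
        ∃ y : G, y ≠ 1 ∧ y * y = 1 ∧ Commute t y ∧ Commute y x} =
      Nat.card {x : G // x ≠ 1 ∧ x * x = 1 ∧ ¬ Commute t x ∧
        ∃ y : G, y ≠ 1 ∧ y * y = 1 ∧ Commute t y ∧ Commute y x} :=
    Nat.card_congr (Equiv.subtypeEquivRight fun x => ⟨fun ⟨⟨⟨⟨a, b⟩, _⟩, c⟩, d⟩ => ⟨a, b, c, d⟩,
      fun ⟨a, b, c, d⟩ => ⟨⟨⟨⟨a, b⟩, hne x c⟩, c⟩, d⟩⟩)
  have eC : Nat.card {x : G // (((x ≠ 1 ∧ x * x = 1) ∧ ¬ x = t) ∧ ¬ Commute t x) ∧
        ¬ ∃ y : G, y ≠ 1 ∧ y * y = 1 ∧ Commute t y ∧ Commute y x} = (q + 1) * (q ^ 2 - 1) := by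
    rw [← h2]
    exact Nat.card_congr (Equiv.subtypeEquivRight fun x =>
      ⟨fun ⟨⟨⟨⟨a, b⟩, _⟩, c⟩, d⟩ => ⟨a, b, c, fun y h1 h2 h => d ⟨y, h1, h2, h⟩⟩,
      fun ⟨a, b, c, d⟩ => ⟨⟨⟨⟨a, b⟩, hne x c⟩, c⟩, fun ⟨y, h1, h2, h⟩ => d y h1 h2 h⟩⟩)
  rw [eT, eA, eB, eC] at h0
  have hq2 := two_le_q hF
  have l1 : q ≤ q ^ 2 := Nat.le_self_pow two_ne_zero q
  have l2 : 1 ≤ q ^ 2 := Nat.one_le_pow _ _ (by omega)
  have l3 : 1 ≤ q := by omega
  zify [l1, l2, l3, hq2] at h0 ⊢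
  linear_combination h0

theorem diameter_three {t x : ↥(Cfsg.SU 3 F q)} (ht : t ≠ 1) (ht2 : t * t = 1) (hx : x ≠ 1) (hx2 : x * x = 1) :
    ∃ y z : ↥(Cfsg.SU 3 F q), y ≠ 1 ∧ y * y = 1 ∧ z ≠ 1 ∧ z * z = 1 ∧
      Commute t y ∧ Commute y z ∧ Commute z x := by
  by_cases hc : Commute t x
  · exact ⟨t, t, ht, ht2, ht, ht2, Commute.refl _, Commute.refl _, hc⟩
  obtain ⟨u, rfl⟩ := exists_inv hF hq ht ht2
  obtain ⟨v, rfl⟩ := exists_inv hF hq hx hx2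
  by_cases hN : H v u ^ (q + 1) = 1
  · obtain ⟨z, hzv, hzu⟩ := exists_step hF hq u v hN
    have hzx : Commute (involu hF z) (involu hF v) :=
      (commute_iff hF hq z v).2 (Or.inl (by rw [← hermForm_conj hF, hzv, conj_zero hF]))
    obtain ⟨w, hwu, hwz⟩ := exists_third hF u z hzu
    exact ⟨_, _, inv_ne_one hF hq w, inv_sq hF w, inv_ne_one hF hq z, inv_sq hF z,
      (commute_iff hF hq u w).2 (Or.inl hwu),
      (commute_iff hF hq w z).2 (Or.inl (by rw [← hermForm_conj hF, hwz, conj_zero hF])), hzx⟩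
  · obtain ⟨w, hwu, hwv⟩ := exists_third hF u v hN
    exact ⟨_, _, inv_ne_one hF hq w, inv_sq hF w, inv_ne_one hF hq w, inv_sq hF w,
      (commute_iff hF hq u w).2 (Or.inl hwu), Commute.refl _,
      (commute_iff hF hq w v).2 (Or.inl (by rw [← hermForm_conj hF, hwv, conj_zero hF]))⟩

theorem unique_third {t x : ↥(Cfsg.SU 3 F q)} (ht : t ≠ 1) (ht2 : t * t = 1) (hx : x ≠ 1) (hx2 : x * x = 1)
    (hne : x ≠ t) (hc : Commute t x) :
    Nat.card {y : ↥(Cfsg.SU 3 F q) // y ≠ 1 ∧ y * y = 1 ∧ y ≠ t ∧ y ≠ x ∧ Commute t y ∧ Commute x y} = 1 := by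
  obtain ⟨u, rfl⟩ := exists_inv hF hq ht ht2
  obtain ⟨v, rfl⟩ := exists_inv hF hq hx hx2
  have hvu : H v u = 0 := ((commute_iff hF hq u v).1 hc).resolve_right (Ne.symm hne)
  have huv : H u v = 0 := by rw [← hermForm_conj hF, hvu, conj_zero hF]
  obtain ⟨w, hwu, hwv⟩ := exists_third hF u v (by rw [hvu, zero_pow (Nat.succ_ne_zero q)]; exact zero_ne_one)
  have hw : ∀ a : U F q, H w a = 0 → involu hF w ≠ involu hF a := fun a ha e =>
    ((commute_set hF hq a (involu hF w)).2 ⟨w, rfl, ha⟩).2.2.1 e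
  refine Nat.card_eq_one_iff_exists.2 ⟨⟨involu hF w, inv_ne_one hF hq w, inv_sq hF w, hw u hwu, hw v hwv,
    (commute_iff hF hq u w).2 (Or.inl hwu), (commute_iff hF hq v w).2 (Or.inl hwv)⟩, ?_⟩
  rintro ⟨y, hy1, hy2, hyt, hyx, hcy, hcy'⟩
  refine Subtype.ext ?_
  obtain ⟨w', rfl⟩ := exists_inv hF hq hy1 hy2
  have h1 : H w' u = 0 := ((commute_iff hF hq u w').1 hcy).resolve_right (Ne.symm hyt)
  have h2 : H w' v = 0 := ((commute_iff hF hq v w').1 hcy').resolve_right (Ne.symm hyx)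
  have huw : H u w = 0 := by rw [← hermForm_conj hF, hwu, conj_zero hF]
  have hvw : H v w = 0 := by rw [← hermForm_conj hF, hwv, conj_zero hF]
  have he := expand hF u v w huv huw hvw w'
  rw [h1, h2, zero_smul, zero_smul, zero_add, zero_add] at he
  refine ((inv_eq_iff hF hq w w').2 ⟨_, ?_, he⟩).symm
  have hn := w'.2
  rwa [he, norm_smul hF, w.2, mul_one] at hn

end Cfsg.Agent.Lib.Classical.SUThree
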