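import Cfsg.Agent.Lib.Classical.SUThreeInv
import Mathlib.LinearAlgebra.Matrix.Charpoly.Eigs
import Mathlib.FieldTheory.IsAlgClosed.AlgebraicClosure
import Mathlib.FieldTheory.Separable
import Mathlib.RingTheory.Polynomial.Cyclotomic.Basic

/-!
Powers of elements of three-dimensional special unitary groups that are scalar.
-/

set_option autoImplicit false

namespace Cfsg.Agent.Lib.Classical.SUThree

open Matrix Polynomial Cfsg.Agent.Lib.Classical.Herm Cfsg.Agent.Lib.UnitaryConj

variable {F : Type*} [Field F] [Fintype F] {q : ℕ}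

local notation "H" => Cfsg.hermForm 3 F q

omit [Fintype F] in
/-- A commutant of a regular nilpotent. -/
theorem eq_poly_of_regular {M N : Matrix (Fin 3) (Fin 3) F} (hN : N ^ 3 = 0) (hN2 : N ^ 2 ≠ 0)
    (hc : Commute M N) : ∃ a b c : F, M = a • 1 + (b • N + c • N ^ 2) := by
  obtain ⟨v, hv⟩ : ∃ v, N ^ 2 *ᵥ v ≠ 0 := by
    by_contra h
    push Not at h
    exact hN2 (Matrix.ext_iff_mulVec.2 fun v => by rw [h v, zero_mulVec])
  set f : Fin 3 → (Fin 3 → F) := fun i => N ^ (i : ℕ) *ᵥ v with hf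
  have hind : LinearIndependent F f := by
    rw [Fintype.linearIndependent_iff]
    intro g hg
    simp only [hf, Fin.sum_univ_three, Fin.val_zero, Fin.val_one, Fin.val_two, pow_zero, one_mulVec,
      pow_one] at hg
    have k1 := congrArg (fun x => N ^ 2 *ᵥ x) hg
    have h3 : N ^ 2 *ᵥ (N *ᵥ v) = 0 := by rw [mulVec_mulVec, ← pow_succ, hN, zero_mulVec]
    have h4 : N ^ 2 *ᵥ (N ^ 2 *ᵥ v) = 0 := by
      rw [mulVec_mulVec, ← pow_add, show 2 + 2 = 3 + 1 from rfl, pow_add, hN, zero_mul, zero_mulVec]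
    simp only [mulVec_add, mulVec_smul, h3, h4, smul_zero, add_zero, mulVec_zero, smul_eq_zero] at k1
    have g0 := k1.resolve_right hv
    have k2 := congrArg (fun x => N *ᵥ x) hg
    have h5 : N *ᵥ (N ^ 2 *ᵥ v) = 0 := by rw [mulVec_mulVec, ← pow_succ', hN, zero_mulVec]
    have h6 : N *ᵥ (N *ᵥ v) = N ^ 2 *ᵥ v := by rw [mulVec_mulVec, ← pow_two]
    simp only [g0, zero_smul, zero_add, mulVec_add, mulVec_smul, h5, h6, smul_zero, add_zero, mulVec_zero,
      smul_eq_zero] at k2
    have g1 := k2.resolve_right hv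
    simp only [g0, g1, zero_smul, zero_add, smul_eq_zero] at hg
    have g2 := hg.resolve_right hv
    intro i
    fin_cases i
    exacts [g0, g1, g2]
  have hsp := hind.span_eq_top_of_card_eq_finrank (by simp)
  obtain ⟨g, hg⟩ := (Submodule.mem_span_range_iff_exists_fun F).1
    (show M *ᵥ v ∈ Submodule.span F (Set.range f) from hsp ▸ Submodule.mem_top)
  simp only [hf, Fin.sum_univ_three, Fin.val_zero, Fin.val_one, Fin.val_two, pow_zero, one_mulVec,
    pow_one] at hg
  refine ⟨g 0, g 1, g 2, ?_⟩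
  set P := g 0 • (1 : Matrix (Fin 3) (Fin 3) F) + (g 1 • N + g 2 • N ^ 2) with hP
  have hPc : Commute P N :=
    ((Commute.one_left N).smul_left _).add_left
      (((Commute.refl N).smul_left _).add_left (((Commute.refl N).pow_left 2).smul_left _))
  have hv' : M *ᵥ v = P *ᵥ v := by
    rw [← hg, hP]
    simp only [add_mulVec, smul_mulVec, one_mulVec]
    abel
  refine Matrix.ext_iff_mulVec.2 fun x => ?_
  obtain ⟨c, rfl⟩ := (Submodule.mem_span_range_iff_exists_fun F).1
    (show x ∈ Submodule.span F (Set.range f) from hsp ▸ Submodule.mem_top)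
  simp only [mulVec_sum, mulVec_smul, hf, mulVec_mulVec]
  refine Finset.sum_congr rfl fun i _ => ?_
  rw [(hc.pow_right _).eq, (hPc.pow_right _).eq, ← mulVec_mulVec, ← mulVec_mulVec, hv']

omit [Fintype F] in
theorem pow_char_scalar (p : ℕ) [Fact p.Prime] [CharP F p] (hp : 3 ≤ p) (a : F)
    {X : Matrix (Fin 3) (Fin 3) F} (hX : X ^ 3 = 0) : (a • 1 + X) ^ p = a ^ p • 1 := by
  haveI : CharP (Matrix (Fin 3) (Fin 3) F) p := inferInstance
  rw [add_pow_char_of_commute _ ((Commute.one_left X).smul_left a), _root_.smul_pow, one_pow,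
    show p = 3 + (p - 3) by omega, pow_add X, hX, zero_mul, add_zero]

omit [Fintype F] in
theorem regular_case (p : ℕ) [Fact p.Prime] [CharP F p] (hp : 3 ≤ p) {M N : Matrix (Fin 3) (Fin 3) F}
    (hN : N ^ 3 = 0) (hN2 : N ^ 2 ≠ 0) (hc : Commute M N) : ∃ e : F, M ^ p = e • 1 := by
  obtain ⟨a, b, c, rfl⟩ := eq_poly_of_regular hN hN2 hc
  refine ⟨_, pow_char_scalar p hp a ?_⟩
  have e : b • N + c • N ^ 2 = N * (b • 1 + c • N) := by
    rw [mul_add, mul_smul_comm, mul_smul_comm, mul_one, pow_two]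
  rw [e, Commute.mul_pow, hN, zero_mul]
  exact (((Commute.one_left N).smul_left _).add_left ((Commute.refl N).smul_left _)).symm

variable (hF : Fintype.card F = q ^ 2)
include hF

theorem transvection_case (p : ℕ) [Fact p.Prime] [CharP F p] (hp : 3 ≤ p) {M N : Matrix (Fin 3) (Fin 3) F}
    (hMh : ∀ x y, H (M *ᵥ x) (M *ᵥ y) = H x y) (hdet : M.det = 1)
    (hNh : ∀ x y, H (N *ᵥ x) y = -H x (N *ᵥ y)) (hN0 : N ≠ 0) (hN2 : N ^ 2 = 0) (hc : Commute M N) :
    ∃ e : F, M ^ (p * ((q + 1) / Nat.gcd 3 (q + 1))) = e • 1 := by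
  classical
  obtain ⟨v, hv⟩ : ∃ v, N *ᵥ v ≠ 0 := by
    by_contra h
    push Not at h
    exact hN0 (Matrix.ext_iff_mulVec.2 fun v => by rw [h v, zero_mulVec])
  set w := N *ᵥ v with hw
  have hNN : ∀ x, N *ᵥ (N *ᵥ x) = 0 := fun x => by rw [mulVec_mulVec, ← pow_two, hN2, zero_mulVec]
  set K := LinearMap.ker N.mulVecLin
  set R := LinearMap.range N.mulVecLin
  have hdim : Module.finrank F R + Module.finrank F K = 3 := by
    rw [LinearMap.finrank_range_add_finrank_ker]; simp
  have hle : R ≤ K := by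
    rintro _ ⟨x, rfl⟩
    exact hNN x
  have hR1 : Module.finrank F R = 1 := by
    have := Submodule.finrank_mono hle
    have h0 : R ≠ ⊥ := fun h => hv (by
      have : w ∈ R := ⟨v, rfl⟩
      rwa [h, Submodule.mem_bot] at this)
    have : Module.finrank F R ≠ 0 := by rwa [ne_eq, Submodule.finrank_eq_zero]
    omega
  have hrank : ∀ x, ∃ t : F, N *ᵥ x = t • w := fun x => by
    obtain ⟨t, ht⟩ := exists_smul_eq_of_finrank_eq_one hR1 (x := (⟨w, v, rfl⟩ : R))
      (fun h => hv (congrArg Subtype.val h)) ⟨N *ᵥ x, x, rfl⟩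
    exact ⟨t, (congrArg Subtype.val ht).symm⟩
  obtain ⟨a, ha⟩ := hrank (M *ᵥ v)
  have hMw : M *ᵥ w = a • w := by rw [← ha, hw, mulVec_mulVec, hc.eq, ← mulVec_mulVec]
  obtain ⟨x, hx⟩ : ∃ x, H x w ≠ 0 := by
    by_contra h
    push Not at h
    refine hv (funext fun i => ?_)
    have := h (Pi.single i 1)
    rw [← hermForm_conj hF, herm_single_right hF] at this
    exact (pow_eq_zero_iff (by have := two_le_q hF; omega)).1 this
  have hMN : ∀ y, N *ᵥ (M *ᵥ y) = a • (N *ᵥ y) := fun y => by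
    obtain ⟨t, ht⟩ := hrank y
    rw [mulVec_mulVec, ← hc.eq, ← mulVec_mulVec, ht, mulVec_smul, hMw, smul_comm]
  have hMHw : H (M *ᵥ x) w = a * H x w := by
    have h1 : H (N *ᵥ (M *ᵥ x)) v = -H (M *ᵥ x) w := hNh _ _
    have h2 : H (N *ᵥ x) v = -H x w := hNh _ _
    rw [hMN, herm_smul_left, h2] at h1
    linear_combination h1
  have ha1 : a ^ (q + 1) = 1 := by
    have := hMh x w
    rw [hMw, herm_smul_right, hMHw, ← mul_assoc, ← pow_succ] at this
    exact mul_right_cancel₀ hx (this.trans (one_mul _).symm)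
  -- a flag
  have hNx : N *ᵥ x ≠ 0 := fun h => hx (by
    have h2 : H (N *ᵥ x) v = -H x w := hNh _ _
    rw [h] at h2
    simp [Cfsg.hermForm] at h2 ⊢
    exact h2)
  have hK2 : Module.finrank F K = 2 := by omega
  obtain ⟨y, hyK, hyw⟩ : ∃ y ∈ K, y ∉ Submodule.span F {w} := by
    refine SetLike.not_le_iff_exists.1 fun h => ?_
    have := Submodule.finrank_mono h
    rw [hK2, finrank_span_singleton hv] at this
    omega
  have hy0 : N *ᵥ y = 0 := hyK
  have hind : LinearIndependent F ![x, y, w] := by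
    rw [Fintype.linearIndependent_iff]
    intro g hg
    simp [Fin.sum_univ_three] at hg
    have g0 : g 0 = 0 := by
      have := congrArg (fun z => N *ᵥ z) hg
      simp [mulVec_add, mulVec_smul, hy0, hw, hNN] at this
      exact this.resolve_right hNx
    rw [g0, zero_smul, zero_add] at hg
    have g1 : g 1 = 0 := by
      by_contra h
      refine hyw (Submodule.mem_span_singleton.2 ⟨-((g 1)⁻¹ * g 2), ?_⟩)
      have h2 := congrArg (fun z => (g 1)⁻¹ • z) hg
      simp only [smul_add, smul_smul, inv_mul_cancel₀ h, one_smul, smul_zero] at h2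
      rw [neg_smul]
      exact (eq_neg_of_add_eq_zero_left h2).symm
    rw [g1, zero_smul, zero_add, smul_eq_zero] at hg
    intro i
    fin_cases i
    exacts [g0, g1, hg.resolve_right hv]
  have hsp := hind.span_eq_top_of_card_eq_finrank (by simp)
  have hdec : ∀ z : Fin 3 → F, ∃ r s t : F, z = r • x + s • y + t • w := fun z => by
    obtain ⟨g, hg⟩ := (Submodule.mem_span_range_iff_exists_fun F).1
      (show z ∈ Submodule.span F (Set.range ![x, y, w]) from hsp ▸ Submodule.mem_top)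
    exact ⟨g 0, g 1, g 2, by rw [← hg]; simp [Fin.sum_univ_three]⟩
  have hker : ∀ z, N *ᵥ z = 0 → ∃ s t : F, z = s • y + t • w := fun z hz => by
    obtain ⟨r, s, t, rfl⟩ := hdec z
    simp [mulVec_add, mulVec_smul, hy0, hw, hNN] at hz
    exact ⟨s, t, by rw [hz.resolve_right hNx, zero_smul, zero_add]⟩
  obtain ⟨c, e1, hMy⟩ := hker (M *ᵥ y) (by rw [hMN, hy0, smul_zero])
  obtain ⟨s0, t0, hMx'⟩ := hker (M *ᵥ x - a • x) (by rw [mulVec_sub, mulVec_smul, hMN, sub_self])
  have hMx : M *ᵥ x = a • x + (s0 • y + t0 • w) := by rw [← hMx']; abel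
  -- the determinant
  set P : Matrix (Fin 3) (Fin 3) F := (Matrix.of ![x, y, w])ᵀ
  have hPd : P.det ≠ 0 := by
    rw [det_transpose]
    exact (Matrix.isUnit_iff_isUnit_det _).1 (Matrix.linearIndependent_rows_iff_isUnit.1 hind) |>.ne_zero
  set T : Matrix (Fin 3) (Fin 3) F := !![a, 0, 0; s0, c, 0; t0, e1, a]
  have hMP : M * P = P * T := by
    ext i j
    have e : (M * P) i j = (M *ᵥ (![x, y, w] j)) i := rfl
    rw [e, mul_apply, Fin.sum_univ_three]
    fin_cases j <;> simp [hMx, hMy, hMw, T, P] <;> ring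
  have hc' : a * c * a = 1 := by
    have h := congrArg Matrix.det hMP
    rw [det_mul, det_mul, hdet, one_mul, mul_comm] at h
    have hT : T.det = 1 := mul_right_cancel₀ hPd (h.symm.trans (one_mul _).symm)
    simpa [T, det_fin_three] using hT
  -- the annihilating polynomial
  have hann : ∀ z, (M - a • 1) *ᵥ ((M - c • 1) *ᵥ ((M - a • 1) *ᵥ z)) = 0 := by
    intro z
    obtain ⟨r, s, t, rfl⟩ := hdec z
    simp only [sub_mulVec, smul_mulVec, one_mulVec, mulVec_add, mulVec_sub, mulVec_smul, hMx, hMy, hMw,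
      smul_add, smul_sub, smul_smul]
    module
  set d := Nat.gcd 3 (q + 1)
  set k := (q + 1) / d with hk
  have hak : a ^ k = c ^ k := by
    have h3 : a ^ (3 * k) = 1 := by
      obtain ⟨m, hm⟩ := Nat.gcd_dvd_left 3 (q + 1)
      rw [hk, hm, mul_comm d m, mul_assoc, Nat.mul_div_cancel' (Nat.gcd_dvd_right _ _), mul_comm, pow_mul,
        ha1, one_pow]
    have h4 : (a * c * a) ^ k = 1 := by rw [hc', one_pow]
    have ha0 : a ^ k ≠ 0 := pow_ne_zero _ fun h => by simp [h] at ha1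
    rw [mul_pow, mul_pow] at h4
    rw [pow_mul, ← pow_right_comm] at h3
    refine mul_left_cancel₀ (mul_ne_zero ha0 ha0) ?_
    linear_combination h3 - h4
  set e := a ^ k
  have hfac : ∀ b : F, b ^ k = e → ∃ A : Polynomial F, (Polynomial.X ^ k - Polynomial.C e) = A * (Polynomial.X - Polynomial.C b) := by
    intro b hb
    have h : (Polynomial.X - Polynomial.C b) ∣ (Polynomial.X ^ k - Polynomial.C e) := by
      rw [Polynomial.dvd_iff_isRoot]; simp [hb]
    obtain ⟨A, hA⟩ := h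
    exact ⟨A, hA.trans (mul_comm _ _)⟩
  obtain ⟨A, hA⟩ := hfac a rfl
  obtain ⟨B, hB⟩ := hfac c hak.symm
  have hY : (M ^ k - e • 1) ^ 3 = 0 := by
    have h0 : (M - a • 1) * ((M - c • 1) * (M - a • 1)) = 0 :=
      Matrix.ext_iff_mulVec.2 fun z => by rw [← mulVec_mulVec, ← mulVec_mulVec, hann, zero_mulVec]
    have hev : ∀ b : F, Polynomial.aeval M (Polynomial.X - Polynomial.C b) = M - b • 1 := fun b => by
      simp [Algebra.smul_def]
    have h1 : Polynomial.aeval M ((Polynomial.X - Polynomial.C a) *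
        ((Polynomial.X - Polynomial.C c) * (Polynomial.X - Polynomial.C a))) = 0 := by
      rw [map_mul, map_mul, hev, hev, h0]
    have h2 : Polynomial.aeval M (Polynomial.X ^ k - Polynomial.C e) = M ^ k - e • 1 := by
      simp [Algebra.smul_def]
    have h3 : (Polynomial.X ^ k - Polynomial.C e) ^ 3 = A * B * A * ((Polynomial.X - Polynomial.C a) *
        ((Polynomial.X - Polynomial.C c) * (Polynomial.X - Polynomial.C a))) := by
      calc (Polynomial.X ^ k - Polynomial.C e) ^ 3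
          = (Polynomial.X ^ k - Polynomial.C e) * (Polynomial.X ^ k - Polynomial.C e) *
            (Polynomial.X ^ k - Polynomial.C e) := by ring
        _ = (A * (Polynomial.X - Polynomial.C a)) * (B * (Polynomial.X - Polynomial.C c)) *
            (A * (Polynomial.X - Polynomial.C a)) := by rw [← hA, ← hB]
        _ = _ := by ring
    rw [← h2, ← map_pow, h3, map_mul, h1, mul_zero]
  refine ⟨e ^ p, ?_⟩
  rw [mul_comm p, pow_mul, show M ^ k = e • 1 + (M ^ k - e • 1) by abel, pow_char_scalar p hp e hY]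

/-- The semisimple case. -/
theorem semisimple_case (hq3 : 3 ≤ q) {M : Matrix (Fin 3) (Fin 3) F} (hMh : tstar hF M * M = 1) (hdet : M.det = 1)
    {m : ℕ} (hm : (m : F) ≠ 0) (hMm : M ^ m = 1) :
    ∃ B : ℕ, (B = q + 1 ∨ B = (q ^ 2 - 1) / Nat.gcd 3 (q + 1) ∨ B = (q ^ 2 - q + 1) / Nat.gcd 3 (q + 1)) ∧
      ∃ e : F, M ^ B = e • 1 := by
  classical
  let L := AlgebraicClosure F
  set i := algebraMap F L
  set ML := M.map i with hML
  set R := ML.charpoly.roots with hR
  have hsplit := IsAlgClosed.splits ML.charpoly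
  have hcard : Multiset.card R = 3 := by
    rw [hR, ← hsplit.natDegree_eq_card_roots, Matrix.charpoly_natDegree_eq_dim]; rfl
  have hdetL : ML.det = 1 := by rw [hML, ← RingHom.mapMatrix_apply, ← RingHom.map_det, hdet, map_one]
  have hprod : R.prod = 1 := by
    rw [hR, ← Matrix.det_eq_prod_roots_charpoly_of_splits hsplit, hdetL]
  -- roots are permuted
  obtain ⟨p, k, hpp, hcp, hk1, hqp⟩ := q_eq_pow hF
  haveI := Fact.mk hpp
  haveI : CharP L p := charP_of_injective_algebraMap i.injective p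
  let Φ : L →+* L := iterateFrobenius L p k
  have hΦ : ∀ x, Φ x = x ^ q := fun x => by rw [hqp]; exact iterateFrobenius_def ..
  have hroot : ∀ {x : L}, x ∈ R ↔ (Matrix.scalar (Fin 3) x - ML).det = 0 := fun {x} => by
    rw [hR, Polynomial.mem_roots (Matrix.charpoly_monic _).ne_zero, Polynomial.IsRoot.def, Matrix.eval_charpoly]
  have hmap : ∀ x : L, x ∈ R → x ≠ 0 ∧ (x ^ q)⁻¹ ∈ R := by
    intro x hx
    rw [hroot] at hx
    have hx0 : x ≠ 0 := fun h => by
      rw [h, map_zero, zero_sub, det_neg, hdetL] at hx; simp at hx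
    refine ⟨hx0, hroot.2 ?_⟩
    set MS := ML.map Φ with hMS
    have hMS' : MS = (M.map (qHom hF)).map i := by
      rw [hMS, hML, Matrix.map_map, Matrix.map_map]
      ext a b
      simp only [Matrix.map_apply, Function.comp_apply, hΦ, ← map_pow]
      rfl
    have h1 : MSᵀ * ML = 1 := by
      have h := congrArg (fun A => A.map i) hMh
      simp only [Matrix.map_mul, Matrix.map_one _ (map_zero i) (map_one i)] at h
      rw [hMS', ← Matrix.transpose_map]
      exact h
    have h2 : (Matrix.scalar (Fin 3) (x ^ q) - MS).det = 0 := by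
      rw [← hΦ, show Matrix.scalar (Fin 3) (Φ x) - MS = (Matrix.scalar (Fin 3) x - ML).map Φ by
        rw [Matrix.map_sub _ (map_sub Φ)]
        congr 1
        simp [Matrix.scalar_apply, diagonal_map (map_zero Φ)],
        ← RingHom.mapMatrix_apply, ← RingHom.map_det, hx, map_zero]
    have hxq : x ^ q ≠ 0 := pow_ne_zero _ hx0
    rw [← det_transpose, transpose_sub, Matrix.scalar_apply, diagonal_transpose, ← Matrix.scalar_apply] at h2
    have h3 : ((Matrix.scalar (Fin 3) (x ^ q) - MSᵀ) * ML).det = 0 := by rw [det_mul, h2, zero_mul]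
    rw [sub_mul, h1] at h3
    have e : Matrix.scalar (Fin 3) (x ^ q) * ML - 1 = -(x ^ q) • (Matrix.scalar (Fin 3) (x ^ q)⁻¹ - ML) := by
      rw [smul_sub, Matrix.scalar_apply, Matrix.scalar_apply, ← diagonal_smul, ← smul_one_eq_diagonal,
        smul_mul_assoc, one_mul]
      ext a b
      simp [Matrix.one_apply, diagonal_apply]
      split <;> simp [hxq]
      ring
    rw [e, det_smul, mul_eq_zero] at h3
    exact h3.resolve_left (pow_ne_zero _ (neg_ne_zero.2 hxq))
  -- scalar powers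
  have hm1 : (m : L) ≠ 0 := by rw [← map_natCast i]; exact (map_ne_zero i).2 hm
  have hscal : ∀ (B : ℕ) (e : L), (∀ x ∈ R, x ^ B = e) → ∃ e' : F, M ^ B = e' • 1 := by
    intro B e hB
    set g := EuclideanDomain.gcd ML.charpoly (Polynomial.X ^ m - 1) with hg
    have hg0 : Polynomial.aeval ML g = 0 := by
      rw [hg, EuclideanDomain.gcd_eq_gcd_ab, map_add, map_mul, map_mul, Matrix.aeval_self_charpoly]
      have : Polynomial.aeval ML (Polynomial.X ^ m - 1 : Polynomial L) = 0 := by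
        rw [map_sub, map_pow, Polynomial.aeval_X, map_one, hML, ← RingHom.mapMatrix_apply, ← map_pow, hMm,
          map_one, sub_self]
      rw [this]; simp
    have hdv : g ∣ Polynomial.X ^ B - Polynomial.C e := by
      have hgd : g ∣ ML.charpoly := EuclideanDomain.gcd_dvd_left _ _
      have hne : g ≠ 0 := ne_zero_of_dvd_ne_zero (Matrix.charpoly_monic _).ne_zero hgd
      have hgs : g.Separable := (Polynomial.separable_X_pow_sub_C (1 : L) hm1 one_ne_zero).of_dvd
        (by rw [map_one]; exact EuclideanDomain.gcd_dvd_right _ _)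
      rcases Nat.eq_zero_or_pos B with rfl | hB0
      · obtain ⟨x, hx⟩ := Multiset.card_pos_iff_exists_mem.1 (hcard ▸ (by norm_num : 0 < 3))
        rw [← hB x hx, pow_zero, pow_zero, map_one, sub_self]
        exact dvd_zero _
      rw [(IsAlgClosed.splits g).dvd_iff_roots_le_roots hne (Polynomial.X_pow_sub_C_ne_zero hB0 e),
        Multiset.le_iff_subset (Polynomial.nodup_roots hgs)]
      intro x hx
      rw [Polynomial.mem_roots (Polynomial.X_pow_sub_C_ne_zero hB0 e)]
      simp [hB x (Multiset.mem_of_le (Polynomial.roots.le_of_dvd (Matrix.charpoly_monic _).ne_zero hgd) hx)]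
    obtain ⟨r, hr⟩ := hdv
    have hpow : ML ^ B = e • 1 := by
      have := congrArg (Polynomial.aeval ML) hr
      rw [map_mul, hg0, zero_mul, map_sub, map_pow, Polynomial.aeval_X, Polynomial.aeval_C, sub_eq_zero] at this
      rw [this, Algebra.smul_def, mul_one]
    rw [hML, ← RingHom.mapMatrix_apply, ← map_pow, RingHom.mapMatrix_apply] at hpow
    refine ⟨(M ^ B) 0 0, Matrix.ext fun a b => ?_⟩
    have h00 := congrFun (congrFun hpow 0) 0
    have hab := congrFun (congrFun hpow a) b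
    simp only [Matrix.map_apply, Matrix.smul_apply, Matrix.one_apply] at h00 hab ⊢
    by_cases h : a = b
    · subst h
      simp at h00 hab ⊢
      exact i.injective (hab.trans h00.symm)
    · simp [h] at hab ⊢
      exact hab
  set d := Nat.gcd 3 (q + 1)
  have hdq : d ∣ q + 1 := Nat.gcd_dvd_right _ _
  have hd3 : d ∣ 3 := Nat.gcd_dvd_left _ _
  by_cases hall : ∀ x ∈ R, x ^ (q + 1) = 1
  · exact ⟨_, Or.inl rfl, hscal _ 1 hall⟩
  push Not at hall
  obtain ⟨a, haR, ha⟩ := hall
  obtain ⟨ha0, hbR⟩ := hmap a haR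
  set b := (a ^ q)⁻¹ with hb
  have hba : b ≠ a := fun h => ha (by
    rw [pow_succ]; nth_rewrite 2 [← h]; exact mul_inv_cancel₀ (pow_ne_zero _ ha0))
  obtain ⟨R', hR'⟩ : ∃ R', R = a ::ₘ R' := ⟨_, (Multiset.cons_erase haR).symm⟩
  have hbR' : b ∈ R' := (Multiset.mem_cons.1 (hR' ▸ hbR)).resolve_left hba
  obtain ⟨R'', hR''⟩ : ∃ R'', R' = b ::ₘ R'' := ⟨_, (Multiset.cons_erase hbR').symm⟩
  obtain ⟨c, hc⟩ : ∃ c, R'' = {c} := Multiset.card_eq_one.1 (by
    rw [hR', hR'', Multiset.card_cons, Multiset.card_cons] at hcard; omega)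
  have hmem : ∀ x, x ∈ R ↔ x = a ∨ x = b ∨ x = c := fun x => by simp [hR', hR'', hc]
  have hp' : a * (b * c) = 1 := by rw [← hprod, hR', hR'', hc]; simp
  have hcv : c = a ^ q * a⁻¹ := by
    have hbq : a ^ q * b = 1 := mul_inv_cancel₀ (pow_ne_zero _ ha0)
    rw [eq_mul_inv_iff_mul_eq₀ ha0]
    linear_combination a ^ q * hp' - a * c * hbq
  have hb0 : b ≠ 0 := inv_ne_zero (pow_ne_zero _ ha0)
  obtain ⟨-, hc'R⟩ := hmap b hbR
  set b2 := (b ^ q)⁻¹ with hb2
  have hb2v : b2 = a ^ (q * q) := by rw [hb2, hb, inv_pow, inv_inv, ← pow_mul]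
  have hsqd : d ∣ q ^ 2 - 1 := by
    rw [← one_pow 2, Nat.sq_sub_sq]; exact dvd_mul_of_dvd_left hdq _
  have hdq2 : d ∣ q - 2 := by
    have h3 : d ∣ q + 1 - 3 := Nat.dvd_sub hdq hd3
    rwa [show q + 1 - 3 = q - 2 by omega] at h3
  by_cases h2 : b2 = a
  · refine ⟨_, Or.inr (Or.inl rfl), hscal _ (a ^ ((q ^ 2 - 1) / d)) ?_⟩
    rw [hb2v] at h2
    have hper : a ^ (q ^ 2 - 1) = 1 := by
      refine mul_right_cancel₀ ha0 ?_
      rw [← pow_succ, Nat.sub_add_cancel (Nat.one_le_pow _ _ (by omega)), pow_two, h2, one_mul]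
    have key : ∀ j : ℕ, d ∣ j → (a ^ j) ^ ((q ^ 2 - 1) / d) = 1 := fun j ⟨j', hj⟩ => by
      rw [← pow_mul, hj, mul_comm d, mul_assoc, Nat.mul_div_cancel' hsqd, mul_comm, pow_mul, hper, one_pow]
    intro x hx
    rcases (hmem x).1 hx with h | h | h <;> rw [h]
    · rw [hb, inv_pow]
      refine inv_eq_of_mul_eq_one_right ?_
      rw [← mul_pow, ← pow_succ, key _ hdq]
    · have e : c = a ^ (q - 2) * a := by
        rw [hcv, eq_comm, ← div_eq_mul_inv, eq_div_iff ha0, mul_assoc, ← pow_two, ← pow_add,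
          show q - 2 + 2 = q by omega]
      rw [e, mul_pow, key _ hdq2, one_mul]
  · refine ⟨_, Or.inr (Or.inr rfl), hscal _ (a ^ ((q ^ 2 - q + 1) / d)) ?_⟩
    have hinj : b2 ≠ b := fun h => hba.symm (Φ.injective (inv_injective (by
      rw [hΦ, hΦ, ← hb, ← hb2, h])))
    have hb2c : b2 = c := (((hmem b2).1 hc'R).resolve_left h2).resolve_left hinj
    have hle : q ≤ q ^ 2 := Nat.le_self_pow two_ne_zero q
    have hper : a ^ (q ^ 2 - q + 1) = 1 := by
      have h1 : a ^ (q * q) * a = a ^ q := by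
        rw [← hb2v, hb2c, hcv, inv_mul_cancel_right₀ ha0]
      refine mul_right_cancel₀ (pow_ne_zero q ha0) ?_
      rw [one_mul, ← pow_add, show q ^ 2 - q + 1 + q = q * q + 1 by rw [← pow_two]; omega, pow_succ, h1]
    have hdn : d ∣ q ^ 2 - q + 1 := by
      have : q ^ 2 - q + 1 = (q + 1) * (q - 2) + 3 := by
        obtain ⟨r, rfl⟩ : ∃ r, q = r + 3 := ⟨q - 3, by omega⟩
        zify [hle, show 2 ≤ r + 3 by omega]
        ring
      rw [this]; exact dvd_add (dvd_mul_of_dvd_left hdq _) hd3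
    have key : ∀ j : ℕ, d ∣ j → (a ^ j) ^ ((q ^ 2 - q + 1) / d) = 1 := fun j ⟨j', hj⟩ => by
      rw [← pow_mul, hj, mul_comm d, mul_assoc, Nat.mul_div_cancel' hdn, mul_comm, pow_mul, hper, one_pow]
    intro x hx
    rcases (hmem x).1 hx with h | h | h <;> rw [h]
    · rw [hb, inv_pow]
      refine inv_eq_of_mul_eq_one_right ?_
      rw [← mul_pow, ← pow_succ, key _ hdq]
    · have e : c = a ^ (q - 2) * a := by
        rw [hcv, eq_comm, ← div_eq_mul_inv, eq_div_iff ha0, mul_assoc, ← pow_two, ← pow_add,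
          show q - 2 + 2 = q by omega]
      rw [e, mul_pow, key _ hdq2, one_mul]

omit hF in
/-- An element of order `p` is `1 + N` with `N` nilpotent of exponent at most three. -/
theorem unipotent_part (p : ℕ) [Fact p.Prime] [CharP F p] {U : Matrix (Fin 3) (Fin 3) F} (hU : U ^ p = 1) :
    (U - 1) ^ 3 = 0 := by
  haveI : CharP (Matrix (Fin 3) (Fin 3) F) p := inferInstance
  have h : (U - 1) ^ p = 0 := by rw [sub_pow_char_of_commute _ (Commute.one_right U), hU, one_pow, sub_self]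
  have h2 := Matrix.isNilpotent_charpoly_sub_pow_of_isNilpotent ⟨p, h⟩
  have h3 : (U - 1).charpoly = Polynomial.X ^ 3 := by
    simpa [sub_eq_zero] using h2.eq_zero
  have h4 := Matrix.aeval_self_charpoly (U - 1)
  rwa [h3, map_pow, Polynomial.aeval_X] at h4

/-- Every element has a scalar power among the four bounds. -/
theorem scalar_power (p : ℕ) [Fact p.Prime] [hcp0 : CharP F p] (hp : p ≠ 2) (g : ↥(Cfsg.SU 3 F q)) :
    ∃ B : ℕ, (B = q + 1 ∨ B = p * (q + 1) / Nat.gcd 3 (q + 1) ∨ B = (q ^ 2 - 1) / Nat.gcd 3 (q + 1) ∨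
        B = (q ^ 2 - q + 1) / Nat.gcd 3 (q + 1)) ∧
      ∃ e : F, mat g ^ B = e • 1 := by
  classical
  have hp3 : 3 ≤ p := by have := (Fact.out : p.Prime).two_le; omega
  obtain ⟨p', k, hpp, hcp, hk, hqp⟩ := q_eq_pow hF
  have hpp' : p' = p := CharP.eq F hcp hcp0
  subst hpp'
  have hq3 : 3 ≤ q := hqp ▸ hp3.trans (Nat.le_self_pow (by omega) _)
  have hmat' : ∀ (h : ↥(Cfsg.SU 3 F q)) (j : ℕ), mat (h ^ j) = mat h ^ j := fun h j => by
    induction j with
    | zero => rfl
    | succ j ih => rw [pow_succ, pow_succ, ← ih]; rfl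
  have hmat : ∀ j : ℕ, mat (g ^ j) = mat g ^ j := hmat' g
  have hdet : ∀ h : ↥(Cfsg.SU 3 F q), (mat h).det = 1 := fun h => (h : SpecialLinearGroup (Fin 3) F).2
  have hstar : ∀ h : ↥(Cfsg.SU 3 F q), tstar hF (mat h) * mat h = 1 := fun h =>
    (mem_GU_iff hF (SpecialLinearGroup.toGL (h : SpecialLinearGroup (Fin 3) F))).1 fun u v => h.2 u v
  have hn : 0 < orderOf g := orderOf_pos g
  set n := orderOf g
  by_cases hpn : p' ∣ n
  · set U := mat (g ^ (n / p')) with hU
    have hord : orderOf (g ^ (n / p')) = p' := orderOf_pow_orderOf_div hn.ne' hpn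
    have hUp : U ^ p' = 1 := by
      rw [hU, show mat (g ^ (n / p')) ^ p' = mat ((g ^ (n / p')) ^ p') from (hmat' _ _).symm]
      nth_rewrite 2 [← hord]
      rw [pow_orderOf_eq_one]; rfl
    have hU1 : U ≠ 1 := fun h => by
      have h1 : g ^ (n / p') = 1 := Subtype.ext (Subtype.ext h)
      rw [h1, orderOf_one] at hord
      exact (Fact.out : p'.Prime).ne_one hord.symm
    have hN3 := unipotent_part p' hUp
    have hc : Commute (mat g) (U - 1) :=
      Commute.sub_right (by rw [hU, hmat]; exact (Commute.refl _).pow_right _) (Commute.one_right _)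
    have hdiv : p' * (q + 1) / Nat.gcd 3 (q + 1) = p' * ((q + 1) / Nat.gcd 3 (q + 1)) :=
      Nat.mul_div_assoc _ (Nat.gcd_dvd_right _ _)
    by_cases hN2 : (U - 1) ^ 2 = 0
    · refine ⟨_, Or.inr (Or.inl rfl), ?_⟩
      rw [hdiv]
      refine transvection_case hF p' hp3 (fun x y => g.2 x y) (hdet g) ?_ (sub_ne_zero.2 hU1) hN2 hc
      intro x y
      have hUh : ∀ a b, H (U *ᵥ a) (U *ᵥ b) = H a b := fun a b => (g ^ (n / p')).2 a b
      have hinv : U *ᵥ (y - (U - 1) *ᵥ y) = y := by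
        have : U * (1 - (U - 1)) = 1 := by
          rw [show U * (1 - (U - 1)) = 1 - (U - 1) ^ 2 by noncomm_ring, hN2, sub_zero]
        rw [show y - (U - 1) *ᵥ y = (1 - (U - 1)) *ᵥ y by rw [sub_mulVec (1 : Matrix (Fin 3) (Fin 3) F), one_mulVec],
          mulVec_mulVec, this, one_mulVec]
      have h1 := hUh x (y - (U - 1) *ᵥ y)
      rw [hinv, herm_sub_right hF] at h1
      rw [sub_mulVec, one_mulVec, herm_sub_left]
      linear_combination h1
    · obtain ⟨e, he⟩ := regular_case p' hp3 hN3 hN2 hc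
      refine ⟨_, Or.inr (Or.inl rfl), e ^ ((q + 1) / Nat.gcd 3 (q + 1)), ?_⟩
      rw [hdiv, pow_mul, he, _root_.smul_pow, one_pow]
  · have hm : ((n : ℕ) : F) ≠ 0 := by rwa [ne_eq, CharP.cast_eq_zero_iff F p']
    obtain ⟨B, hB, he⟩ := semisimple_case hF hq3 (hstar g) (hdet g) hm (by rw [← hmat, pow_orderOf_eq_one]; rfl)
    refine ⟨B, ?_, he⟩
    rcases hB with h | h | h
    exacts [Or.inl h, Or.inr (Or.inr (Or.inl h)), Or.inr (Or.inr (Or.inr h))]

end Cfsg.Agent.Lib.Classical.SUThree
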