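import Cfsg.Agent.S2389
import Cfsg.Agent.Lib.GLn.SemisimpleClasses
import Cfsg.Agent.Lib.Forms.Alternating
import Mathlib.LinearAlgebra.Matrix.Charpoly.FiniteField
import Mathlib.LinearAlgebra.Matrix.Charpoly.Minpoly

/-!
# Semisimple classes of symplectic groups

Every self-reciprocal monic polynomial of degree `2n` is the characteristic polynomial of a
symplectic matrix (multiplication by the root on the quotient algebra, with an anti-invariant
residue functional), hence of a semisimple one.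
-/

set_option autoImplicit false

namespace Cfsg.Agent.Lib.Classical.SympSemisimpleClasses

open Polynomial Cfsg.Agent.Lib.GLn
open scoped Matrix

universe u

variable {F : Type u} [Field F]

theorem coeff_zero_of_reverse {P : F[X]} (hP : P.Monic) (hr : P.reverse = P) : P.coeff 0 = 1 := by
  rw [← hr, coeff_zero_reverse, hP.leadingCoeff]

/-- A symplectic matrix has self-reciprocal characteristic polynomial. -/
theorem charpoly_reverse {n : ℕ} {A : Matrix (Fin n ⊕ Fin n) (Fin n ⊕ Fin n) F}
    (hA : A ∈ Matrix.symplecticGroup (Fin n) F) : A.charpoly.reverse = A.charpoly := by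
  have hu : IsUnit A := (Matrix.isUnit_iff_isUnit_det A).2 (SymplecticGroup.symplectic_det hA)
  have h1 : A⁻¹.charpoly = A.charpoly := by
    let j : (Matrix (Fin n ⊕ Fin n) (Fin n ⊕ Fin n) F)ˣ :=
      ⟨Matrix.J (Fin n) F, -Matrix.J (Fin n) F, by rw [mul_neg, Matrix.J_squared, neg_neg],
        by rw [neg_mul, Matrix.J_squared, neg_neg]⟩
    have h2 : A⁻¹ = (j : Matrix _ _ F) * Aᵀ * ((j⁻¹ : (Matrix (Fin n ⊕ Fin n) (Fin n ⊕ Fin n) F)ˣ) : Matrix _ _ F) := by
      refine Matrix.inv_eq_left_inv ?_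
      show Matrix.J (Fin n) F * Aᵀ * -Matrix.J (Fin n) F * A = 1
      rw [mul_neg, neg_mul, mul_assoc, mul_assoc, ← mul_assoc Aᵀ, SymplecticGroup.mem_iff'.1 hA,
        Matrix.J_squared, neg_neg]
    rw [h2, Matrix.coe_units_inv, Matrix.charpoly_units_conj, Matrix.charpoly_transpose]
  have hdet : A.det = 1 := SymplecticGroup.det_eq_one hA
  rw [Matrix.charpoly_inv _ hu, hdet, ← Matrix.reverse_charpoly, Fintype.card_sum, Fintype.card_fin,
    ← two_mul, pow_mul, neg_one_sq, one_pow, Ring.inverse_one, map_one, one_mul, one_mul] at h1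
  exact h1

section Residue

variable {r : F[X]} {k : ℕ}

/-- The top coefficient functional. -/
theorem top_mk (hr : r.Monic) (hd : r.natDegree = k + k) (hk : 0 < k + k) {a : F[X]} (ha : a.natDegree < k + k) :
    (AdjoinRoot.powerBasis hr.ne_zero).basis.repr (AdjoinRoot.mk r a)
      ⟨k + k - 1, by show _ < r.natDegree; omega⟩ = a.coeff (k + k - 1) := by
  set pb := AdjoinRoot.powerBasis hr.ne_zero with hpb
  have hdim : pb.dim = k + k := hd
  have hroot : ∀ i : Fin pb.dim, pb.basis i = AdjoinRoot.root r ^ (i : ℕ) := fun i => by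
    rw [pb.coe_basis]; rfl
  have e : AdjoinRoot.mk r a = ∑ i : Fin pb.dim, a.coeff i • pb.basis i := by
    conv_lhs => rw [a.as_sum_range' (k + k) ha, ← hdim, ← Fin.sum_univ_eq_sum_range (fun i => monomial i (a.coeff i))]
    rw [map_sum]
    refine Finset.sum_congr rfl fun i _ => ?_
    rw [hroot, ← C_mul_X_pow_eq_monomial, map_mul, map_pow, AdjoinRoot.mk_X, AdjoinRoot.mk_C, Algebra.smul_def]
    rfl
  rw [e, Module.Basis.repr_sum_self]

/-- An anti-invariant non-degenerate functional on the algebra of a self-reciprocal polynomial. -/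
theorem exists_residue (hr : r.Monic) (hrev : r.reverse = r) (hd : r.natDegree = k + k) (hk : 1 ≤ k) :
    ∃ (σ : AdjoinRoot r →ₐ[F] AdjoinRoot r) (φ : AdjoinRoot r →ₗ[F] F),
      σ (AdjoinRoot.root r) * AdjoinRoot.root r = 1 ∧ Function.Surjective σ ∧
      (∀ u, φ (u * σ u) = 0) ∧ ∀ u, (∀ e, φ (u * e) = 0) → u = 0 := by
  classical
  have h0 : r.coeff 0 = 1 := coeff_zero_of_reverse hr hrev
  set pb := AdjoinRoot.powerBasis hr.ne_zero with hpb
  have hdim : pb.dim = k + k := hd
  set x := AdjoinRoot.root r with hx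
  set y := -AdjoinRoot.mk r r.divX with hy
  have hxy : x * y = 1 := by
    have h1 : AdjoinRoot.mk r r = 0 := AdjoinRoot.mk_self
    conv_lhs at h1 => arg 2; rw [← X_mul_divX_add r, h0, map_one]
    rw [map_add, map_mul, AdjoinRoot.mk_X, map_one, add_eq_zero_iff_eq_neg] at h1
    rw [hy, mul_neg, h1, neg_neg]
  let w : (AdjoinRoot r)ˣ := ⟨x, y, hxy, by rw [mul_comm, hxy]⟩
  have hy0 : aeval y r = 0 := by
    letI : Invertible x := ⟨y, by rw [mul_comm, hxy], hxy⟩
    have := (eval₂_reverse_eq_zero_iff (algebraMap F (AdjoinRoot r)) x r).2 (AdjoinRoot.eval₂_root r)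
    rw [hrev] at this
    exact this
  let σ : AdjoinRoot r →ₐ[F] AdjoinRoot r := AdjoinRoot.liftAlgHom r (Algebra.ofId F _) y hy0
  have hσx : σ x = y := AdjoinRoot.liftAlgHom_root r (Algebra.ofId F _) y hy0
  have hσy : σ y = x := by
    have h1 := congrArg σ hxy
    rw [map_mul, map_one, hσx] at h1
    calc σ y = (x * y) * σ y := by rw [hxy, one_mul]
      _ = x * (y * σ y) := mul_assoc _ _ _
      _ = x := by rw [h1, mul_one]
  have hσσ : ∀ u, σ (σ u) = u := fun u => by
    have : σ.comp σ = AlgHom.id F _ := AdjoinRoot.algHom_ext (by rw [AlgHom.comp_apply, hσx, hσy]; rfl)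
    exact DFunLike.congr_fun this u
  -- the top coefficient
  set top : Fin pb.dim := ⟨k + k - 1, by omega⟩ with htop
  let L : AdjoinRoot r →ₗ[F] F := pb.basis.coord top
  have hL : ∀ a : F[X], a.natDegree < k + k → L (AdjoinRoot.mk r a) = a.coeff (k + k - 1) := fun a ha =>
    top_mk hr hd (by omega) ha
  have hLpow : ∀ i, i < k + k → L (x ^ i) = if i = k + k - 1 then 1 else 0 := fun i hi => by
    have := hL (X ^ i) (by rwa [natDegree_X_pow])
    rw [map_pow, AdjoinRoot.mk_X, coeff_X_pow] at this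
    simp only [eq_comm (a := i)]
    exact this
  have hLnd : ∀ u, (∀ e, L (u * e) = 0) → u = 0 := by
    intro u hu
    obtain ⟨a, rfl⟩ := AdjoinRoot.mk_surjective u
    rw [show AdjoinRoot.mk r a = AdjoinRoot.mk r (a %ₘ r) by
      rw [AdjoinRoot.mk_eq_mk]; exact ⟨a /ₘ r, sub_eq_iff_eq_add'.2 (modByMonic_add_div a r).symm⟩] at hu ⊢
    by_contra hne
    have ha0 : a %ₘ r ≠ 0 := fun h => hne (by rw [h, map_zero])
    have hlt : (a %ₘ r).natDegree < k + k := by
      rw [← hd]
      refine natDegree_modByMonic_lt a hr ?_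
      intro h1; rw [h1, natDegree_one] at hd; omega
    have h1 := hu (AdjoinRoot.mk r (X ^ (k + k - 1 - (a %ₘ r).natDegree)))
    rw [← map_mul, hL _ (by rw [natDegree_mul ha0 (pow_ne_zero _ X_ne_zero), natDegree_X_pow]; omega),
      coeff_mul_X_pow', if_pos (by omega),
      show k + k - 1 - (k + k - 1 - (a %ₘ r).natDegree) = (a %ₘ r).natDegree by omega] at h1
    exact leadingCoeff_ne_zero.2 ha0 h1
  -- the residue functional
  let φ : AdjoinRoot r →ₗ[F] F := L.comp (LinearMap.mulLeft F (x ^ (k - 1)))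
  have hφv : ∀ u, φ u = L (x ^ (k - 1) * u) := fun u => rfl
  have hanti : ∀ u, φ (σ u) = -φ u := by
    have h2 : (φ.comp σ.toLinearMap + φ).comp (LinearMap.mulLeft F (y ^ (k - 1))) = 0 := by
      refine pb.basis.ext fun i => ?_
      rw [pb.coe_basis]
      show φ (σ (y ^ (k - 1) * x ^ (i : ℕ))) + φ (y ^ (k - 1) * x ^ (i : ℕ)) = 0
      have hi : (i : ℕ) < k + k := lt_of_lt_of_eq i.2 hdim
      rw [map_mul, map_pow, map_pow, hσx, hσy, hφv, hφv, ← mul_assoc, ← mul_assoc, ← pow_add, ← mul_pow, hxy,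
        one_pow, one_mul, hLpow _ hi]
      by_cases htl : (i : ℕ) = k + k - 1
      · rw [if_pos htl, htl, show k + k - 1 = (k - 1 + (k - 1)) + 1 by omega, pow_succ y, ← mul_assoc, ← mul_pow,
          hxy, one_pow, one_mul, hy, map_neg, hL _ (by
            rw [natDegree_divX_eq_natDegree_tsub_one, hd]; omega), coeff_divX,
          show k + k - 1 + 1 = k + k by omega]
        rw [show r.coeff (k + k) = 1 by rw [← hd]; exact hr.coeff_natDegree]
        simp
      · rw [if_neg htl, show k - 1 + (k - 1) = (k + k - 2 - i) + i by omega, pow_add, mul_assoc, ← mul_pow, hxy,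
          one_pow, mul_one, hLpow _ (by omega), if_neg (by omega), add_zero]
    intro u
    have h3 := LinearMap.congr_fun h2 (x ^ (k - 1) * u)
    simp only [LinearMap.comp_apply, LinearMap.mulLeft_apply, LinearMap.add_apply, LinearMap.zero_apply,
      AlgHom.toLinearMap_apply] at h3
    rw [← mul_assoc, ← mul_pow, mul_comm y x, hxy, one_pow, one_mul] at h3
    exact eq_neg_of_add_eq_zero_left h3
  let B : AdjoinRoot r →ₗ[F] AdjoinRoot r →ₗ[F] F :=
    ((LinearMap.mul F (AdjoinRoot r)).compl₂ σ.toLinearMap).compr₂ φ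
  have hB : ∀ u v, B u v = φ (u * σ v) := fun u v => rfl
  have hskew : ∀ u v, B v u = -B u v := fun u v => by
    rw [hB, hB, ← hanti (u * σ v), map_mul σ, hσσ, mul_comm]
  refine ⟨σ, φ, by rw [hσx, mul_comm]; exact hxy, fun u => ⟨σ u, hσσ u⟩, fun u => ?_, fun u hu => hLnd u fun e => ?_⟩
  · rw [← hB, ← pb.basis.sum_repr u]
    induction (Finset.univ : Finset (Fin pb.dim)) using Finset.induction with
    | empty => simp
    | insert i s hi ih =>
      rw [Finset.sum_insert hi]
      simp only [map_add, LinearMap.add_apply]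
      rw [ih, hskew (pb.basis.repr u i • pb.basis i) (∑ x ∈ s, pb.basis.repr u x • pb.basis x)]
      simp only [map_smul, LinearMap.smul_apply]
      have : B (pb.basis i) (pb.basis i) = 0 := by
        rw [hB, pb.coe_basis]
        show φ (x ^ (i : ℕ) * σ (x ^ (i : ℕ))) = 0
        rw [map_pow, hσx, ← mul_pow, hxy, one_pow, hφv, mul_one, hLpow _ (by omega), if_neg (by omega)]
      rw [this]
      simp
  · have := hu (y ^ (k - 1) * e)
    rwa [hφv, show x ^ (k - 1) * (u * (y ^ (k - 1) * e)) = u * e * (x ^ (k - 1) * y ^ (k - 1)) by ring, ← mul_pow,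
      hxy, one_pow, mul_one] at this

end Residue

/-- Symplectic matrices with a given self-reciprocal characteristic polynomial. -/
theorem exists_symplectic {n : ℕ} {P : F[X]} (hP : P.Monic) (hd : P.natDegree = n + n) (hrev : P.reverse = P) :
    ∃ A : Matrix.symplecticGroup (Fin n) F, (A : Matrix (Fin n ⊕ Fin n) (Fin n ⊕ Fin n) F).charpoly = P := by
  classical
  rcases Nat.eq_zero_or_pos n with rfl | hn
  · exact ⟨1, by rw [eq_one_of_monic_natDegree_zero hP hd]; simp [Matrix.charpoly, Matrix.det_isEmpty]⟩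
  obtain ⟨σ, φ, hσx, hσs, halt, hnd⟩ := exists_residue hP hrev hd hn
  set pb := AdjoinRoot.powerBasis hP.ne_zero with hpb
  haveI : FiniteDimensional F (AdjoinRoot P) := pb.finite
  let B : LinearMap.BilinForm F (AdjoinRoot P) :=
    ((LinearMap.mul F (AdjoinRoot P)).compl₂ σ.toLinearMap).compr₂ φ
  have hB : ∀ u v, B u v = φ (u * σ v) := fun u v => rfl
  have hA : B.IsAlt := fun u => halt u
  obtain ⟨m, l, b, h1, h2, h3, h4⟩ := Cfsg.Agent.Lib.Forms.exists_altBasis B hA
  obtain rfl : l = 0 := by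
    by_contra hl
    refine b.ne_zero (Sum.inr ⟨0, Nat.pos_of_ne_zero hl⟩) (hnd _ fun e => ?_)
    obtain ⟨v, rfl⟩ := hσs e
    exact h4 _ v
  obtain rfl : m = n := by
    have := Module.finrank_eq_card_basis b
    rw [pb.finrank, show pb.dim = n + n from hd] at this
    simp at this
    omega
  let b' : Module.Basis (Fin m ⊕ Fin m) F (AdjoinRoot P) := b.reindex (Equiv.sumEmpty _ _)
  set L : Module.End F (AdjoinRoot P) := Algebra.lmul F (AdjoinRoot P) (AdjoinRoot.root P) with hL
  have hinv : B.comp L L = B := by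
    ext u v
    show B (AdjoinRoot.root P * u) (AdjoinRoot.root P * v) = B u v
    rw [hB, hB, map_mul σ]
    congr 1
    calc AdjoinRoot.root P * u * (σ (AdjoinRoot.root P) * σ v)
        = u * σ v * (σ (AdjoinRoot.root P) * AdjoinRoot.root P) := by ring
      _ = u * σ v := by rw [hσx, mul_one]
  have hG : LinearMap.BilinForm.toMatrix b' B = -Matrix.J (Fin m) F := by
    ext i j
    rw [LinearMap.BilinForm.toMatrix_apply]
    simp only [b', Module.Basis.coe_reindex, Function.comp_apply]
    rcases i with i | i <;> rcases j with j | j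
    · simp [Matrix.J, h2]
    · simp [Matrix.J, h1, Matrix.one_apply]
    · simp [Matrix.J, ← hA.neg_eq (b (Sum.inl (Sum.inl j))), h1, Matrix.one_apply, eq_comm]
    · simp [Matrix.J, h3]
  refine ⟨⟨LinearMap.toMatrix b' b' L, ?_⟩, ?_⟩
  · have := LinearMap.BilinForm.toMatrix_comp b' b' B L L
    rw [hinv, hG, Matrix.mul_neg, Matrix.neg_mul, neg_inj] at this
    exact SymplecticGroup.mem_iff'.2 this.symm
  · show (LinearMap.toMatrix b' b' L).charpoly = P
    rw [LinearMap.charpoly_toMatrix L b', ← LinearMap.charpoly_toMatrix L pb.basis]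
    show (Algebra.leftMulMatrix pb.basis (AdjoinRoot.root P)).charpoly = P
    rw [← AdjoinRoot.powerBasis_gen hP.ne_zero, ← hpb, charpoly_leftMulMatrix, hpb, AdjoinRoot.powerBasis_gen,
      AdjoinRoot.minpoly_root hP.ne_zero, hP.leadingCoeff, inv_one, C_1, mul_one]

variable [Fintype F] (p : ℕ) [Fact p.Prime] [CharP F p]

include p in
/-- Semisimple symplectic elements with a given self-reciprocal characteristic polynomial. -/
theorem exists_semisimple {n : ℕ} {P : F[X]} (hP : P.Monic) (hd : P.natDegree = n + n) (hrev : P.reverse = P) :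
    ∃ g : Matrix.symplecticGroup (Fin n) F, (orderOf g).Coprime p ∧
      (g : Matrix (Fin n ⊕ Fin n) (Fin n ⊕ Fin n) F).charpoly = P := by
  obtain ⟨A, hA⟩ := exists_symplectic hP hd hrev
  obtain ⟨v, m, hm, ho⟩ := Nat.exists_eq_pow_mul_and_not_dvd (orderOf_pos A).ne' p (Fact.out : p.Prime).ne_one
  obtain ⟨e, -, he⟩ := FiniteField.card F p
  refine ⟨A ^ (Fintype.card F ^ v), ?_, ?_⟩
  · refine Nat.Coprime.of_dvd_left (orderOf_dvd_of_pow_eq_one (x := A ^ (Fintype.card F ^ v)) (n := m) ?_)
      ((Fact.out : p.Prime).coprime_iff_not_dvd.2 hm).symm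
    rw [← pow_mul, ← orderOf_dvd_iff_pow_eq_one, ho]
    refine Nat.mul_dvd_mul_right ?_ m
    rw [he, ← pow_mul]
    exact pow_dvd_pow p (Nat.le_mul_of_pos_left v e.pos)
  · rw [SubmonoidClass.coe_pow]
    generalize (A : Matrix (Fin n ⊕ Fin n) (Fin n ⊕ Fin n) F) = M at hA
    subst hA
    clear ho
    induction v with
    | zero => simp
    | succ v ih => rw [pow_succ, pow_mul, FiniteField.Matrix.charpoly_pow_card, ih]

/-- The self-reciprocal monic polynomials of degree `n + n` are given by `n` coefficients. -/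
theorem card_reciprocal {n : ℕ} (hn : 1 ≤ n) :
    Nat.card {P : F[X] // P.Monic ∧ P.natDegree = n + n ∧ P.reverse = P} = Fintype.card F ^ n := by
  classical
  rw [show Fintype.card F ^ n = Nat.card (Fin n → F) by simp [Nat.card_eq_fintype_card]]
  symm
  let cf : (Fin n → F) → Fin (n + n) → F := fun v i =>
    if h : (i : ℕ) = 0 then 1 else v ⟨min (i : ℕ) (n + n - i) - 1, by omega⟩
  let P : (Fin n → F) → F[X] := fun v => (SemisimpleClasses.monicEquiv F (n + n) (cf v)).1
  have hPm : ∀ v, (P v).Monic ∧ (P v).natDegree = n + n := fun v =>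
    (SemisimpleClasses.monicEquiv F (n + n) (cf v)).2
  have hPc : ∀ v (i : Fin (n + n)), (P v).coeff (i : ℕ) = cf v i := fun v i =>
    congrFun ((SemisimpleClasses.monicEquiv F (n + n)).symm_apply_apply (cf v)) i
  have hlead : ∀ v, (P v).coeff (n + n) = 1 := fun v => by
    have := (hPm v).1.coeff_natDegree
    rwa [(hPm v).2] at this
  have hrev : ∀ v, (P v).reverse = P v := fun v => by
    ext i
    rw [coeff_reverse, (hPm v).2]
    rcases Nat.lt_trichotomy i (n + n) with hi | rfl | hi
    · rw [revAt_le hi.le, hPc v ⟨i, hi⟩]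
      rcases Nat.eq_zero_or_pos i with rfl | hi0
      · rw [Nat.sub_zero, hlead]; simp [cf]
      · rw [hPc v ⟨n + n - i, by omega⟩]
        simp only [cf, dif_neg hi0.ne', dif_neg (show n + n - i ≠ 0 by omega)]
        congr 1
        ext
        simp only
        omega
    · rw [revAt_le le_rfl, Nat.sub_self, hlead, hPc v ⟨0, by omega⟩]; simp [cf]
    · rw [revAt_eq_self_of_lt hi]
  refine Nat.card_congr (Equiv.ofBijective (fun v => ⟨P v, (hPm v).1, (hPm v).2, hrev v⟩) ⟨fun v w e => ?_, ?_⟩)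
  · funext j
    have := congrArg (fun Q => Q.1.coeff ((j : ℕ) + 1)) e
    simp only at this
    rw [hPc v ⟨(j : ℕ) + 1, by omega⟩, hPc w ⟨(j : ℕ) + 1, by omega⟩] at this
    simp only [cf, dif_neg (Nat.succ_ne_zero _)] at this
    have e1 : (⟨min ((j : ℕ) + 1) (n + n - ((j : ℕ) + 1)) - 1, by omega⟩ : Fin n) = j := Fin.ext (by simp only; omega)
    rwa [e1] at this
  · rintro ⟨Q, hQm, hQd, hQr⟩
    let v : Fin n → F := fun j => Q.coeff ((j : ℕ) + 1)
    refine ⟨v, Subtype.ext (?_ : P v = Q)⟩
    have hQs : ∀ i, i ≤ n + n → Q.coeff (n + n - i) = Q.coeff i := fun i hi => by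
      conv_rhs => rw [← hQr, coeff_reverse, hQd, revAt_le hi]
    ext i
    rcases Nat.lt_trichotomy i (n + n) with hi | rfl | hi
    · rw [hPc _ ⟨i, hi⟩]
      rcases Nat.eq_zero_or_pos i with rfl | hi0
      · simp only [cf, dif_pos]; exact (coeff_zero_of_reverse hQm hQr).symm
      · simp only [cf, dif_neg hi0.ne']
        rcases le_total i (n + n - i) with h | h
        · show Q.coeff (min i (n + n - i) - 1 + 1) = _
          rw [min_eq_left h, Nat.sub_add_cancel hi0]
        · show Q.coeff (min i (n + n - i) - 1 + 1) = _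
          rw [min_eq_right h, Nat.sub_add_cancel (by omega), hQs i hi.le]
    · rw [hlead, ← hQd]; exact hQm.coeff_natDegree.symm
    · rw [coeff_eq_zero_of_natDegree_lt (by rw [(hPm _).2]; exact hi),
        coeff_eq_zero_of_natDegree_lt (by rw [hQd]; exact hi)]

theorem charpoly_isConj {n : ℕ} {g h : Matrix.symplecticGroup (Fin n) F} (e : IsConj g h) :
    (g : Matrix (Fin n ⊕ Fin n) (Fin n ⊕ Fin n) F).charpoly = (h : Matrix (Fin n ⊕ Fin n) (Fin n ⊕ Fin n) F).charpoly := by
  obtain ⟨x, hx⟩ := isConj_iff.1 (((Matrix.symplecticGroup (Fin n) F).subtype.toHomUnits).map_isConj e)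
  have := congrArg Units.val hx
  rw [Units.val_mul, Units.val_mul, Matrix.coe_units_inv] at this
  exact (Matrix.charpoly_units_conj x _).symm.trans (congrArg Matrix.charpoly this)

include p in
/-- Semisimple classes correspond to self-reciprocal polynomials, under any further condition on these. -/
theorem card_classes {n : ℕ} (C₀ : F[X] → Prop) :
    Nat.card {c : ConjClasses ↥(Matrix.symplecticGroup (Fin n) F) //
      ∃ g : ↥(Matrix.symplecticGroup (Fin n) F), ConjClasses.mk g = c ∧ (orderOf g).Coprime p ∧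
        C₀ (g : Matrix (Fin n ⊕ Fin n) (Fin n ⊕ Fin n) F).charpoly} =
      Nat.card {P : F[X] // P.Monic ∧ P.natDegree = n + n ∧ P.reverse = P ∧ C₀ P} := by
  classical
  choose g hg hgc using fun P : {P : F[X] // P.Monic ∧ P.natDegree = n + n ∧ P.reverse = P ∧ C₀ P} =>
    exists_semisimple p P.2.1 P.2.2.1 P.2.2.2.1
  symm
  refine Nat.card_congr (Equiv.ofBijective
    (fun P => ⟨ConjClasses.mk (g P), g P, rfl, hg P, by rw [hgc]; exact P.2.2.2.2⟩) ⟨fun P Q e => ?_, ?_⟩)
  · refine Subtype.ext ?_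
    rw [← hgc P, ← hgc Q]
    exact charpoly_isConj (ConjClasses.mk_eq_mk_iff_isConj.1 (congrArg Subtype.val e))
  · rintro ⟨_, h, rfl, hh, hC⟩
    refine ⟨⟨_, Matrix.charpoly_monic _, by rw [Matrix.charpoly_natDegree_eq_dim]; simp,
      charpoly_reverse h.2, hC⟩, Subtype.ext (ConjClasses.mk_eq_mk_iff_isConj.2 ?_)⟩
    exact Cfsg.Agent.S2389.result p n _ h (hg _) hh (hgc _)

end Cfsg.Agent.Lib.Classical.SympSemisimpleClasses
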